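import Cfsg.Agent.Lib.MetacyclicP.ItoDesign.Translations

/-!
# The affine space of translations
-/

set_option autoImplicit false
set_option linter.unusedSectionVars false
set_option maxHeartbeats 800000

namespace CfsgLib.MetacyclicP.ItoDesign

/-- An origin off a hyperplane. -/
structure Frame {G X Y : Type*} [Group G] [MulAction G X] [MulAction G Y] [Fintype G] [Fintype X]
    [Fintype Y] (D : Design G X Y) where
  /-- the hyperplane at infinity -/
  ω : Y
  /-- the origin -/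
  O : X
  hO : ¬ D.Mem O ω
  hA : D.HasAxial

namespace Frame

variable {G X Y : Type*} [Group G] [Fintype G] [MulAction G X] [MulAction G Y] [Fintype X] [Fintype Y]
variable {D : Design G X Y} (F : Frame D)

open scoped Classical

/-- The translations. -/
abbrev T : Subgroup G := D.trans F.ω

instance commT : CommGroup F.T :=
  { (inferInstance : Group F.T) with
    mul_comm := fun a b => Subtype.ext (D.trans_comm F.hA a.2 b.2) }

/-- The translations, written additively. -/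
abbrev V : Type _ := Additive F.T

/-- The group element of a vector. -/
def tr (v : F.V) : G := ((Additive.toMul v : F.T) : G)

theorem tr_mem (v : F.V) : F.tr v ∈ D.trans F.ω := (Additive.toMul v : F.T).2

theorem tr_add (u v : F.V) : F.tr (u + v) = F.tr u * F.tr v := rfl

theorem tr_zero : F.tr 0 = 1 := rfl

theorem tr_neg (v : F.V) : F.tr (-v) = (F.tr v)⁻¹ := rfl

theorem tr_inj {u v : F.V} (h : F.tr u = F.tr v) : u = v :=
  Additive.toMul.injective (Subtype.ext h)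

theorem tr_eq_one {v : F.V} : F.tr v = 1 ↔ v = 0 :=
  ⟨fun h => F.tr_inj (h.trans F.tr_zero.symm), fun h => h ▸ F.tr_zero⟩

/-- The point of a vector. -/
def pt (v : F.V) : X := F.tr v • F.O

theorem pt_zero : F.pt 0 = F.O := by rw [pt, tr_zero, one_smul]

theorem tr_pt (u v : F.V) : F.tr u • F.pt v = F.pt (u + v) := by rw [pt, pt, tr_add, mul_smul]

theorem pt_off (v : F.V) : ¬ D.Mem (F.pt v) F.ω :=
  fun h => F.hO ((D.ax_mem_iff (F.tr_mem v).1 F.O).1 h)

theorem pt_inj {u v : F.V} (h : F.pt u = F.pt v) : u = v :=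
  F.tr_inj (D.trans_unique F.hA (F.tr_mem u) (F.tr_mem v) F.hO h)

theorem exists_pt {x : X} (hx : ¬ D.Mem x F.ω) : ∃ v, F.pt v = x := by
  obtain ⟨g, hg, he⟩ := D.exists_trans F.hA F.hO hx
  exact ⟨Additive.ofMul ⟨g, hg⟩, he⟩

theorem tr_fix (v : F.V) {a : X} (ha : D.Mem a F.ω) : F.tr v • a = a := (F.tr_mem v).1 a ha

theorem tr_omega (v : F.V) : F.tr v • F.ω = F.ω := D.ax_fix_block (F.tr_mem v).1

/-- The translations with a given centre. -/
def comp (a : X) : AddSubgroup F.V where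
  carrier := {v | ∀ E, D.Mem a E → F.tr v • E = E}
  zero_mem' E _ := by rw [tr_zero, one_smul]
  add_mem' {u v} hu hv E hE := by rw [tr_add, mul_smul, hv E hE, hu E hE]
  neg_mem' {v} hv E hE := by rw [tr_neg, inv_smul_eq_iff, hv E hE]

theorem mem_comp {a : X} {v : F.V} : v ∈ F.comp a ↔ ∀ E, D.Mem a E → F.tr v • E = E := Iff.rfl

theorem ne_O {a : X} (ha : D.Mem a F.ω) : a ≠ F.O := fun e => F.hO (e ▸ ha)

theorem ne_pt {a : X} (ha : D.Mem a F.ω) (v : F.V) : a ≠ F.pt v := fun e => F.pt_off v (e ▸ ha)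

/-- A line through an affine point has one point at infinity. -/
theorem inf_unique {x y a b : X} (hxy : x ≠ y) (hx : ¬ D.Mem x F.ω) (ha : a ∈ D.pl x y)
    (hb : b ∈ D.pl x y) (haω : D.Mem a F.ω) (hbω : D.Mem b F.ω) : a = b := by
  by_contra h
  exact hx (D.pl_mem_of_two hxy ha hb h haω hbω).1

theorem exists_comp (v : F.V) : ∃ a, D.Mem a F.ω ∧ v ∈ F.comp a := by
  by_cases hv : v = 0
  · obtain ⟨a, ha⟩ := D.exists_mem F.ω
    exact ⟨a, ha, hv ▸ (F.comp a).zero_mem⟩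
  · have h1 : F.tr v ≠ 1 := fun h => hv (F.tr_eq_one.1 h)
    exact D.centre_mem (F.tr_mem v).1 h1 ((F.tr_mem v).2.resolve_left h1)

theorem pt_mem_pl {a : X} {v : F.V} (hv : v ∈ F.comp a) : F.pt v ∈ D.pl a F.O :=
  D.centre_line hv F.O

theorem comp_unique {a b : X} {v : F.V} (ha : D.Mem a F.ω) (hb : D.Mem b F.ω) (hva : v ∈ F.comp a)
    (hvb : v ∈ F.comp b) (hv : v ≠ 0) : a = b := by
  have hne : F.pt v ≠ F.O := fun h => hv (F.pt_inj (h.trans F.pt_zero.symm))
  have e1 := D.pl_eq (F.ne_O ha) (F.pt_mem_pl hva) (D.right_mem_pl a F.O) hne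
  have e2 := D.pl_eq (F.ne_O hb) (F.pt_mem_pl hvb) (D.right_mem_pl b F.O) hne
  exact F.inf_unique hne (F.pt_off v) (e1 ▸ D.left_mem_pl a F.O) (e2 ▸ D.left_mem_pl b F.O) ha hb

theorem mem_comp_iff {a : X} (ha : D.Mem a F.ω) {v : F.V} :
    v ∈ F.comp a ↔ F.pt v ∈ D.pl a F.O := by
  refine ⟨F.pt_mem_pl, fun h => ?_⟩
  by_cases hv : v = 0
  · exact hv ▸ (F.comp a).zero_mem
  obtain ⟨b, hb, hvb⟩ := F.exists_comp v
  have hne : F.pt v ≠ F.O := fun h => hv (F.pt_inj (h.trans F.pt_zero.symm))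
  have e1 := D.pl_eq (F.ne_O ha) h (D.right_mem_pl a F.O) hne
  have e2 := D.pl_eq (F.ne_O hb) (F.pt_mem_pl hvb) (D.right_mem_pl b F.O) hne
  exact (F.inf_unique hne (F.pt_off v) (e1 ▸ D.left_mem_pl a F.O) (e2 ▸ D.left_mem_pl b F.O) ha hb) ▸ hvb

theorem card_comp {a : X} (ha : D.Mem a F.ω) : Nat.card (F.comp a) = D.q := by
  have h : Nat.card (F.comp a) = ((D.pl a F.O).erase a).card := by
    rw [← Nat.card_eq_finsetCard]
    refine Nat.card_congr (Equiv.ofBijective (fun v => ⟨F.pt v.1, Finset.mem_erase.2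
      ⟨(F.ne_pt ha v.1).symm, F.pt_mem_pl v.2⟩⟩) ⟨fun u v huv => ?_, fun x => ?_⟩)
    · exact Subtype.ext (F.pt_inj (congrArg Subtype.val huv))
    · have hx := Finset.mem_erase.1 x.2
      have hxω : ¬ D.Mem x.1 F.ω := fun h =>
        hx.1 (F.inf_unique (F.ne_O ha).symm F.hO (by rw [D.pl_comm]; exact hx.2)
          (by rw [D.pl_comm]; exact D.left_mem_pl a F.O) h ha)
      obtain ⟨v, hv⟩ := F.exists_pt hxω
      exact ⟨⟨v, (F.mem_comp_iff ha).2 (by rw [hv]; exact hx.2)⟩, Subtype.ext hv⟩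
  rw [h, Finset.card_erase_of_mem (D.left_mem_pl a F.O), D.card_pl F.hA (F.ne_O ha), Nat.add_sub_cancel]

/-- Cosets of components are lines. -/
theorem mem_pl_iff {a : X} (ha : D.Mem a F.ω) (u v : F.V) :
    F.pt v ∈ D.pl a (F.pt u) ↔ v - u ∈ F.comp a := by
  rw [F.mem_comp_iff ha]
  constructor <;> intro h
  · have := D.smul_mem_pl (g := F.tr (-u)) h
    rwa [F.tr_pt, F.tr_pt, neg_add_cancel, F.pt_zero, F.tr_fix _ ha, neg_add_eq_sub] at this
  · have := D.smul_mem_pl (g := F.tr u) h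
    rwa [F.tr_pt, F.tr_fix _ ha, add_sub_cancel, ← F.pt_zero, F.tr_pt, add_zero] at this

/-- The translations fixing a hyperplane. -/
def sub (H : Y) : AddSubgroup F.V where
  carrier := {v | F.tr v • H = H}
  zero_mem' := show F.tr 0 • H = H by rw [tr_zero, one_smul]
  add_mem' {u v} (hu : F.tr u • H = H) (hv : F.tr v • H = H) :=
    show F.tr (u + v) • H = H by rw [tr_add, mul_smul, hv, hu]
  neg_mem' {v} (hv : F.tr v • H = H) :=
    show F.tr (-v) • H = H by rw [tr_neg, inv_smul_eq_iff, hv]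

theorem mem_sub_iff {H : Y} (hH : D.Mem F.O H) {v : F.V} : v ∈ F.sub H ↔ D.Mem (F.pt v) H := by
  refine ⟨fun h => ?_, fun h => ?_⟩
  · rw [← (show F.tr v • H = H from h)]
    exact (D.smul_mem _ _ _).2 hH
  · by_cases hv : v = 0
    · exact hv ▸ (F.sub H).zero_mem
    obtain ⟨a, ha, hva⟩ := F.exists_comp v
    have hne : F.pt v ≠ F.O := fun h => hv (F.pt_inj (h.trans F.pt_zero.symm))
    have e := D.pl_eq (F.ne_O ha) (F.pt_mem_pl hva) (D.right_mem_pl a F.O) hne
    exact hva H (D.mem_pl.1 (e ▸ D.left_mem_pl a F.O) H h hH)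

theorem comp_le_sub {H : Y} (hH : D.Mem F.O H) {a : X} (ha : D.Mem a F.ω) :
    F.comp a ≤ F.sub H ↔ D.Mem a H := by
  refine ⟨fun h => ?_, fun h v hv => hv H h⟩
  have h2 : 1 < Nat.card (F.comp a) := by
    rw [F.card_comp ha]; have := (D.order_facts F.hA).2.1; omega
  obtain ⟨v, hv0⟩ : ∃ v : F.comp a, v ≠ 0 := by
    haveI : Nontrivial (F.comp a) := Finite.one_lt_card_iff_nontrivial.1 h2
    exact exists_ne 0
  have hv1 : (v : F.V) ≠ 0 := fun e => hv0 (Subtype.ext e)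
  have hne : F.pt v ≠ F.O := fun h => hv1 (F.pt_inj (h.trans F.pt_zero.symm))
  have hp := (F.mem_sub_iff hH).1 (h v.2)
  have e := D.pl_eq (F.ne_O ha) (F.pt_mem_pl v.2) (D.right_mem_pl a F.O) hne
  exact D.mem_pl.1 (e ▸ D.left_mem_pl a F.O) H hp hH

/-- A hyperplane through the origin and a component off it. -/
theorem decomp {H : Y} (hH : D.Mem F.O H) {a : X} (ha : D.Mem a F.ω) (haH : ¬ D.Mem a H)
    (v : F.V) : ∃ p ∈ F.comp a, v - p ∈ F.sub H := by
  obtain ⟨R, hR, hRH⟩ := D.exists_pl_mem F.hA (F.ne_pt ha v) H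
  have hRω : ¬ D.Mem R F.ω := fun h => haH ((F.inf_unique (F.ne_pt ha v).symm (F.pt_off v)
    (by rw [D.pl_comm]; exact hR) (by rw [D.pl_comm]; exact D.left_mem_pl _ _) h ha) ▸ hRH)
  obtain ⟨w, hw⟩ := F.exists_pt hRω
  refine ⟨v - w, ?_, ?_⟩
  · rw [← neg_sub]
    exact (F.comp a).neg_mem ((F.mem_pl_iff ha v w).1 (hw.symm ▸ hR))
  · rw [sub_sub_cancel, F.mem_sub_iff hH, hw]; exact hRH

theorem comp_inter {H : Y} (hH : D.Mem F.O H) {a : X} (ha : D.Mem a F.ω) (haH : ¬ D.Mem a H)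
    {v : F.V} (hv : v ∈ F.comp a) (hv' : v ∈ F.sub H) : v = 0 := by
  by_contra h0
  have hne : F.pt v ≠ F.O := fun h => h0 (F.pt_inj (h.trans F.pt_zero.symm))
  have e := D.pl_eq (F.ne_O ha) (F.pt_mem_pl hv) (D.right_mem_pl a F.O) hne
  exact haH (D.mem_pl.1 (e ▸ D.left_mem_pl a F.O) H ((F.mem_sub_iff hH).1 hv') hH)

/-- The subgroup generated by some components. -/
def span (S : Finset X) : AddSubgroup F.V := ⨆ a ∈ S, F.comp a

theorem comp_le_span {S : Finset X} {a : X} (ha : a ∈ S) : F.comp a ≤ F.span S :=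
  le_iSup₂ (f := fun a (_ : a ∈ S) => F.comp a) a ha

theorem span_insert (a : X) (S : Finset X) : F.span (insert a S) = F.comp a ⊔ F.span S :=
  Finset.iSup_insert a S _

/-- Spans of components are intersections of hyperplanes. -/
theorem separation (S : Finset X) : (∀ a ∈ S, D.Mem a F.ω) → ∀ y, y ∉ F.span S →
    ∃ H, D.Mem F.O H ∧ F.span S ≤ F.sub H ∧ y ∉ F.sub H := by
  induction S using Finset.induction with
  | empty =>
    intro _ y hy
    have hy0 : y ≠ 0 := fun e => hy (e ▸ (F.span ∅).zero_mem)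
    have hne : F.pt y ≠ F.O := fun h => hy0 (F.pt_inj (h.trans F.pt_zero.symm))
    obtain ⟨H, hH, hH'⟩ : ∃ H ∈ D.blks F.O, H ∉ D.blks (F.pt y) := by
      by_contra h
      push Not at h
      exact hne (D.blks_inj (Finset.eq_of_subset_of_card_le h (by rw [D.card_blks, D.card_blks]))).symm
    rw [D.mem_blks] at hH
    exact ⟨H, hH, by simp [span], fun h => hH' (D.mem_blks.2 ((F.mem_sub_iff hH).1 h))⟩
  | insert a S haS ih =>
    intro hS y hy
    have hS' : ∀ b ∈ S, D.Mem b F.ω := fun b hb => hS b (Finset.mem_insert_of_mem hb)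
    have ha := hS a (Finset.mem_insert_self a S)
    rw [F.span_insert] at hy ⊢
    by_cases hsub : F.comp a ≤ F.span S
    · rw [sup_eq_right.2 hsub] at hy ⊢
      exact ih hS' y hy
    obtain ⟨v, hva, hvS⟩ := SetLike.not_le_iff_exists.1 hsub
    obtain ⟨W, hW, hSW, hvW⟩ := ih hS' v hvS
    have haW : ¬ D.Mem a W := fun h => hvW ((F.comp_le_sub hW ha).2 h hva)
    obtain ⟨p, hp, hw⟩ := F.decomp hW ha haW y
    have hwS : y - p ∉ F.span S := fun h => hy (by
      rw [← add_sub_cancel p y]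
      exact (F.comp a ⊔ F.span S).add_mem (le_sup_left (b := F.span S) hp)
        (le_sup_right (a := F.comp a) h))
    obtain ⟨W2, hW2, hSW2, hwW2⟩ := ih hS' (y - p) hwS
    have hne : W ≠ W2 := fun e => hwW2 (e ▸ hw)
    obtain ⟨W', hW', haW'⟩ := (D.order_facts F.hA).2.2.2.2 W W2 a hne
    have hOW' : D.Mem F.O W' := D.mem_line.1 hW' _ hW hW2
    refine ⟨W', hOW', sup_le ((F.comp_le_sub hOW' ha).2 haW') ?_, fun hyW' => hwW2 ?_⟩
    · intro u hu
      rw [F.mem_sub_iff hOW']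
      exact D.mem_line.1 hW' _ ((F.mem_sub_iff hW).1 (hSW hu)) ((F.mem_sub_iff hW2).1 (hSW2 hu))
    · have hw' : y - p ∈ F.sub W' := (F.sub W').sub_mem hyW' (hp W' haW')
      have hne' : W ≠ W' := fun e => haW (e ▸ haW')
      exact (F.mem_sub_iff hW2).2 (D.mem_both hne (D.left_mem_line W W2) hW' hne'
        ((F.mem_sub_iff hW).1 hw) ((F.mem_sub_iff hOW').1 hw')).2

theorem card_V : Nat.card F.V + D.k = Fintype.card X := by
  have e : F.V ≃ {x : X // ¬ D.Mem x F.ω} :=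
    Equiv.ofBijective (fun v => ⟨F.pt v, F.pt_off v⟩)
      ⟨fun u v h => F.pt_inj (congrArg Subtype.val h), fun x => by
        obtain ⟨v, hv⟩ := F.exists_pt x.2; exact ⟨v, Subtype.ext hv⟩⟩
  rw [Nat.card_congr e, Nat.card_eq_fintype_card, ← D.card_pts F.ω, Fintype.card_subtype_compl,
    Fintype.card_subtype]
  have h : (Finset.univ.filter fun x => D.Mem x F.ω) = D.pts F.ω := by ext x; simp [D.mem_pts]
  rw [h, Nat.sub_add_cancel (Finset.card_le_univ _)]

/-- There is a basis of components, with dual hyperplanes. -/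
theorem exists_basis : ∃ (m : ℕ) (P : Fin m → X) (H : Fin m → Y), 2 ≤ m ∧
    (∀ i, D.Mem (P i) F.ω) ∧ (∀ i, D.Mem F.O (H i)) ∧ (∀ i, ¬ D.Mem (P i) (H i)) ∧
    (∀ i j, i ≠ j → D.Mem (P j) (H i)) ∧ (⨆ i, F.comp (P i)) = ⊤ := by
  set 𝒮 := (Finset.univ : Finset (Finset X)).filter
    (fun S => (∀ a ∈ S, D.Mem a F.ω) ∧ F.span S = ⊤) with h𝒮
  have hne : 𝒮.Nonempty := ⟨D.pts F.ω, Finset.mem_filter.2 ⟨Finset.mem_univ _,
    fun a ha => D.mem_pts.1 ha, eq_top_iff.2 fun v _ => by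
      obtain ⟨a, ha, hva⟩ := F.exists_comp v
      exact F.comp_le_span (D.mem_pts.2 ha) hva⟩⟩
  obtain ⟨S, hS, hmin⟩ := Finset.exists_min_image 𝒮 Finset.card hne
  obtain ⟨-, hSω, hStop⟩ := Finset.mem_filter.1 hS
  have hHex : ∀ a ∈ S, ∃ H, D.Mem F.O H ∧ ¬ D.Mem a H ∧ ∀ b ∈ S, b ≠ a → D.Mem b H := by
    intro a ha
    have hlt : F.span (S.erase a) ≠ ⊤ := fun h => by
      have := hmin (S.erase a) (Finset.mem_filter.2
        ⟨Finset.mem_univ _, fun b hb => hSω b (Finset.mem_of_mem_erase hb), h⟩)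
      rw [Finset.card_erase_of_mem ha] at this
      have := Finset.card_pos.2 ⟨a, ha⟩
      omega
    obtain ⟨v, -, hv⟩ := SetLike.exists_of_lt (lt_top_iff_ne_top.2 hlt)
    obtain ⟨H, hH, hle, hvH⟩ := F.separation (S.erase a)
      (fun b hb => hSω b (Finset.mem_of_mem_erase hb)) v hv
    refine ⟨H, hH, fun haH => hvH ?_, fun b hb hne =>
      (F.comp_le_sub hH (hSω b hb)).1 ((F.comp_le_span (Finset.mem_erase.2 ⟨hne, hb⟩)).trans hle)⟩
    have htop : F.span (insert a (S.erase a)) = ⊤ := by rw [Finset.insert_erase ha]; exact hStop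
    rw [F.span_insert] at htop
    exact (sup_le ((F.comp_le_sub hH (hSω a ha)).2 haH) hle) (htop ▸ AddSubgroup.mem_top v)
  haveI : Nonempty Y := ⟨F.ω⟩
  choose! Hf hHf using hHex
  let e := S.equivFin.symm
  have htop : (⨆ i, F.comp (e i).1) = ⊤ := by
    rw [← hStop]
    refine le_antisymm (iSup_le fun i => F.comp_le_span (e i).2) (iSup₂_le fun a ha => ?_)
    refine le_trans (le_of_eq ?_) (le_iSup (fun i => F.comp (e i).1) (e.symm ⟨a, ha⟩))
    rw [Equiv.apply_symm_apply]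
  refine ⟨S.card, fun i => (e i).1, fun i => Hf (e i).1, ?_, fun i => hSω _ (e i).2,
    fun i => (hHf _ (e i).2).1, fun i => (hHf _ (e i).2).2.1,
    fun i j hij => (hHf _ (e i).2).2.2 _ (e j).2 (fun h => hij (e.injective (Subtype.ext h)).symm), htop⟩
  by_contra hm
  obtain ⟨hkq, hq2, hv, -, -⟩ := D.order_facts F.hA
  have hcV : Nat.card F.V ≤ D.q := by
    rcases S.eq_empty_or_nonempty with h | ⟨a, ha⟩
    · have : (⊥ : AddSubgroup F.V) = ⊤ := by rw [← hStop, h]; simp [span]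
      have h1 : Nat.card (⊤ : AddSubgroup F.V) = 1 := by rw [← this]; simp
      rw [AddSubgroup.card_top] at h1
      omega
    · have hS1 : S = {a} := (Finset.eq_singleton_iff_unique_mem.2 ⟨ha, fun b hb =>
        Finset.card_le_one.1 (by omega) b hb a ha⟩)
      have : F.comp a = ⊤ := by rw [← hStop, hS1]; simp [span]
      rw [← AddSubgroup.card_top (G := F.V), ← this, F.card_comp (hSω a ha)]
  have := F.card_V
  rw [hv] at this
  have := D.two_le
  nlinarith

end Frame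

end CfsgLib.MetacyclicP.ItoDesign
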