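import Mathlib

/-!
# Symmetric designs with a doubly transitive group

The two classical facts about symmetric designs (dual design, equal numbers of fixed points and fixed
blocks), and their consequences for doubly transitive groups.
-/

set_option autoImplicit false
set_option linter.unusedSectionVars false
set_option maxHeartbeats 400000

open Matrix

namespace CfsgLib.MetacyclicP.ItoDesign

section Incidence

variable {X Y : Type*} [Fintype X] [Fintype Y]

/-- Blocks of a symmetric incidence structure meet in `lam` points; an automorphism fixes as many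
points as blocks. -/
theorem incidence_facts (M : X → Y → Prop) {k lam : ℕ} (hlk : lam < k)
    (hv : Fintype.card Y = Fintype.card X)
    (hy : ∀ y, Nat.card {x // M x y} = k) (hx : ∀ x, Nat.card {y // M x y} = k)
    (hxx : ∀ x x', x ≠ x' → Nat.card {y // M x y ∧ M x' y} = lam) :
    (∀ y y', y ≠ y' → Nat.card {x // M x y ∧ M x y'} = lam) ∧
    ∀ (σ : Equiv.Perm X) (τ : Equiv.Perm Y), (∀ x y, M (σ x) (τ y) ↔ M x y) →
      Nat.card {x // σ x = x} = Nat.card {y // τ y = y} := by
  classical
  let e : Y ≃ X := Fintype.equivOfCardEq hv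
  obtain ⟨N, hN⟩ : ∃ N : Matrix X X ℚ, ∀ x z, N x z = if M x (e.symm z) then 1 else 0 :=
    ⟨Matrix.of fun x z => if M x (e.symm z) then 1 else 0, fun _ _ => rfl⟩
  obtain ⟨J, hJ⟩ : ∃ J : Matrix X X ℚ, ∀ x z, J x z = 1 := ⟨Matrix.of fun _ _ => 1, fun _ _ => rfl⟩
  let A : Matrix X X ℚ := ((k : ℚ) - lam) • 1 + (lam : ℚ) • J
  have hcount : ∀ (p : Y → Prop), ∑ z, (if p (e.symm z) then (1 : ℚ) else 0) = Nat.card {y // p y} := by
    intro p
    rw [Nat.card_eq_fintype_card, Fintype.card_subtype, Finset.sum_boole]
    norm_cast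
    exact Finset.card_equiv e.symm (by simp)
  have hcount' : ∀ (p : X → Prop), ∑ z, (if p z then (1 : ℚ) else 0) = Nat.card {y // p y} := by
    intro p
    rw [Nat.card_eq_fintype_card, Fintype.card_subtype, Finset.sum_boole]
  have hNN : N * Nᵀ = A := by
    ext x x'
    simp only [Matrix.mul_apply, Matrix.transpose_apply, hN, A, hJ, Matrix.add_apply, Matrix.smul_apply,
      smul_eq_mul, mul_one]
    rw [show (∑ z, (if M x (e.symm z) then (1:ℚ) else 0) * if M x' (e.symm z) then 1 else 0) =
      (Nat.card {y // M x y ∧ M x' y} : ℚ) from by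
        rw [← hcount (fun y => M x y ∧ M x' y)]
        exact Finset.sum_congr rfl fun z _ => by split_ifs <;> simp_all]
    by_cases h : x = x'
    · subst h
      rw [Matrix.one_apply_eq, show Nat.card {y // M x y ∧ M x y} = k from
        (Nat.card_congr (Equiv.subtypeEquivRight fun y => and_self_iff)).trans (hx x)]
      ring
    · rw [Matrix.one_apply_ne h, hxx x x' h]; ring
  have hNJ : N * J = (k : ℚ) • J := by
    ext x x'
    simp only [Matrix.mul_apply, hN, hJ, Matrix.smul_apply, smul_eq_mul, mul_one]
    rw [hcount (fun y => M x y), hx]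
  have hJN : J * N = (k : ℚ) • J := by
    ext x x'
    simp only [Matrix.mul_apply, hN, hJ, Matrix.smul_apply, smul_eq_mul, mul_one, one_mul]
    rw [hcount' (fun z => M z (e.symm x')), hy]
  have hkl : (0 : ℚ) < (k : ℚ) - lam := by
    have : (lam : ℚ) < k := by exact_mod_cast hlk
    linarith
  have hu : IsUnit Nᵀ := by
    rw [← Matrix.mulVec_injective_iff_isUnit, ← Matrix.coe_mulVecLin, injective_iff_map_eq_zero]
    intro v hv0
    rw [Matrix.mulVecLin_apply] at hv0
    have h1 : A *ᵥ v = 0 := by rw [← hNN, ← Matrix.mulVec_mulVec, hv0, Matrix.mulVec_zero]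
    have hJv : ∀ i, (J *ᵥ v) i = ∑ j, v j := fun i => by simp [Matrix.mulVec, dotProduct, hJ]
    have h2 : ∀ i, ((k : ℚ) - lam) * v i + lam * ∑ j, v j = 0 := fun i => by
      have := congrFun h1 i
      simpa [A, Matrix.add_mulVec, Matrix.smul_mulVec, hJv] using this
    have h3 : (((k : ℚ) - lam) + lam * Fintype.card X) * ∑ j, v j = 0 := by
      have := Finset.sum_eq_zero (s := (Finset.univ : Finset X)) fun i _ => h2 i
      rw [Finset.sum_add_distrib, ← Finset.mul_sum, Finset.sum_const, nsmul_eq_mul,
        Finset.card_univ] at this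
      linear_combination this
    have h4 : (0 : ℚ) < ((k : ℚ) - lam) + lam * Fintype.card X := by positivity
    have h5 := (mul_eq_zero.1 h3).resolve_left h4.ne'
    funext i
    have := h2 i
    rw [h5, mul_zero, add_zero] at this
    exact (mul_eq_zero.1 this).resolve_left hkl.ne'
  have hNu : IsUnit N := by
    have := (Matrix.isUnit_iff_isUnit_det _).1 hu
    rw [Matrix.det_transpose] at this
    exact (Matrix.isUnit_iff_isUnit_det _).2 this
  have hNtN : Nᵀ * N = A := by
    apply hNu.mul_left_cancel
    rw [← mul_assoc, hNN]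
    simp only [A, add_mul, mul_add, smul_mul_assoc, mul_smul_comm, one_mul, mul_one, hNJ, hJN]
  refine ⟨fun y y' hne => ?_, fun σ τ hστ => ?_⟩
  · have := congrFun (congrFun hNtN (e y)) (e y')
    simp only [Matrix.mul_apply, Matrix.transpose_apply, hN, A, hJ, Equiv.symm_apply_apply,
      Matrix.add_apply, Matrix.smul_apply, smul_eq_mul, mul_one] at this
    rw [show (∑ z, (if M z y then (1:ℚ) else 0) * if M z y' then 1 else 0) =
      (Nat.card {x // M x y ∧ M x y'} : ℚ) from by
        rw [← hcount' (fun x => M x y ∧ M x y')]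
        exact Finset.sum_congr rfl fun z _ => by split_ifs <;> simp_all,
      Matrix.one_apply_ne (fun h => hne (e.injective h))] at this
    exact_mod_cast show (Nat.card {x // M x y ∧ M x y'} : ℚ) = lam by rw [this]; ring
  · let π : Equiv.Perm X := e.symm.trans (τ.trans e)
    obtain ⟨P, hP⟩ : ∃ P : Matrix X X ℚ, ∀ x x', P x x' = if σ x = x' then 1 else 0 :=
      ⟨Matrix.of fun x x' => if σ x = x' then 1 else 0, fun _ _ => rfl⟩
    obtain ⟨Q, hQ⟩ : ∃ Q : Matrix X X ℚ, ∀ x x', Q x x' = if π x = x' then 1 else 0 :=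
      ⟨Matrix.of fun x x' => if π x = x' then 1 else 0, fun _ _ => rfl⟩
    have hPN : P * N = N * Q := by
      ext x z
      simp only [Matrix.mul_apply, hP, hQ, ite_mul, mul_ite, one_mul, mul_one, zero_mul, mul_zero]
      rw [Finset.sum_ite_eq, if_pos (Finset.mem_univ _)]
      rw [Finset.sum_eq_single (π.symm z) (fun b _ hb => if_neg fun h => hb (by rw [← h]; simp))
        (fun h => absurd (Finset.mem_univ _) h), if_pos (by simp)]
      simp only [hN]
      have : M (σ x) (e.symm z) ↔ M x (e.symm (π.symm z)) := by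
        rw [← hστ x (e.symm (π.symm z))]
        simp [π]
      simp [this]
    have htr : P.trace = Q.trace := by
      obtain ⟨Ni, h⟩ := hNu.exists_right_inv
      have h' : Ni * N = 1 := mul_eq_one_comm.1 h
      have : P = N * Q * Ni := by rw [← hPN, mul_assoc, h, mul_one]
      rw [this, Matrix.trace_mul_cycle, h', one_mul]
    simp only [Matrix.trace, Matrix.diag, hP, hQ] at htr
    rw [hcount' (fun x => σ x = x), hcount' (fun x => π x = x)] at htr
    have h6 : Nat.card {x // π x = x} = Nat.card {y // τ y = y} :=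
      Nat.card_congr (Equiv.subtypeEquiv e.symm fun x => by
        simp only [π, Equiv.trans_apply]
        exact (Equiv.eq_symm_apply e).symm)
    rw [← h6]
    exact_mod_cast htr

end Incidence

section Orbits

variable {G : Type*} [Group G] [Finite G]

/-- Burnside: the number of orbits is determined by the numbers of fixed points. -/
theorem card_orbits_congr {A B : Type*} [Finite A] [Finite B] [MulAction G A] [MulAction G B]
    (h : ∀ g : G, Nat.card {a : A // g • a = a} = Nat.card {b : B // g • b = b}) :
    Nat.card (MulAction.orbitRel.Quotient G A) = Nat.card (MulAction.orbitRel.Quotient G B) := by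
  classical
  cases nonempty_fintype G
  cases nonempty_fintype A
  cases nonempty_fintype B
  have h1 := MulAction.sum_card_fixedBy_eq_card_orbits_mul_card_group G A
  have h2 := MulAction.sum_card_fixedBy_eq_card_orbits_mul_card_group G B
  rw [Finset.sum_congr rfl fun g _ => show Fintype.card (MulAction.fixedBy A g) =
    Fintype.card (MulAction.fixedBy B g) from by
      rw [← Nat.card_eq_fintype_card, ← Nat.card_eq_fintype_card]
      exact h g, h2] at h1
  have := mul_right_cancel₀ (Fintype.card_pos (α := G)).ne' h1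
  simpa [MulAction.orbitRel.Quotient, Nat.card_eq_fintype_card] using this.symm

/-- Two orbit classes when an invariant splits them. -/
theorem card_quot_two {A : Type*} [MulAction G A] (q : A → Prop) {a b : A} (ha : q a) (hb : ¬ q b)
    (hq : ∀ (g : G) (c : A), q (g • c) ↔ q c)
    (h1 : ∀ c, q c → ∃ g : G, g • a = c) (h2 : ∀ c, ¬ q c → ∃ g : G, g • b = c) :
    Nat.card (MulAction.orbitRel.Quotient G A) = 2 := by
  rw [Nat.card_eq_two_iff]
  refine ⟨Quotient.mk'' a, Quotient.mk'' b, ?_, ?_⟩
  · intro h
    obtain ⟨g, hg⟩ := MulAction.orbitRel_apply.1 (Quotient.eq''.1 h)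
    exact hb ((hq g b).1 (by simp only at hg; rw [hg]; exact ha))
  · rw [Set.eq_univ_iff_forall]
    intro c
    induction c using Quotient.inductionOn' with
    | h c =>
      by_cases hc : q c
      · obtain ⟨g, hg⟩ := h1 c hc
        exact Or.inl (Quotient.eq''.2 (MulAction.orbitRel_apply.2 ⟨g, hg⟩))
      · obtain ⟨g, hg⟩ := h2 c hc
        exact Or.inr (Quotient.eq''.2 (MulAction.orbitRel_apply.2 ⟨g, hg⟩))

/-- With two orbits, an invariant predicate determines the orbit. -/
theorem exists_smul_of_two {A : Type*} [MulAction G A]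
    (h : Nat.card (MulAction.orbitRel.Quotient G A) = 2) (q : A → Prop)
    (hq : ∀ (g : G) (c : A), q (g • c) ↔ q c) {b c c' : A} (hc : q c) (hc' : q c') (hb : ¬ q b) :
    ∃ g : G, g • c = c' := by
  obtain ⟨u, w, -, huw⟩ := Nat.card_eq_two_iff.1 h
  have key : ∀ s t : A, q s → ¬ q t →
      (Quotient.mk'' s : MulAction.orbitRel.Quotient G A) ≠ Quotient.mk'' t := by
    intro s t hs ht he
    obtain ⟨g, hg⟩ := MulAction.orbitRel_apply.1 (Quotient.eq''.1 he)
    exact ht ((hq g t).1 (by simp only at hg; rw [hg]; exact hs))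
  have hm : ∀ s : A, (Quotient.mk'' s : MulAction.orbitRel.Quotient G A) = u ∨
      (Quotient.mk'' s : MulAction.orbitRel.Quotient G A) = w := fun s => by
    have := Set.eq_univ_iff_forall.1 huw (Quotient.mk'' s)
    simpa using this
  have he : (Quotient.mk'' c' : MulAction.orbitRel.Quotient G A) = Quotient.mk'' c := by
    have h1 := key c b hc hb
    have h2 := key c' b hc' hb
    rcases hm c with e1 | e1 <;> rcases hm c' with e2 | e2 <;> rcases hm b with e3 | e3 <;>
      simp_all
  exact MulAction.orbitRel_apply.1 (Quotient.eq''.1 he)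

end Orbits

/-- A symmetric design with a group doubly transitive on points and on blocks. -/
structure Design (G : Type*) [Group G] (X Y : Type*) [MulAction G X] [MulAction G Y] where
  /-- incidence -/
  Mem : X → Y → Prop
  smul_mem : ∀ (g : G) x y, Mem (g • x) (g • y) ↔ Mem x y
  /-- block size -/
  k : ℕ
  /-- number of blocks through two points -/
  lam : ℕ
  two_le : 2 ≤ k
  add_two_le : k + 2 ≤ Nat.card X
  card_eq : Nat.card Y = Nat.card X
  card_pts' : ∀ y, Nat.card {x // Mem x y} = k
  card_blks' : ∀ x, Nat.card {y // Mem x y} = k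
  card_blks₂' : ∀ x x', x ≠ x' → Nat.card {y // Mem x y ∧ Mem x' y} = lam
  card_pts₂' : ∀ y y', y ≠ y' → Nat.card {x // Mem x y ∧ Mem x y'} = lam
  two_x : ∀ a b a' b' : X, a ≠ b → a' ≠ b' → ∃ g : G, g • a = a' ∧ g • b = b'
  two_y : ∀ a b a' b' : Y, a ≠ b → a' ≠ b' → ∃ g : G, g • a = a' ∧ g • b = b'
  faithful : ∀ g : G, (∀ x : X, g • x = x) → g = 1

/-- Counting flag pairs through one point. -/
theorem count_eq {X Y : Type*} [Fintype X] [Fintype Y] (M : X → Y → Prop) {k lam : ℕ}
    (hy : ∀ y, Nat.card {x // M x y} = k) (hx : ∀ x, Nat.card {y // M x y} = k)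
    (hxx : ∀ x x', x ≠ x' → Nat.card {y // M x y ∧ M x' y} = lam) (x : X) :
    lam * (Fintype.card X - 1) + k = k * k := by
  classical
  have h := Finset.sum_card_bipartiteAbove_eq_sum_card_bipartiteBelow
    (fun (x' : X) (y : Y) => M x' y) (s := Finset.univ) (t := Finset.univ.filter fun y => M x y)
  have hR : ∀ y ∈ Finset.univ.filter (fun y => M x y),
      ((Finset.univ : Finset X).bipartiteBelow (fun (x' : X) (y : Y) => M x' y) y).card = k := by
    intro y _
    rw [← hy y, Nat.card_eq_fintype_card, Fintype.card_subtype]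
    rfl
  have hk : (Finset.univ.filter fun y => M x y).card = k := by
    rw [← hx x, Nat.card_eq_fintype_card, Fintype.card_subtype]
  have hL : ∀ x' ∈ (Finset.univ : Finset X).erase x,
      ((Finset.univ.filter fun y => M x y).bipartiteAbove (fun (x' : X) (y : Y) => M x' y) x').card =
        lam := by
    intro x' hx'
    rw [← hxx x x' (Finset.ne_of_mem_erase hx').symm, Nat.card_eq_fintype_card, Fintype.card_subtype]
    congr 1; ext y; simp [Finset.mem_bipartiteAbove]
  rw [Finset.sum_congr rfl hR, Finset.sum_const, smul_eq_mul, hk,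
    ← Finset.add_sum_erase _ _ (Finset.mem_univ x), Finset.sum_congr rfl hL, Finset.sum_const,
    smul_eq_mul, Finset.card_erase_of_mem (Finset.mem_univ x), Finset.card_univ] at h
  have h0 : ((Finset.univ.filter fun y => M x y).bipartiteAbove
      (fun (x' : X) (y : Y) => M x' y) x).card = k := by
    conv_rhs => rw [← hk]
    congr 1; ext y; simp [Finset.mem_bipartiteAbove]
  rw [h0] at h
  linarith [Nat.mul_comm (Fintype.card X - 1) lam]

namespace Design

variable {G X Y : Type*} [Group G] [MulAction G X] [MulAction G Y] [Fintype X] [Fintype Y]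
variable (D : Design G X Y)

/-- The points of a block. -/
noncomputable def pts (y : Y) : Finset X := by
  classical exact Finset.univ.filter fun x => D.Mem x y

/-- The blocks through a point. -/
noncomputable def blks (x : X) : Finset Y := by
  classical exact Finset.univ.filter fun y => D.Mem x y

theorem mem_pts {x : X} {y : Y} : x ∈ D.pts y ↔ D.Mem x y := by simp [pts]

theorem mem_blks {x : X} {y : Y} : y ∈ D.blks x ↔ D.Mem x y := by simp [blks]

theorem card_pts (y : Y) : (D.pts y).card = D.k := by
  classical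
  rw [← D.card_pts' y, Nat.card_eq_fintype_card, Fintype.card_subtype, pts]

theorem card_blks (x : X) : (D.blks x).card = D.k := by
  classical
  rw [← D.card_blks' x, Nat.card_eq_fintype_card, Fintype.card_subtype, blks]

theorem card_pts₂ [DecidableEq X] {y y' : Y} (h : y ≠ y') : (D.pts y ∩ D.pts y').card = D.lam := by
  classical
  rw [← D.card_pts₂' y y' h, Nat.card_eq_fintype_card, Fintype.card_subtype]
  congr 1; ext x; simp [mem_pts]

theorem card_blks₂ [DecidableEq Y] {x x' : X} (h : x ≠ x') :
    (D.blks x ∩ D.blks x').card = D.lam := by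
  classical
  rw [← D.card_blks₂' x x' h, Nat.card_eq_fintype_card, Fintype.card_subtype]
  congr 1; ext y; simp [mem_blks]

include D in
theorem four_le : 4 ≤ Fintype.card X := by
  have := D.add_two_le; have := D.two_le
  rw [Nat.card_eq_fintype_card] at *
  omega

include D in
theorem card_y : Fintype.card Y = Fintype.card X := by
  simpa [Nat.card_eq_fintype_card] using D.card_eq

include D in
theorem k_lt : D.k + 2 ≤ Fintype.card X := by
  simpa [Nat.card_eq_fintype_card] using D.add_two_le

include D in
theorem count : D.lam * (Fintype.card X - 1) + D.k = D.k * D.k := by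
  obtain ⟨x⟩ : Nonempty X := Fintype.card_pos_iff.1 (by have := D.four_le; omega)
  exact count_eq D.Mem D.card_pts' D.card_blks' D.card_blks₂' x

include D in
theorem lam_pos : 1 ≤ D.lam := by
  by_contra h
  have h0 : D.lam = 0 := by omega
  have := D.count
  rw [h0] at this
  have := D.two_le
  nlinarith

include D in
theorem lam_add_two_le : D.lam + 2 ≤ D.k := by
  have h := D.count
  have := D.k_lt
  have := D.lam_pos
  have := D.two_le
  obtain ⟨w, hw⟩ : ∃ w, Fintype.card X = D.k + 2 + w := ⟨_, (Nat.add_sub_cancel' D.k_lt).symm⟩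
  rw [hw, show D.k + 2 + w - 1 = D.k + 1 + w by omega] at h
  by_contra hh
  rcases Nat.lt_or_ge D.lam D.k with hl | hl
  · have : D.lam + 1 = D.k := by omega
    nlinarith
  · nlinarith

include D in
theorem lam_lt : D.lam < D.k := by have := D.lam_add_two_le; omega

theorem pts_inj {y y' : Y} (h : D.pts y = D.pts y') : y = y' := by
  classical
  by_contra hne
  have := D.card_pts₂ hne
  rw [h, Finset.inter_self, D.card_pts] at this
  exact D.lam_lt.ne' this

theorem blks_inj {x x' : X} (h : D.blks x = D.blks x') : x = x' := by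
  classical
  by_contra hne
  have := D.card_blks₂ hne
  rw [h, Finset.inter_self, D.card_blks] at this
  exact D.lam_lt.ne' this

theorem mem_smul {g : G} {x : X} {y : Y} : D.Mem x (g • y) ↔ D.Mem (g⁻¹ • x) y := by
  conv_lhs => rw [← smul_inv_smul g x, D.smul_mem]

include D in
theorem fix_card (g : G) :
    Nat.card {x : X // g • x = x} = Nat.card {y : Y // g • y = y} :=
  (incidence_facts D.Mem D.lam_lt D.card_y D.card_pts' D.card_blks' D.card_blks₂').2
    (MulAction.toPerm g) (MulAction.toPerm g) (fun x y => D.smul_mem g x y)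

include D in
theorem faithful_y {g : G} (h : ∀ y : Y, g • y = y) : g = 1 :=
  D.faithful g fun x => D.blks_inj (by
    ext y
    rw [D.mem_blks, D.mem_blks]
    conv_lhs => rw [← h y]
    exact D.smul_mem g x y)

/-- The dual design. -/
def dual : Design G Y X where
  Mem y x := D.Mem x y
  smul_mem g y x := D.smul_mem g x y
  k := D.k
  lam := D.lam
  two_le := D.two_le
  add_two_le := by rw [D.card_eq]; exact D.add_two_le
  card_eq := D.card_eq.symm
  card_pts' := D.card_blks'
  card_blks' := D.card_pts'
  card_blks₂' := D.card_pts₂'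
  card_pts₂' := D.card_blks₂'
  two_x := D.two_y
  two_y := D.two_x
  faithful _ h := D.faithful_y h

theorem exists_mem (y : Y) : ∃ x, D.Mem x y := by
  obtain ⟨x, hx⟩ : (D.pts y).Nonempty := Finset.card_pos.1 (by
    rw [D.card_pts]; have := D.two_le; omega)
  exact ⟨x, D.mem_pts.1 hx⟩

theorem exists_not_mem (y : Y) : ∃ x, ¬ D.Mem x y := by
  by_contra h
  push Not at h
  have : D.pts y = Finset.univ := Finset.eq_univ_iff_forall.2 fun x => D.mem_pts.2 (h x)
  have h1 := D.card_pts y
  rw [this, Finset.card_univ] at h1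
  have := D.k_lt; omega

/-- The group is transitive on non-incident pairs. -/
theorem exists_smul_antiflag [Finite G] {x x' : X} {y y' : Y} (h : ¬ D.Mem x y)
    (h' : ¬ D.Mem x' y') : ∃ g : G, g • x = x' ∧ g • y = y' := by
  classical
  have hc : Nat.card (MulAction.orbitRel.Quotient G (X × Y)) = 2 := by
    rw [← card_orbits_congr (A := X × X)]
    · obtain ⟨a, b, hab⟩ := Fintype.exists_pair_of_one_lt_card
        (show 1 < Fintype.card X by have := D.four_le; omega)
      refine card_quot_two (fun p : X × X => p.1 = p.2) (a := (a, a)) (b := (a, b)) rfl hab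
        (fun g c => smul_left_cancel_iff g) ?_ ?_
      · rintro ⟨c, d⟩ (rfl : c = d)
        obtain ⟨g, hg, -⟩ : ∃ g : G, g • a = c ∧ True := by
          obtain ⟨d, hd⟩ := Fintype.exists_ne_of_one_lt_card
            (show 1 < Fintype.card X by have := D.four_le; omega) c
          obtain ⟨g, h1, -⟩ := D.two_x a b c d hab hd.symm
          exact ⟨g, h1, trivial⟩
        exact ⟨g, Prod.ext hg hg⟩
      · rintro ⟨c, d⟩ (hcd : ¬ c = d)
        obtain ⟨g, h1, h2⟩ := D.two_x a b c d hab hcd
        exact ⟨g, Prod.ext h1 h2⟩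
    · intro g
      have e1 : {p : X × X // g • p = p} ≃ {x : X // g • x = x} × {x : X // g • x = x} :=
        (Equiv.subtypeEquivRight fun p => by rw [Prod.ext_iff]; rfl).trans Equiv.subtypeProdEquivProd
      have e2 : {p : X × Y // g • p = p} ≃ {x : X // g • x = x} × {y : Y // g • y = y} :=
        (Equiv.subtypeEquivRight fun p => by rw [Prod.ext_iff]; rfl).trans Equiv.subtypeProdEquivProd
      rw [Nat.card_congr e1, Nat.card_congr e2, Nat.card_prod, Nat.card_prod, D.fix_card]
  obtain ⟨z, hz⟩ := D.exists_mem y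
  obtain ⟨g, hg⟩ := exists_smul_of_two hc (fun p : X × Y => ¬ D.Mem p.1 p.2)
    (fun g c => not_congr (D.smul_mem g c.1 c.2)) (b := (z, y)) (c := (x, y)) (c' := (x', y'))
    h h' (fun hn => hn hz)
  exact ⟨g, (Prod.ext_iff.1 hg).1, (Prod.ext_iff.1 hg).2⟩

end Design

/-- Double transitivity passes to the blocks. -/
theorem two_blocks {G X Y : Type*} [Group G] [Finite G] [MulAction G X] [MulAction G Y]
    [Fintype X] [Fintype Y]
    (hfix : ∀ g : G, Nat.card {x : X // g • x = x} = Nat.card {y : Y // g • y = y})
    (h1 : 2 ≤ Fintype.card X)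
    (h2 : ∀ a b a' b' : X, a ≠ b → a' ≠ b' → ∃ g : G, g • a = a' ∧ g • b = b')
    (a b a' b' : Y) (hab : a ≠ b) (hab' : a' ≠ b') : ∃ g : G, g • a = a' ∧ g • b = b' := by
  classical
  have hc : Nat.card (MulAction.orbitRel.Quotient G (Y × Y)) = 2 := by
    rw [← card_orbits_congr (A := X × X)]
    · obtain ⟨u, v, huv⟩ := Fintype.exists_pair_of_one_lt_card h1
      refine card_quot_two (fun p : X × X => p.1 = p.2) (a := (u, u)) (b := (u, v)) rfl huv
        (fun g c => smul_left_cancel_iff g) ?_ ?_
      · rintro ⟨c, d⟩ (rfl : c = d)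
        obtain ⟨d, hd⟩ := Fintype.exists_ne_of_one_lt_card h1 c
        obtain ⟨g, h1', -⟩ := h2 u v c d huv hd.symm
        exact ⟨g, Prod.ext h1' h1'⟩
      · rintro ⟨c, d⟩ (hcd : ¬ c = d)
        obtain ⟨g, h1', h2'⟩ := h2 u v c d huv hcd
        exact ⟨g, Prod.ext h1' h2'⟩
    · intro g
      have e1 : {p : X × X // g • p = p} ≃ {x : X // g • x = x} × {x : X // g • x = x} :=
        (Equiv.subtypeEquivRight fun p => by rw [Prod.ext_iff]; rfl).trans Equiv.subtypeProdEquivProd
      have e2 : {p : Y × Y // g • p = p} ≃ {y : Y // g • y = y} × {y : Y // g • y = y} :=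
        (Equiv.subtypeEquivRight fun p => by rw [Prod.ext_iff]; rfl).trans Equiv.subtypeProdEquivProd
      rw [Nat.card_congr e1, Nat.card_congr e2, Nat.card_prod, Nat.card_prod, hfix]
  obtain ⟨g, hg⟩ := exists_smul_of_two hc (fun p : Y × Y => p.1 ≠ p.2)
    (fun g c => not_congr (smul_left_cancel_iff g)) (b := (a, a)) (c := (a, b)) (c' := (a', b'))
    hab hab' (fun hn => hn rfl)
  exact ⟨g, (Prod.ext_iff.1 hg).1, (Prod.ext_iff.1 hg).2⟩

/-- A doubly transitive group with a block of an invariant incidence gives a design. -/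
theorem exists_design {G X Y : Type*} [Group G] [Finite G] [MulAction G X] [MulAction G Y]
    [Fintype X] [Fintype Y] (M : X → Y → Prop) (hM : ∀ (g : G) x y, M (g • x) (g • y) ↔ M x y)
    (hY : MulAction.IsPretransitive G Y)
    (h2 : ∀ a b a' b' : X, a ≠ b → a' ≠ b' → ∃ g : G, g • a = a' ∧ g • b = b')
    (hf : ∀ g : G, (∀ x : X, g • x = x) → g = 1)
    (hcard : Fintype.card Y = Fintype.card X)
    (B : Y) (hk : 2 ≤ Nat.card {x // M x B}) (hk' : Nat.card {x // M x B} + 2 ≤ Fintype.card X) :
    ∃ D : Design G X Y, D.Mem = M := by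
  classical
  set k := Nat.card {x // M x B} with hkdef
  have hy : ∀ y, Nat.card {x // M x y} = k := fun y => by
    obtain ⟨g, hg⟩ := hY.exists_smul_eq B y
    exact (Nat.card_congr (Equiv.subtypeEquiv (MulAction.toPerm g) fun x => by
      rw [← hg]; exact (hM g x B).symm)).symm
  have h1 : 1 < Fintype.card X := by omega
  have tr : ∀ x x' : X, ∃ g : G, g • x = x' := fun x x' => by
    obtain ⟨a, ha⟩ := Fintype.exists_ne_of_one_lt_card h1 x
    obtain ⟨b, hb⟩ := Fintype.exists_ne_of_one_lt_card h1 x'
    obtain ⟨g, hg, -⟩ := h2 x a x' b ha.symm hb.symm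
    exact ⟨g, hg⟩
  obtain ⟨x0, hx0⟩ : ∃ x, M x B := by
    have : Nonempty {x // M x B} := (Nat.card_pos_iff.1 (by omega)).1
    exact ⟨this.some.1, this.some.2⟩
  have hrc : ∀ x, Nat.card {y // M x y} = Nat.card {y // M x0 y} := fun x => by
    obtain ⟨g, hg⟩ := tr x0 x
    exact (Nat.card_congr (Equiv.subtypeEquiv (MulAction.toPerm g) fun y => by
      rw [← hg]; exact (hM g x0 y).symm)).symm
  have hx : ∀ x, Nat.card {y // M x y} = k := by
    intro x
    rw [hrc x]
    have h := Finset.sum_card_bipartiteAbove_eq_sum_card_bipartiteBelow M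
      (s := (Finset.univ : Finset X)) (t := (Finset.univ : Finset Y))
    rw [Finset.sum_congr rfl (fun (x : X) _ => show
        ((Finset.univ : Finset Y).bipartiteAbove M x).card = Nat.card {y // M x0 y} from by
          rw [← hrc x, Nat.card_eq_fintype_card, Fintype.card_subtype]; rfl),
      Finset.sum_congr rfl (fun (y : Y) _ => show
        ((Finset.univ : Finset X).bipartiteBelow M y).card = k from by
          rw [← hy y, Nat.card_eq_fintype_card, Fintype.card_subtype]; rfl),
      Finset.sum_const, Finset.sum_const, smul_eq_mul, smul_eq_mul, Finset.card_univ,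
      Finset.card_univ, hcard] at h
    exact mul_left_cancel₀ (by omega) h
  obtain ⟨a, b, hab⟩ := Fintype.exists_pair_of_one_lt_card h1
  set lam := Nat.card {y // M a y ∧ M b y}
  have hxx : ∀ x x', x ≠ x' → Nat.card {y // M x y ∧ M x' y} = lam := fun x x' h => by
    obtain ⟨g, ha, hb⟩ := h2 a b x x' hab h
    exact (Nat.card_congr (Equiv.subtypeEquiv (MulAction.toPerm g) fun y => by
      rw [← ha, ← hb]; exact and_congr (hM g a y).symm (hM g b y).symm)).symm
  have hlk : lam < k := by
    have hc := count_eq M hy hx hxx a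
    by_contra hle
    push Not at hle
    have : k * (Fintype.card X - 1) ≤ lam * (Fintype.card X - 1) := Nat.mul_le_mul_right _ hle
    obtain ⟨w, hw⟩ : ∃ w, Fintype.card X - 1 = k + 1 + w := ⟨Fintype.card X - 1 - (k+1), by omega⟩
    rw [hw] at this hc
    nlinarith
  have hfacts := incidence_facts M hlk hcard hy hx hxx
  exact ⟨{
    Mem := M
    smul_mem := hM
    k := k
    lam := lam
    two_le := hk
    add_two_le := by rw [Nat.card_eq_fintype_card]; exact hk'
    card_eq := by rw [Nat.card_eq_fintype_card, Nat.card_eq_fintype_card]; exact hcard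
    card_pts' := hy
    card_blks' := hx
    card_blks₂' := hxx
    card_pts₂' := hfacts.1
    two_x := h2
    two_y := two_blocks
      (fun g => hfacts.2 (MulAction.toPerm g) (MulAction.toPerm g) (fun x y => hM g x y)) (by omega) h2
    faithful := hf }, rfl⟩

end CfsgLib.MetacyclicP.ItoDesign
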