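import Cfsg.Agent.Lib.MetacyclicP.ItoDesign.Cover

/-!
# Transitivity off the axis, and the existence of centres
-/

set_option autoImplicit false
set_option linter.unusedSectionVars false
set_option maxHeartbeats 800000

namespace CfsgLib.MetacyclicP.ItoDesign

namespace Design

variable {G X Y : Type*} [Group G] [Fintype G] [MulAction G X] [MulAction G Y] [Fintype X] [Fintype Y]
variable (D : Design G X Y)

open Finset
open scoped Classical

/-- The order of the space. -/
def q : ℕ := (D.k - 1) / D.lam

/-- The numerical facts. -/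
theorem order_facts (hA : D.HasAxial) :
    D.q * D.lam + 1 = D.k ∧ 2 ≤ D.q ∧ Fintype.card X = D.k * D.q + 1 ∧
      (∀ B C : Y, B ≠ C → (D.line B C).card = D.q + 1) ∧ D.Cover := by
  obtain ⟨c, hc0, hc1, hc⟩ := D.exists_lineCard
  have heq := D.card_line_of_axial hA hc1 hc
  have hq : D.q = c := by
    rw [q, ← heq, Nat.add_sub_cancel, Nat.mul_div_cancel _ D.lam_pos]
  rw [hq]
  refine ⟨heq, ?_, ?_, hc, D.cover_of_card fun B C h => ?_⟩
  · by_contra h
    have : c = 1 := by omega
    subst this
    have := D.lam_add_two_le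
    omega
  · have hcount := D.count
    obtain ⟨w, hw⟩ : ∃ w, Fintype.card X = w + 1 :=
      ⟨_, (Nat.sub_add_cancel (by have := D.four_le; omega)).symm⟩
    rw [hw, Nat.add_sub_cancel] at hcount
    rw [hw, Nat.add_right_cancel_iff]
    refine Nat.eq_of_mul_eq_mul_left D.lam_pos ?_
    rw [← heq] at hcount ⊢
    nlinarith
  · rw [hc B C h, Nat.add_sub_cancel]; exact heq

theorem hasAxial_of_mem {g : G} {B : Y} (hg : g ∈ D.axGroup B) (h : g ≠ 1) : D.HasAxial :=
  ⟨g, B, hg, h⟩

/-- The axial group is transitive on the points off the axis. -/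
theorem exists_ax_smul (hA : D.HasAxial) {B : Y} {x y : X} (hx : ¬ D.Mem x B) (hy : ¬ D.Mem y B) :
    ∃ g ∈ D.axGroup B, g • x = y := by
  by_contra hcon
  push Not at hcon
  set O := fun w : X => (D.axSet B).image (· • w) with hO
  have hxO : y ∉ O x := fun h => by
    obtain ⟨g, hg, he⟩ := Finset.mem_image.1 h
    exact hcon g (D.mem_axSet.1 hg) he
  set N := (Finset.univ.filter fun w : X => ¬ D.Mem w B) with hN
  have hON : ∀ w, ¬ D.Mem w B → O w ⊆ N := fun w hw z hz => by
    obtain ⟨g, hg, rfl⟩ := Finset.mem_image.1 hz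
    exact Finset.mem_filter.2 ⟨Finset.mem_univ _, fun h => hw ((D.ax_mem_iff (D.mem_axSet.1 hg) w).1 h)⟩
  by_cases hF : D.Free
  · -- the orbit is everything
    obtain ⟨hkq, hq2, hv, hc, -⟩ := D.order_facts hA
    obtain ⟨C, hC⟩ := Fintype.exists_ne_of_one_lt_card
      (show 1 < Fintype.card Y by rw [D.card_y]; have := D.four_le; omega) B
    obtain ⟨-, -, hs, hue, -⟩ := D.free_data hA hF hkq.le hc hC.symm
    rw [show D.k - D.q * D.lam = 1 by omega, one_mul] at hue
    have hinj : (O x).card = (D.axSet B).card := by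
      refine Finset.card_image_of_injOn fun a ha b hb hab => ?_
      simp only [Finset.mem_coe, D.mem_axSet] at ha hb
      by_contra hne
      refine hF B (b⁻¹ * a) ((D.axGroup B).mul_mem ((D.axGroup B).inv_mem hb) ha)
        (fun h => hne (inv_mul_eq_one.1 h).symm) x hx ?_
      rw [mul_smul, hab, inv_smul_smul]
    have hNc : N.card + D.k = Fintype.card X := by
      rw [← D.card_pts B, hN, ← Finset.card_union_of_disjoint]
      · rw [← Finset.card_univ]; congr 1; ext z; simp [D.mem_pts]; tauto
      · rw [Finset.disjoint_left]; simp [D.mem_pts]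
    have hlt : (O x).card < N.card := Finset.card_lt_card
      ((Finset.ssubset_iff_of_subset (hON x hx)).2 ⟨y, by simp [hN, hy], hxO⟩)
    rw [hinj, hs] at hlt
    obtain ⟨e, he⟩ : ∃ e, (D.axStab B C).card = e := ⟨_, rfl⟩
    rw [he] at hlt hue
    rw [hv] at hNc
    have h0 : D.k * D.q = D.q * e + D.q * D.lam := by rw [← hue]; ring
    omega
  · -- every point off the axis is fixed by a non-trivial element
    rw [Free] at hF
    push Not at hF
    obtain ⟨B₁, g₁, hg₁, hne₁, x₁, hx₁, hfix₁⟩ := hF
    have hst : ∀ w, ¬ D.Mem w B → 2 ≤ ((D.axSet B).filter fun g => g • w = w).card := by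
      intro w hw
      obtain ⟨t, ht1, ht2⟩ := D.exists_smul_antiflag hx₁ hw
      refine Finset.one_lt_card.2 ⟨1, by simp [D.mem_axSet, (D.axGroup B).one_mem],
        t * g₁ * t⁻¹, Finset.mem_filter.2 ⟨D.mem_axSet.2 (ht2 ▸ D.ax_conj hg₁), ?_⟩, ?_⟩
      · rw [mul_smul, mul_smul, ← ht1, inv_smul_smul, hfix₁]
      · exact fun h => hne₁ (conj_eq_one_iff.1 h.symm)
    have horb : ∀ w, ¬ D.Mem w B →
        ∑ z ∈ O w, ((D.axSet B).filter fun g => g • z = z).card = (D.axSet B).card := by
      intro w _
      rw [Finset.card_eq_sum_card_image (· • w) (D.axSet B)]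
      refine Finset.sum_congr rfl fun z hz => ?_
      obtain ⟨g₀, hg₀, rfl⟩ := Finset.mem_image.1 hz
      rw [D.mem_axSet] at hg₀
      refine Finset.card_equiv (Equiv.mulRight g₀) fun a => ?_
      simp only [Equiv.coe_mulRight, Finset.mem_filter, D.mem_axSet, mul_smul]
      exact and_congr_left fun _ => ⟨fun h => (D.axGroup B).mul_mem h hg₀,
        fun h => by simpa using (D.axGroup B).mul_mem h ((D.axGroup B).inv_mem hg₀)⟩
    have hhalf : ∀ w, ¬ D.Mem w B → 2 * (O w).card ≤ (D.axSet B).card := by
      intro w hw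
      rw [← horb w hw, mul_comm, ← smul_eq_mul, ← Finset.sum_const]
      exact Finset.sum_le_sum fun z hz => hst z (Finset.mem_filter.1 (hON w hw hz)).2
    have hdis : Disjoint (O x) (O y) := by
      rw [Finset.disjoint_left]
      intro z h1 h2
      obtain ⟨a, ha, rfl⟩ := Finset.mem_image.1 h1
      obtain ⟨b, hb, hab⟩ := Finset.mem_image.1 h2
      refine hcon (b⁻¹ * a) ((D.axGroup B).mul_mem ((D.axGroup B).inv_mem (D.mem_axSet.1 hb))
        (D.mem_axSet.1 ha)) ?_
      rw [mul_smul, ← hab, inv_smul_smul]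
    have hsub : O x ∪ O y ⊆ N := Finset.union_subset (hON x hx) (hON y hy)
    have hlow : 2 * (D.axSet B).card + 2 * (N \ (O x ∪ O y)).card ≤
        ∑ z ∈ N, ((D.axSet B).filter fun g => g • z = z).card := by
      rw [← Finset.sum_sdiff hsub, Finset.sum_union hdis, horb x hx, horb y hy]
      have : 2 * (N \ (O x ∪ O y)).card ≤
          ∑ z ∈ N \ (O x ∪ O y), ((D.axSet B).filter fun g => g • z = z).card := by
        rw [mul_comm, ← smul_eq_mul, ← Finset.sum_const]
        exact Finset.sum_le_sum fun z hz => hst z (Finset.mem_filter.1 (Finset.mem_sdiff.1 hz).1).2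
      omega
    have hup : ∑ z ∈ N, ((D.axSet B).filter fun g => g • z = z).card ≤
        N.card + ((D.axSet B).card - 1) := by
      have h := Finset.sum_card_bipartiteAbove_eq_sum_card_bipartiteBelow
        (fun (g : G) (z : X) => g • z = z) (s := D.axSet B) (t := N)
      refine le_trans (le_of_eq h.symm) ?_
      rw [← Finset.add_sum_erase _ _ (D.mem_axSet.2 (D.axGroup B).one_mem)]
      refine Nat.add_le_add (Finset.card_filter_le _ _) ?_
      refine (Finset.sum_le_card_nsmul _ _ 1 fun g hg => ?_).trans ?_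
      · rw [Finset.mem_erase, D.mem_axSet] at hg
        refine le_trans (le_of_eq ?_) (D.fixed_pts_le hg.2 hg.1)
        rw [Finset.bipartiteAbove, hN, Finset.filter_filter]
      · rw [Finset.card_erase_of_mem (D.mem_axSet.2 (D.axGroup B).one_mem), smul_eq_mul, mul_one]
    have hNsplit : N.card = (N \ (O x ∪ O y)).card + ((O x).card + (O y).card) := by
      rw [← Finset.card_union_of_disjoint hdis, Finset.card_sdiff_add_card_eq_card hsub]
    have := hhalf x hx
    have := hhalf y hy
    have hs1 : 1 ≤ (D.axSet B).card := Finset.card_pos.2 ⟨1, D.mem_axSet.2 (D.axGroup B).one_mem⟩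
    omega

/-- An element with axis `B` and no fixed point off it has a centre on `B`. -/
theorem exists_centre_of_free {g : G} {B : Y} (hg : g ∈ D.axGroup B) (h1 : g ≠ 1)
    (hfree : ∀ x, ¬ D.Mem x B → g • x ≠ x) :
    ∃ a, D.Mem a B ∧ ∀ E, D.Mem a E → g • E = E := by
  obtain ⟨hkq, hq2, hv, hc, hcov⟩ := D.order_facts (D.hasAxial_of_mem hg h1)
  set Φ := (Finset.univ.filter fun E : Y => g • E = E) with hΦ
  have hΦc : Φ.card = D.k := D.fixed_blocks_card hg hfree
  have hBΦ : B ∈ Φ := by simp [hΦ, D.ax_fix_block hg]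
  -- every line off `B` has a fixed block
  have hmeet : ∀ C E : Y, C ≠ E → B ∉ D.line C E → ∃ R ∈ D.line C E, g • R = R := by
    intro C E hCE hB
    set T := D.pts C ∩ D.pts E with hT
    have hgCE : g • C ≠ g • E := fun h => hCE (MulAction.injective g h)
    obtain ⟨z, hzT, hzB⟩ : ∃ z ∈ T, ¬ D.Mem z B := by
      by_contra h
      push Not at h
      apply hB
      rw [mem_line]
      intro w h1 h2
      exact h w (by simp [hT, D.mem_pts, h1, h2])
    rw [hT, Finset.mem_inter, D.mem_pts, D.mem_pts] at hzT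
    obtain ⟨R, hR, hzR⟩ := hcov (g • C) (g • E) z hgCE
    have hRB : ∀ w, D.Mem w C → D.Mem w E → D.Mem w B → D.Mem w R := by
      intro w a b c
      refine D.mem_line.1 hR w ?_ ?_
      · rw [← hg w c, D.smul_mem]; exact a
      · rw [← hg w c, D.smul_mem]; exact b
    have hRline : R ∈ D.line C E := by
      by_contra hnot
      have hμ : ∀ S : Y, S ∉ D.line C E →
          D.q * ((D.pts S).filter fun w => D.Mem w C ∧ D.Mem w E).card + D.k = (D.q + 1) * D.lam := by
        intro S hS
        have h := Finset.sum_card_bipartiteAbove_eq_sum_card_bipartiteBelow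
          (fun (w : X) (F : Y) => D.Mem w F) (s := D.pts S) (t := D.line C E)
        rw [Finset.sum_congr rfl (fun F (hF : F ∈ D.line C E) => show
            ((D.pts S).bipartiteBelow (fun (w : X) (F : Y) => D.Mem w F) F).card = D.lam from by
              rw [← D.card_pts₂ (show S ≠ F from fun e => hS (e ▸ hF))]
              congr 1; ext w; simp [Finset.mem_bipartiteBelow, D.mem_pts]),
          Finset.sum_const, smul_eq_mul, hc C E hCE,
          Finset.sum_congr rfl (fun w (hw : w ∈ D.pts S) => show
            ((D.line C E).bipartiteAbove (fun (w : X) (F : Y) => D.Mem w F) w).card =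
              1 + if D.Mem w C ∧ D.Mem w E then D.q else 0 from by
            by_cases hw' : D.Mem w C ∧ D.Mem w E
            · rw [if_pos hw', Finset.bipartiteAbove,
                Finset.filter_true_of_mem fun F hF => D.mem_line.1 hF w hw'.1 hw'.2, hc C E hCE]
              omega
            · rw [if_neg hw', add_zero, Finset.card_eq_one]
              obtain ⟨F, hF, hwF⟩ := hcov C E w hCE
              refine ⟨F, Finset.eq_singleton_iff_unique_mem.2
                ⟨Finset.mem_filter.2 ⟨hF, hwF⟩, fun F' hF' => ?_⟩⟩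
              rw [Finset.mem_bipartiteAbove] at hF'
              by_contra hne
              exact hw' (D.mem_both hCE hF'.1 hF hne hF'.2 hwF)),
          Finset.sum_add_distrib, Finset.sum_const, smul_eq_mul, mul_one, D.card_pts,
          ← Finset.sum_filter, Finset.sum_const, smul_eq_mul] at h
        rw [mul_comm D.q]
        omega
      have hB1 := hμ B hB
      have hR1 := hμ R hnot
      have hss : ((D.pts B).filter fun w => D.Mem w C ∧ D.Mem w E) ⊂
          ((D.pts R).filter fun w => D.Mem w C ∧ D.Mem w E) := by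
        refine (Finset.ssubset_iff_of_subset ?_).2 ⟨z, ?_, ?_⟩
        · intro w hw
          rw [Finset.mem_filter, D.mem_pts] at hw ⊢
          exact ⟨hRB w hw.2.1 hw.2.2 hw.1, hw.2⟩
        · simp [D.mem_pts, hzR, hzT]
        · simp [D.mem_pts, hzB]
      have := Finset.card_lt_card hss
      nlinarith
    refine ⟨R, hRline, ?_⟩
    by_contra hne
    have hRB' : B ≠ R := fun e => hB (e ▸ hRline)
    have h3 := D.line_eq hgCE hR (D.smul_mem_line (g := g) hRline) (Ne.symm hne)
    have h4 := D.line_eq hRB' (D.right_mem_line B R) (D.ax_line hg R) (Ne.symm hne)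
    have h5 : B ∈ D.line (g • C) (g • E) := by
      rw [← h3, h4]; exact D.left_mem_line B R
    have h6 := D.smul_mem_line (g := g⁻¹) h5
    rw [inv_smul_smul, inv_smul_smul, D.ax_fix_block ((D.axGroup B).inv_mem hg)] at h6
    exact hB h6
  -- a moved block has exactly one fixed block on each line off `B`
  have hone : ∀ M : Y, g • M ≠ M →
      (∀ E ∈ Φ.erase B, B ∉ D.line M E) ∧
      (∀ E ∈ Φ.erase B, ∀ E' ∈ Φ.erase B, E' ∈ D.line M E → E' = E) := by
    intro M hM
    have hBM : B ≠ M := fun e => hM (by subst e; exact D.ax_fix_block hg)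
    set 𝓛 := ((Finset.univ : Finset Y).erase M).image fun E => D.line M E with h𝓛
    have hsum : ((Finset.univ : Finset Y).erase M).card = 𝓛.card * D.q := by
      rw [Finset.card_eq_sum_card_image (fun E => D.line M E) _, Finset.sum_const_nat (m := D.q)]
      intro L hL
      obtain ⟨E, hE, rfl⟩ := Finset.mem_image.1 hL
      have hME : M ≠ E := (Finset.ne_of_mem_erase hE).symm
      rw [show ((Finset.univ.erase M).filter fun E' => D.line M E' = D.line M E) =
        (D.line M E).erase M from ?_, Finset.card_erase_of_mem (D.left_mem_line M E), hc M E hME,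
        Nat.add_sub_cancel]
      ext E'
      simp only [Finset.mem_filter, Finset.mem_erase, Finset.mem_univ, and_true]
      constructor
      · rintro ⟨a, b⟩; exact ⟨a, b ▸ D.right_mem_line M E'⟩
      · rintro ⟨a, b⟩; exact ⟨a, D.line_eq hME (D.left_mem_line M E) b (Ne.symm a)⟩
    rw [Finset.card_erase_of_mem (Finset.mem_univ M), Finset.card_univ, D.card_y, hv,
      Nat.add_sub_cancel] at hsum
    have h𝓛c : 𝓛.card = D.k := (Nat.eq_of_mul_eq_mul_right (by omega) hsum).symm
    -- lines through `M` are the images of fixed blocks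
    have hsurj : 𝓛.erase (D.line M B) ⊆ (Φ.erase B).image fun E => D.line M E := by
      intro L hL
      rw [Finset.mem_erase] at hL
      obtain ⟨E, hE, rfl⟩ := Finset.mem_image.1 hL.2
      have hME : M ≠ E := (Finset.ne_of_mem_erase hE).symm
      have hBn : B ∉ D.line M E := fun hB =>
        hL.1 (D.line_eq hME (D.left_mem_line M E) hB hBM.symm).symm
      obtain ⟨R, hR, hgR⟩ := hmeet M E hME hBn
      refine Finset.mem_image.2 ⟨R, Finset.mem_erase.2 ⟨fun e => hBn (e ▸ hR), by simp [hΦ, hgR]⟩, ?_⟩
      exact D.line_eq hME (D.left_mem_line M E) hR (fun e => hM (e ▸ hgR))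
    have hBL : D.line M B ∈ 𝓛 := Finset.mem_image.2 ⟨B, Finset.mem_erase.2 ⟨hBM, Finset.mem_univ _⟩, rfl⟩
    have hc1 : (𝓛.erase (D.line M B)).card = (Φ.erase B).card := by
      rw [Finset.card_erase_of_mem hBL, Finset.card_erase_of_mem hBΦ, hΦc, h𝓛c]
    have heq : (Φ.erase B).image (fun E => D.line M E) = 𝓛.erase (D.line M B) :=
      (Finset.eq_of_subset_of_card_le hsurj ((Finset.card_image_le).trans (le_of_eq hc1.symm))).symm
    have hinj : Set.InjOn (fun E => D.line M E) (↑(Φ.erase B) : Set Y) :=
      Finset.card_image_iff.1 (by rw [heq, hc1])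
    have hMne : ∀ E ∈ Φ.erase B, M ≠ E := fun E hE e => by
      have := Finset.mem_of_mem_erase hE
      rw [hΦ, Finset.mem_filter] at this
      exact hM (e ▸ this.2)
    refine ⟨fun E hE hB => ?_, fun E hE E' hE' h => ?_⟩
    · have h' : D.line M E ∈ 𝓛.erase (D.line M B) := heq ▸ Finset.mem_image_of_mem _ hE
      exact Finset.ne_of_mem_erase h'
        (D.line_eq (hMne E hE) (D.left_mem_line M E) hB hBM.symm).symm
    · exact hinj hE' hE (D.line_eq (hMne E hE) (D.left_mem_line M E) h (hMne E' hE'))
  by_contra hcon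
  push Not at hcon
  -- every fixed star meets in `lam`
  have hstar : ∀ a, D.Mem a B → (Φ.filter fun E => D.Mem a E).card = D.lam := by
    intro a ha
    obtain ⟨M, haM, hM⟩ := hcon a ha
    obtain ⟨ho1, ho2⟩ := hone M hM
    have hBM : B ≠ M := fun e => hM (by subst e; exact D.ax_fix_block hg)
    set S := ((D.blks a).erase M).image fun E => D.line M E with hS
    have hsum : ((D.blks a).erase M).card = S.card * D.q := by
      rw [Finset.card_eq_sum_card_image (fun E => D.line M E) _, Finset.sum_const_nat (m := D.q)]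
      intro L hL
      obtain ⟨E, hE, rfl⟩ := Finset.mem_image.1 hL
      rw [Finset.mem_erase, D.mem_blks] at hE
      have hME : M ≠ E := hE.1.symm
      rw [show (((D.blks a).erase M).filter fun E' => D.line M E' = D.line M E) =
        (D.line M E).erase M from ?_, Finset.card_erase_of_mem (D.left_mem_line M E), hc M E hME,
        Nat.add_sub_cancel]
      ext E'
      simp only [Finset.mem_filter, Finset.mem_erase, D.mem_blks]
      constructor
      · rintro ⟨⟨p, -⟩, r⟩; exact ⟨p, r ▸ D.right_mem_line M E'⟩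
      · rintro ⟨p, r⟩
        exact ⟨⟨p, D.mem_line.1 r a haM hE.2⟩, D.line_eq hME (D.left_mem_line M E) r (Ne.symm p)⟩
    rw [Finset.card_erase_of_mem (D.mem_blks.2 haM), D.card_blks] at hsum
    have hSc : S.card = D.lam := Nat.eq_of_mul_eq_mul_right (show 0 < D.q by omega)
      (by rw [← hsum, mul_comm]; omega)
    rw [← hSc]
    refine Finset.card_bij (fun E _ => D.line M E) (fun E hE => ?_) (fun E hE E' hE' h => ?_)
      (fun L hL => ?_)
    · rw [Finset.mem_filter] at hE
      refine Finset.mem_image_of_mem _ (Finset.mem_erase.2 ⟨fun e => hM ?_, D.mem_blks.2 hE.2⟩)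
      have := hE.1
      rw [hΦ, Finset.mem_filter] at this
      exact e ▸ this.2
    · rw [Finset.mem_filter] at hE hE'
      by_cases hEB : E = B
      · by_cases hE'B : E' = B
        · rw [hEB, hE'B]
        · exfalso
          apply ho1 E' (Finset.mem_erase.2 ⟨hE'B, hE'.1⟩)
          rw [← h, hEB]; exact D.right_mem_line M B
      · by_cases hE'B : E' = B
        · exfalso
          apply ho1 E (Finset.mem_erase.2 ⟨hEB, hE.1⟩)
          rw [h, hE'B]; exact D.right_mem_line M B
        · exact ho2 E' (Finset.mem_erase.2 ⟨hE'B, hE'.1⟩) E (Finset.mem_erase.2 ⟨hEB, hE.1⟩)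
            (h ▸ D.right_mem_line M E)
    · obtain ⟨E, hE, rfl⟩ := Finset.mem_image.1 hL
      rw [Finset.mem_erase, D.mem_blks] at hE
      by_cases hBn : B ∈ D.line M E
      · exact ⟨B, Finset.mem_filter.2 ⟨hBΦ, ha⟩,
          D.line_eq hE.1.symm (D.left_mem_line M E) hBn hBM.symm⟩
      · obtain ⟨R, hR, hgR⟩ := hmeet M E hE.1.symm hBn
        exact ⟨R, Finset.mem_filter.2 ⟨by simp [hΦ, hgR], D.mem_line.1 hR a haM hE.2⟩,
          D.line_eq hE.1.symm (D.left_mem_line M E) hR (fun e => hM (e ▸ hgR))⟩
  have h := Finset.sum_card_bipartiteAbove_eq_sum_card_bipartiteBelow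
    (fun (w : X) (F : Y) => D.Mem w F) (s := D.pts B) (t := Φ)
  rw [Finset.sum_congr rfl (fun w (hw : w ∈ D.pts B) => show
      (Φ.bipartiteAbove (fun (w : X) (F : Y) => D.Mem w F) w).card = D.lam from
        hstar w (D.mem_pts.1 hw)),
    Finset.sum_const, smul_eq_mul, D.card_pts, ← Finset.add_sum_erase _ _ hBΦ,
    Finset.sum_congr rfl (fun F (hF : F ∈ Φ.erase B) => show
      ((D.pts B).bipartiteBelow (fun (w : X) (F : Y) => D.Mem w F) F).card = D.lam from by
        rw [← D.card_pts₂ (Finset.ne_of_mem_erase hF).symm]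
        congr 1; ext w; simp [Finset.mem_bipartiteBelow, D.mem_pts]),
    Finset.sum_const, smul_eq_mul, Finset.card_erase_of_mem hBΦ, hΦc] at h
  have h0 : ((D.pts B).bipartiteBelow (fun (w : X) (F : Y) => D.Mem w F) B).card = D.k := by
    rw [Finset.bipartiteBelow, Finset.filter_true_of_mem fun w hw => D.mem_pts.1 hw, D.card_pts]
  rw [h0] at h
  obtain ⟨kl, hkl⟩ : ∃ kl, D.k = kl + 1 :=
    ⟨_, (Nat.sub_add_cancel (show 1 ≤ D.k by have := D.two_le; omega)).symm⟩
  rw [hkl, Nat.add_sub_cancel] at h
  have := D.lam_lt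
  nlinarith

/-- Every non-trivial axial automorphism has a centre. -/
theorem exists_centre {g : G} {B : Y} (hg : g ∈ D.axGroup B) (h1 : g ≠ 1) :
    ∃ a, (∀ E, D.Mem a E → g • E = E) ∧ (D.Mem a B ↔ ∀ x, ¬ D.Mem x B → g • x ≠ x) := by
  by_cases hfree : ∀ x, ¬ D.Mem x B → g • x ≠ x
  · obtain ⟨a, ha, h⟩ := D.exists_centre_of_free hg h1 hfree
    exact ⟨a, h, iff_of_true ha hfree⟩
  · have hf' := hfree
    push Not at hf'
    obtain ⟨x, hx, hgx⟩ := hf'
    exact ⟨x, fun E hE => (D.fixed_blocks_of_point hg h1 hx hgx E).2 (Or.inr hE),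
      iff_of_false hx hfree⟩

/-- The dual design has an axial automorphism, too. -/
theorem hasAxial_dual (hA : D.HasAxial) : D.dual.HasAxial := by
  obtain ⟨g, B, hg, h1⟩ := hA
  obtain ⟨a, ha, -⟩ := D.exists_centre hg h1
  exact ⟨g, a, ha, h1⟩

end Design

end CfsgLib.MetacyclicP.ItoDesign
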