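import Cfsg.Agent.Lib.MetacyclicP.ItoDesign.Shears

/-!
# Coordinates over a field
-/

set_option autoImplicit false
set_option linter.unusedSectionVars false
set_option maxHeartbeats 800000

namespace CfsgLib.MetacyclicP.ItoDesign

namespace Basis

variable {G X Y : Type*} [Group G] [Fintype G] [MulAction G X] [MulAction G Y] [Fintype X] [Fintype Y]
variable {D : Design G X Y} {F : Frame D} {m : ℕ} (B : Basis F m)

open scoped Classical

/-- The scalar map between two components. -/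
def scal {K : Type} [Field K] {i j : Fin m} (ei : B.C i ≃+ K) (ej : B.C j ≃+ K) (t : K) :
    B.C i →+ B.C j :=
  ej.symm.toAddMonoidHom.comp ((AddMonoidHom.mulLeft t).comp ei.toAddMonoidHom)

theorem scal_apply {K : Type} [Field K] {i j : Fin m} (ei : B.C i ≃+ K) (ej : B.C j ≃+ K) (t : K)
    (y : B.C i) : B.scal ei ej t y = ej.symm (t * ei y) := rfl

theorem scal_comp {K : Type} [Field K] {i j l : Fin m} (ei : B.C i ≃+ K) (ej : B.C j ≃+ K)
    (el : B.C l ≃+ K) (s t : K) :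
    (B.scal ej el s).comp (B.scal ei ej t) = B.scal ei el (s * t) := by
  refine AddMonoidHom.ext fun y => ?_
  simp only [AddMonoidHom.comp_apply, scal_apply, AddEquiv.apply_symm_apply, mul_assoc]

/-- Coordinates in which all scalar shears are in the group. -/
theorem exists_coords : ∃ (K : Type) (_ : Field K) (_ : Fintype K) (e : ∀ i, B.C i ≃+ K),
    Fintype.card K = D.q ∧ ∀ (i j : Fin m) (hij : i ≠ j) (t : K), B.scal (e i) (e j) t ∈ B.Φ hij := by
  obtain ⟨i₁, i₂, h12⟩ : ∃ i₁ i₂ : Fin m, i₁ ≠ i₂ :=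
    ⟨⟨0, by have := B.two; omega⟩, ⟨1, by have := B.two; omega⟩, fun h => by simp at h⟩
  obtain ⟨p, hp, hexp⟩ := B.exists_prime i₁ i₂ h12
  haveI : Fact p.Prime := ⟨hp⟩
  haveI : Nontrivial (B.C i₁) := by
    obtain ⟨y, hy⟩ := B.exists_ne i₁
    exact nontrivial_of_ne y 0 hy
  obtain ⟨K, fK, fiK, eX, eY, -, -, hΦ, hΨ⟩ :=
    CfsgLib.FFModules.SL2Pair.exists_field_of_spread hexp inferInstance (B.Φ h12.symm) (B.Φ h12)
      (by rw [B.card_Φ, F.card_comp (B.hP i₁)]) (by rw [B.card_Φ, B.card_Φ])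
      (fun f hf h0 => B.Φ_bijective h12.symm hf h0) (fun g hg h0 => B.Φ_inverse h12 hg h0)
  have hex : ∀ j, ∃ e : B.C j ≃+ K, ∀ h : i₁ ≠ j, B.scal eX e 1 ∈ B.Φ h := by
    intro j
    by_cases h : i₁ = j
    · subst h; exact ⟨eX, fun h => absurd rfl h⟩
    · obtain ⟨x, hx⟩ := B.exists_ne i₁
      obtain ⟨z, hz⟩ := B.exists_ne j
      obtain ⟨f, hf, hfx⟩ := B.Φ_surj h hx z
      have hf0 : f ≠ 0 := fun e => hz (by rw [← hfx, e]; rfl)
      let E : B.C i₁ ≃+ B.C j := AddEquiv.ofBijective f (B.Φ_bijective h hf hf0)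
      refine ⟨E.symm.trans eX, fun h' => ?_⟩
      have hfe : B.scal eX (E.symm.trans eX) 1 = f := AddMonoidHom.ext fun y => by
        simp [scal_apply, E]
      rw [hfe]; exact hf
  choose e₀ he₀ using hex
  let e := Function.update (Function.update e₀ i₁ eX) i₂ eY
  have e1 : e i₁ = eX := by simp [e, h12]
  have e2 : e i₂ = eY := by simp [e]
  have ej : ∀ j, j ≠ i₁ → j ≠ i₂ → e j = e₀ j := fun j a b => by simp [e, a, b]
  refine ⟨K, fK, fiK, e, ?_, ?_⟩
  · rw [← F.card_comp (B.hP i₁), Nat.card_congr eX.toEquiv, Nat.card_eq_fintype_card]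
  have s12 : ∀ t : K, B.scal (e i₁) (e i₂) t ∈ B.Φ h12 := fun t => by
    obtain ⟨g, hg, hgt⟩ := hΨ t
    rw [e1, e2, show B.scal eX eY t = g from AddMonoidHom.ext fun y => by
      rw [scal_apply, ← hgt, AddEquiv.symm_apply_apply]]
    exact hg
  have s21 : ∀ t : K, B.scal (e i₂) (e i₁) t ∈ B.Φ h12.symm := fun t => by
    obtain ⟨g, hg, hgt⟩ := hΦ t
    rw [e1, e2, show B.scal eY eX t = g from AddMonoidHom.ext fun y => by
      rw [scal_apply, ← hgt, AddEquiv.symm_apply_apply]]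
    exact hg
  have s1j : ∀ j (h : i₁ ≠ j), B.scal (e i₁) (e j) 1 ∈ B.Φ h := fun j h => by
    by_cases hj : j = i₂
    · subst hj; exact s12 1
    · rw [e1, ej j h.symm hj]; exact he₀ j h
  have sj1 : ∀ j (h : j ≠ i₁), B.scal (e j) (e i₁) 1 ∈ B.Φ h := fun j h => by
    have hne : B.scal (e i₁) (e j) 1 ≠ 0 := fun h0 => by
      obtain ⟨y, hy⟩ := B.exists_ne i₁
      have := DFunLike.congr_fun h0 y
      rw [scal_apply, one_mul, AddMonoidHom.zero_apply, map_eq_zero_iff _ (e j).symm.injective,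
        map_eq_zero_iff _ (e i₁).injective] at this
      exact hy this
    obtain ⟨f, hf, hfc⟩ := B.Φ_inverse h.symm (s1j j h.symm) hne
    have hfe : f = B.scal (e j) (e i₁) 1 := AddMonoidHom.ext fun y => by
      have := DFunLike.congr_fun hfc ((e i₁).symm (e j y))
      simpa [scal_apply] using this
    rw [← hfe]; exact hf
  have s2j : ∀ j (h : i₂ ≠ j) (t : K), B.scal (e i₂) (e j) t ∈ B.Φ h := fun j h t => by
    by_cases hj : i₁ = j
    · subst hj; exact s21 t
    · rw [← one_mul t, ← B.scal_comp _ (e i₁)]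
      exact B.Φ_comp h12.symm hj h (s1j j hj) (s21 t)
  have s1 : ∀ j (h : i₁ ≠ j) (t : K), B.scal (e i₁) (e j) t ∈ B.Φ h := fun j h t => by
    by_cases hj : i₂ = j
    · subst hj; exact s12 t
    · rw [← mul_one t, ← B.scal_comp _ (e i₂)]
      exact B.Φ_comp h12 hj h (s2j j hj t) (s12 1)
  have sj2 : ∀ j (h : j ≠ i₂) (t : K), B.scal (e j) (e i₂) t ∈ B.Φ h := fun j h t => by
    by_cases hj : j = i₁
    · subst hj; exact s12 t
    · rw [← mul_one t, ← B.scal_comp _ (e i₁)]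
      exact B.Φ_comp hj h12 h (s12 t) (sj1 j hj)
  intro i j hij t
  by_cases hi : i = i₁
  · subst hi; exact s1 j hij t
  by_cases hj : j = i₁
  · subst hj
    by_cases hi2 : i = i₂
    · subst hi2; exact s21 t
    · rw [← mul_one t, ← B.scal_comp _ (e i₂)]
      exact B.Φ_comp hi2 h12.symm hij (s21 t) (sj2 i hi2 1)
  rw [← mul_one t, ← B.scal_comp _ (e i₁)]
  exact B.Φ_comp hi (Ne.symm hj) hij (s1 j (Ne.symm hj) t) (sj1 i hi)

end Basis

end CfsgLib.MetacyclicP.ItoDesign
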