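import Cfsg.Agent.Lib.MetacyclicP.ItoDesign.Line

/-!
# An axial automorphism makes every line of blocks cover all points
-/

set_option autoImplicit false
set_option linter.unusedSectionVars false
set_option maxHeartbeats 800000

namespace CfsgLib.MetacyclicP.ItoDesign

namespace Design

variable {G X Y : Type*} [Group G] [Fintype G] [MulAction G X] [MulAction G Y] [Fintype X] [Fintype Y]
variable (D : Design G X Y)

open Finset
open scoped Classical

/-- Some non-identity element fixes a block pointwise. -/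
def HasAxial : Prop := ∃ (g : G) (B : Y), g ∈ D.axGroup B ∧ g ≠ 1

/-- Modulo a prime `p`, an element of order `p` fixes as many elements of an invariant set as it has. -/
theorem card_modEq_fixed {α : Type*} [MulAction G α] (g : G) {p : ℕ} (hp : p.Prime)
    (hg : g ^ p = 1) (S : Finset α) (hS : ∀ a ∈ S, g • a ∈ S) :
    S.card ≡ (S.filter fun a => g • a = a).card [MOD p] := by
  haveI : Fact p.Prime := ⟨hp⟩
  have hinj : Function.Injective (fun a : {a // a ∈ S} => (⟨g • a.1, hS a.1 a.2⟩ : {a // a ∈ S})) :=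
    fun a b h => Subtype.ext (MulAction.injective g (congrArg Subtype.val h))
  let σ : Equiv.Perm {a // a ∈ S} := Equiv.ofBijective _ (Finite.injective_iff_bijective.1 hinj)
  have hpow : ∀ (n : ℕ) (a : {a // a ∈ S}), (((σ ^ n) a : {a // a ∈ S}) : α) = g ^ n • (a : α) := by
    intro n
    induction n with
    | zero => intro a; simp
    | succ n ih => intro a; rw [pow_succ, Equiv.Perm.mul_apply, ih, pow_succ, mul_smul]; rfl
  have hσ : σ ^ p ^ 1 = 1 := Equiv.ext fun a => Subtype.ext (by rw [hpow, pow_one, hg, one_smul]; rfl)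
  have h := Equiv.Perm.card_compl_support_modEq (p := p) hσ
  have hR : σ.supportᶜ.card = (S.filter fun a => g • a = a).card := by
    refine Finset.card_bij (fun a _ => a.1) (fun a ha => ?_) (fun a _ b _ h => Subtype.ext h)
      (fun a ha => ?_)
    · rw [Finset.mem_compl, Equiv.Perm.mem_support, not_not] at ha
      exact Finset.mem_filter.2 ⟨a.2, congrArg Subtype.val ha⟩
    · rw [Finset.mem_filter] at ha
      exact ⟨⟨a, ha.1⟩, by rw [Finset.mem_compl, Equiv.Perm.mem_support, not_not]; exact Subtype.ext ha.2,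
        rfl⟩
  rw [hR, Fintype.card_coe] at h
  exact h.symm

/-- Partition of a set of blocks different from `B` by their lines with `B`. -/
theorem dvd_card_of_lines {B : Y} {c : ℕ} (hc : ∀ B C : Y, B ≠ C → (D.line B C).card = c + 1)
    (S : Finset Y) (hB : B ∉ S) (hS : ∀ C ∈ S, ∀ E ∈ D.line B C, E ≠ B → E ∈ S) : c ∣ S.card := by
  rw [Finset.card_eq_sum_card_image (fun C => D.line B C) S]
  refine Finset.dvd_sum fun L hL => ?_
  obtain ⟨C, hC, rfl⟩ := Finset.mem_image.1 hL
  have hBC : B ≠ C := fun e => hB (e ▸ hC)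
  have : (S.filter fun C' => D.line B C' = D.line B C) = (D.line B C).erase B := by
    ext E
    simp only [Finset.mem_filter, Finset.mem_erase]
    constructor
    · rintro ⟨hE, he⟩
      exact ⟨fun e => hB (e ▸ hE), he ▸ D.right_mem_line B E⟩
    · rintro ⟨hEB, hE⟩
      exact ⟨hS C hC E hE hEB, D.line_eq hBC (D.left_mem_line B C) hE hEB.symm⟩
  rw [this, Finset.card_erase_of_mem (D.left_mem_line B C), hc B C hBC, Nat.add_sub_cancel]

/-- A common size for lines. -/
theorem exists_lineCard : ∃ c, 1 ≤ c ∧ c * D.lam + 1 ≤ D.k ∧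
    ∀ B C : Y, B ≠ C → (D.line B C).card = c + 1 := by
  obtain ⟨B, C, hBC⟩ := Fintype.exists_pair_of_one_lt_card
    (show 1 < Fintype.card Y by rw [D.card_y]; have := D.four_le; omega)
  have h2 : 2 ≤ (D.line B C).card := Finset.one_lt_card.2
    ⟨B, D.left_mem_line B C, C, D.right_mem_line B C, hBC⟩
  refine ⟨(D.line B C).card - 1, by omega, (D.line_mul_le hBC).1, fun B' C' h => ?_⟩
  rw [D.card_line_eq h hBC]; omega

theorem exists_ax_conj {g : G} {B : Y} (hg : g ∈ D.axGroup B) (h1 : g ≠ 1) (B' : Y) :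
    ∃ g' ∈ D.axGroup B', g' ≠ 1 := by
  obtain ⟨A, hA⟩ := Fintype.exists_ne_of_one_lt_card
    (show 1 < Fintype.card Y by rw [D.card_y]; have := D.four_le; omega) B
  obtain ⟨A', hA'⟩ := Fintype.exists_ne_of_one_lt_card
    (show 1 < Fintype.card Y by rw [D.card_y]; have := D.four_le; omega) B'
  obtain ⟨h, hB, -⟩ := D.two_y B A B' A' hA.symm hA'.symm
  refine ⟨h * g * h⁻¹, hB ▸ D.ax_conj hg, fun he => h1 ?_⟩
  simpa using conj_eq_one_iff.1 he

/-- An axial automorphism with a further fixed point: the lines cover. -/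
theorem card_of_point {g : G} {B : Y} (hg : g ∈ D.axGroup B) (h1 : g ≠ 1) {x : X}
    (hx : ¬ D.Mem x B) (hgx : g • x = x) {c : ℕ}
    (hc : ∀ B C : Y, B ≠ C → (D.line B C).card = c + 1) : c * D.lam + 1 = D.k := by
  obtain ⟨p, hp, hpd⟩ := Nat.exists_prime_and_dvd (n := orderOf g) (fun h => h1 (orderOf_eq_one_iff.1 h))
  set g' := g ^ (orderOf g / p) with hg'
  have hord : orderOf g' = p := by
    rw [hg', orderOf_pow_orderOf_div (orderOf_pos g).ne' hpd]
  have hg'B : g' ∈ D.axGroup B := (D.axGroup B).pow_mem hg _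
  have hg'1 : g' ≠ 1 := fun h => hp.ne_one (by rw [← hord, h, orderOf_one])
  have hg'x : g' • x = x := by
    rw [hg']
    exact (MulAction.stabilizer G x).pow_mem hgx _
  have hg'p : g' ^ p = 1 := hord ▸ pow_orderOf_eq_one g'
  have hfix := D.fixed_blocks_of_point hg'B hg'1 hx hg'x
  have hmod : ∀ C, C ≠ B → c ≡ (((D.line B C).erase B).filter fun E => D.Mem x E).card [MOD p] := by
    intro C hC
    have hsz : ((D.line B C).erase B).card = c := by
      rw [Finset.card_erase_of_mem (D.left_mem_line B C), hc B C hC.symm, Nat.add_sub_cancel]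
    have hinv : ∀ E ∈ (D.line B C).erase B, g' • E ∈ (D.line B C).erase B := by
      intro E hE
      rw [Finset.mem_erase] at hE ⊢
      refine ⟨fun he => hE.1 ?_, ?_⟩
      · have := congrArg (g'⁻¹ • ·) he
        simp only [inv_smul_smul] at this
        rw [this, D.ax_fix_block ((D.axGroup B).inv_mem hg'B)]
      · rw [← D.line_eq hC.symm (D.left_mem_line B C) hE.2 hE.1.symm]
        exact D.ax_line hg'B E
    have h := card_modEq_fixed g' hp hg'p _ hinv
    rw [hsz] at h
    rw [show (((D.line B C).erase B).filter fun E => D.Mem x E) =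
      (((D.line B C).erase B).filter fun E => g' • E = E) from Finset.filter_congr fun E hE => by
        rw [hfix]
        simp [Finset.ne_of_mem_erase hE]]
    exact h
  have hle : ∀ C, C ≠ B → (((D.line B C).erase B).filter fun E => D.Mem x E).card ≤ 1 := by
    intro C hC
    rw [Finset.card_le_one]
    intro a ha b hb
    simp only [Finset.mem_filter, Finset.mem_erase] at ha hb
    by_contra hne
    exact hx (D.mem_both hC.symm ha.1.2 hb.1.2 hne ha.2 hb.2).1
  obtain ⟨C₀, hC₀⟩ : (D.blks x).Nonempty := Finset.card_pos.1 (by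
    rw [D.card_blks]; have := D.two_le; omega)
  rw [D.mem_blks] at hC₀
  have hC₀B : C₀ ≠ B := fun e => hx (e ▸ hC₀)
  have hall : ∀ C, C ≠ B → ∃ E ∈ D.line B C, E ≠ B ∧ D.Mem x E := by
    intro C hC
    by_contra hcon
    push Not at hcon
    have h0 : (((D.line B C).erase B).filter fun E => D.Mem x E).card = 0 := by
      rw [Finset.card_eq_zero, Finset.filter_eq_empty_iff]
      intro E hE
      rw [Finset.mem_erase] at hE
      exact hcon E hE.2 hE.1
    have h01 : (((D.line B C₀).erase B).filter fun E => D.Mem x E).card = 1 :=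
      le_antisymm (hle C₀ hC₀B) (Finset.card_pos.2 ⟨C₀, Finset.mem_filter.2
        ⟨Finset.mem_erase.2 ⟨hC₀B, D.right_mem_line B C₀⟩, hC₀⟩⟩)
    have h2 := (hmod C hC).symm.trans (hmod C₀ hC₀B)
    rw [h0, h01] at h2
    exact hp.ne_one (Nat.dvd_one.1 ((Nat.modEq_zero_iff_dvd).1 h2.symm))
  have hcount : ((Finset.univ : Finset Y).erase B).card = D.k * c := by
    have hEex : ∀ C, ∃ E, C ≠ B → E ∈ D.line B C ∧ E ≠ B ∧ D.Mem x E := fun C => by
      by_cases hC : C = B
      · exact ⟨B, fun h => absurd hC h⟩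
      · obtain ⟨E, h1, h2, h3⟩ := hall C hC; exact ⟨E, fun _ => ⟨h1, h2, h3⟩⟩
    choose f hf using hEex
    rw [Finset.card_eq_sum_card_fiberwise (f := f) (t := D.blks x) (fun C hC => by
      simp only [Finset.mem_coe, Finset.mem_erase] at hC
      exact Finset.mem_coe.2 (D.mem_blks.2 (hf C hC.1).2.2))]
    rw [Finset.sum_const_nat (m := c), D.card_blks]
    intro E hE
    rw [D.mem_blks] at hE
    have hEB : E ≠ B := fun e => hx (e ▸ hE)
    have : ((Finset.univ.erase B).filter fun C => f C = E) = (D.line B E).erase B := by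
      ext C
      simp only [Finset.mem_filter, Finset.mem_erase, Finset.mem_univ, and_true]
      constructor
      · rintro ⟨hC, he⟩
        refine ⟨hC, ?_⟩
        have := (hf C hC).1
        rw [he] at this
        rw [D.line_eq hC.symm (D.left_mem_line B C) this hEB.symm]
        exact D.right_mem_line B C
      · rintro ⟨hC, hCE⟩
        refine ⟨hC, ?_⟩
        obtain ⟨h1', h2', h3'⟩ := hf C hC
        rw [D.line_eq hEB.symm (D.left_mem_line B E) hCE hC.symm] at h1'
        by_contra hne
        exact hx (D.mem_both hEB.symm h1' (D.right_mem_line B E) hne h3' hE).1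
    rw [this, Finset.card_erase_of_mem (D.left_mem_line B E), hc B E hEB.symm, Nat.add_sub_cancel]
  rw [Finset.card_erase_of_mem (Finset.mem_univ B), Finset.card_univ, D.card_y] at hcount
  have hcnt := D.count
  rw [hcount] at hcnt
  exact Nat.eq_of_mul_eq_mul_left (show 0 < D.k by have := D.two_le; omega) (by linarith)

/-- The set of axial elements. -/
noncomputable def axSet (B : Y) : Finset G := Finset.univ.filter fun g => g ∈ D.axGroup B

theorem mem_axSet {B : Y} {g : G} : g ∈ D.axSet B ↔ g ∈ D.axGroup B := by simp [axSet]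

/-- The axial elements fixing a further block. -/
noncomputable def axStab (B C : Y) : Finset G := (D.axSet B).filter fun g => g • C = C

theorem mem_axStab {B C : Y} {g : G} : g ∈ D.axStab B C ↔ g ∈ D.axGroup B ∧ g • C = C := by
  simp [axStab, mem_axSet]

theorem card_axStab {B C B' C' : Y} (h : B ≠ C) (h' : B' ≠ C') :
    (D.axStab B C).card = (D.axStab B' C').card := by
  obtain ⟨t, rfl, rfl⟩ := D.two_y B C B' C' h h'
  refine Finset.card_equiv (MulAut.conj t).toEquiv fun g => ?_
  simp only [D.mem_axStab, MulEquiv.toEquiv_eq_coe, EquivLike.coe_coe, MulAut.conj_apply]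
  constructor
  · rintro ⟨h1, h2⟩
    exact ⟨D.ax_conj h1, by rw [mul_smul, mul_smul, inv_smul_smul, h2]⟩
  · rintro ⟨h1, h2⟩
    have h3 := D.ax_conj (h := t⁻¹) h1
    rw [inv_smul_smul] at h3
    refine ⟨by simpa [mul_assoc] using h3, ?_⟩
    rw [mul_smul, mul_smul, inv_smul_smul] at h2
    exact MulAction.injective t h2

theorem card_fibre {B C : Y} (g₀ : G) (hg₀ : g₀ ∈ D.axGroup B) :
    ((D.axSet B).filter fun g => g • C = g₀ • C).card = (D.axStab B C).card := by
  refine Finset.card_equiv (Equiv.mulLeft g₀⁻¹) fun g => ?_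
  simp only [Equiv.coe_mulLeft, Finset.mem_filter, mem_axSet, mem_axStab, mul_smul, inv_smul_eq_iff]
  exact and_congr_left fun _ => ⟨fun h => (D.axGroup B).mul_mem ((D.axGroup B).inv_mem hg₀) h,
    fun h => by simpa using (D.axGroup B).mul_mem hg₀ h⟩

/-- All axial elements are free off their axes. -/
def Free : Prop :=
  ∀ (B : Y) (g : G), g ∈ D.axGroup B → g ≠ 1 → ∀ x, ¬ D.Mem x B → g • x ≠ x

/-- The numerical data in the free case. -/
theorem free_data (hA : D.HasAxial) (hF : D.Free) {c : ℕ} (hc1 : c * D.lam + 1 ≤ D.k)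
    (hc : ∀ B C : Y, B ≠ C → (D.line B C).card = c + 1) {B C : Y} (hBC : B ≠ C) :
    2 ≤ c ∧ 2 ≤ (D.axStab B C).card ∧ (D.axSet B).card = c * (D.axStab B C).card ∧
      (D.k - c * D.lam) * (D.axStab B C).card + D.lam = D.k ∧
      (∀ E ∈ D.line B C, E ≠ B → ∃ g ∈ D.axSet B, g • C = E) := by
  obtain ⟨g₁, B₁, hg₁, hne⟩ := hA
  obtain ⟨g₂, hg₂, hne₂⟩ := D.exists_ax_conj hg₁ hne B
  set e := (D.axStab B C).card with he
  set s := (D.axSet B).card with hs
  have hs2 : 2 ≤ s := Finset.one_lt_card.2
    ⟨1, D.mem_axSet.2 (D.axGroup B).one_mem, g₂, D.mem_axSet.2 hg₂, hne₂.symm⟩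
  have hepos : 1 ≤ e := Finset.card_pos.2 ⟨1, D.mem_axStab.2 ⟨(D.axGroup B).one_mem, one_smul G C⟩⟩
  obtain ⟨z, hz⟩ := D.exists_not_mem B
  have heq : D.k + (s - 1) * D.lam = D.k * e := by
    have h := Finset.sum_card_bipartiteAbove_eq_sum_card_bipartiteBelow
      (fun (g : G) (E : Y) => g • E = E) (s := D.axSet B) (t := D.blks z)
    rw [Finset.sum_congr rfl (fun E (hE : E ∈ D.blks z) => show
        ((D.axSet B).bipartiteBelow (fun (g : G) (E : Y) => g • E = E) E).card = e from by
          rw [he, D.card_axStab hBC (B' := B) (C' := E) (fun e' => hz (e' ▸ D.mem_blks.1 hE))]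
          rfl),
      Finset.sum_const, smul_eq_mul, D.card_blks,
      ← Finset.add_sum_erase _ _ (D.mem_axSet.2 (D.axGroup B).one_mem),
      Finset.sum_congr rfl (fun g (hg : g ∈ (D.axSet B).erase 1) => show
        ((D.blks z).bipartiteAbove (fun (g : G) (E : Y) => g • E = E) g).card = D.lam from by
          rw [Finset.mem_erase, D.mem_axSet] at hg
          exact D.ax_fixed_card hg.2 hz (hF B g hg.2 hg.1 z hz)),
      Finset.sum_const, smul_eq_mul,
      Finset.card_erase_of_mem (D.mem_axSet.2 (D.axGroup B).one_mem)] at h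
    have h0 : ((D.blks z).bipartiteAbove (fun (g : G) (E : Y) => g • E = E) 1).card = D.k := by
      rw [← D.card_blks z, Finset.bipartiteAbove, Finset.filter_true_of_mem fun E _ => one_smul G E]
    rw [h0] at h
    exact h
  set t := ((D.axSet B).image (· • C)).card with ht
  have hst : s = t * e := by
    rw [hs, Finset.card_eq_sum_card_image (· • C) (D.axSet B), Finset.sum_const_nat (m := e), ht]
    intro E hE
    obtain ⟨g₀, hg₀, rfl⟩ := Finset.mem_image.1 hE
    exact D.card_fibre g₀ (D.mem_axSet.1 hg₀)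
  have hsub : (D.axSet B).image (· • C) ⊆ (D.line B C).erase B := by
    intro E hE
    obtain ⟨g₀, hg₀, rfl⟩ := Finset.mem_image.1 hE
    rw [D.mem_axSet] at hg₀
    refine Finset.mem_erase.2 ⟨fun h => hBC ?_, D.ax_line hg₀ C⟩
    rw [← D.ax_fix_block hg₀] at h
    exact (MulAction.injective g₀ h).symm
  have hcard : ((D.line B C).erase B).card = c := by
    rw [Finset.card_erase_of_mem (D.left_mem_line B C), hc B C hBC, Nat.add_sub_cancel]
  have htc : t ≤ c := hcard ▸ Finset.card_le_card hsub
  obtain ⟨s', hs'⟩ : ∃ s', s = s' + 1 := ⟨_, (Nat.sub_add_cancel (by omega : 1 ≤ s)).symm⟩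
  rw [hs', Nat.add_sub_cancel] at heq
  have hlk := D.lam_add_two_le
  have hlpos := D.lam_pos
  have he2 : 2 ≤ e := by
    by_contra h
    have : e = 1 := by omega
    rw [this] at heq
    nlinarith
  have ht2 : 2 ≤ t := by
    by_contra h
    have h' : t ≤ 1 := by omega
    have : s ≤ e := by rw [hst]; nlinarith
    nlinarith
  have hkt : t * D.lam < D.k := by
    by_contra h
    push Not at h
    have h1 : D.k * e ≤ (t * D.lam) * e := Nat.mul_le_mul_right _ h
    have h2 : t * e = s' + 1 := by omega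
    nlinarith
  obtain ⟨u, hu⟩ : ∃ u, D.k = t * D.lam + u := ⟨_, (Nat.add_sub_cancel' hkt.le).symm⟩
  have hue : u * e + D.lam = D.k := by
    have h2 : t * e = s' + 1 := by omega
    rw [hu] at heq ⊢
    nlinarith
  have hcl : c < 2 * t := by
    by_contra h
    push Not at h
    have h1 : 2 * t * D.lam ≤ c * D.lam := Nat.mul_le_mul_right _ h
    nlinarith
  have heqset : (D.axSet B).image (· • C) = (D.line B C).erase B := by
    refine Finset.Subset.antisymm hsub fun E hE => ?_
    by_contra hn
    have hEB : B ≠ E := (Finset.ne_of_mem_erase hE).symm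
    have hsub' : (D.axSet B).image (· • E) ⊆ (D.line B C).erase B := by
      intro E' hE'
      obtain ⟨g₀, hg₀, rfl⟩ := Finset.mem_image.1 hE'
      rw [D.mem_axSet] at hg₀
      refine Finset.mem_erase.2 ⟨fun h => hEB ?_, ?_⟩
      · rw [← D.ax_fix_block hg₀] at h
        exact (MulAction.injective g₀ h).symm
      · rw [← D.line_eq hBC (D.left_mem_line B C) (Finset.mem_of_mem_erase hE) hEB]
        exact D.ax_line hg₀ E
    have hdis : Disjoint ((D.axSet B).image (· • C)) ((D.axSet B).image (· • E)) := by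
      rw [Finset.disjoint_left]
      intro E' h1 h2
      obtain ⟨a, ha, rfl⟩ := Finset.mem_image.1 h1
      obtain ⟨b, hb, hab⟩ := Finset.mem_image.1 h2
      refine hn (Finset.mem_image.2 ⟨b⁻¹ * a, D.mem_axSet.2 ((D.axGroup B).mul_mem
        ((D.axGroup B).inv_mem (D.mem_axSet.1 hb)) (D.mem_axSet.1 ha)), ?_⟩)
      rw [mul_smul, ← hab, inv_smul_smul]
    have hsz : ((D.axSet B).image (· • E)).card = t := by
      have h3 : s = ((D.axSet B).image (· • E)).card * e := by
        rw [hs, Finset.card_eq_sum_card_image (· • E) (D.axSet B), Finset.sum_const_nat (m := e)]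
        intro E' hE'
        obtain ⟨g₀, hg₀, rfl⟩ := Finset.mem_image.1 hE'
        rw [he, D.card_axStab hBC hEB]
        exact D.card_fibre g₀ (D.mem_axSet.1 hg₀)
      exact Nat.eq_of_mul_eq_mul_right (by omega : 0 < e) (h3.symm.trans hst)
    have h4 := Finset.card_le_card (Finset.union_subset hsub hsub')
    rw [Finset.card_union_of_disjoint hdis, hsz, ← ht, hcard] at h4
    omega
  have htc' : t = c := by rw [ht, heqset, hcard]
  subst htc'
  refine ⟨ht2, he2, hst, ?_, fun E hE hEB => ?_⟩
  · rw [show D.k - t * D.lam = u by omega]; exact hue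
  · have : E ∈ (D.axSet B).image (· • C) := by rw [heqset]; exact Finset.mem_erase.2 ⟨hEB, hE⟩
    simpa using this

/-- The fibres of the union of the translates of a block. -/
theorem card_translates {B C : Y} (hBC : B ≠ C) :
    (((D.axSet B) ×ˢ (D.pts C \ D.pts B)).image fun p => p.1 • p.2).card * (D.axStab B C).card =
      (D.axSet B).card * (D.k - D.lam) := by
  set W := ((D.axSet B) ×ˢ (D.pts C \ D.pts B)).image fun p => p.1 • p.2 with hW
  have h := Finset.card_eq_sum_card_image (fun p : G × X => p.1 • p.2)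
    ((D.axSet B) ×ˢ (D.pts C \ D.pts B))
  rw [Finset.card_product, Finset.card_sdiff, Finset.inter_comm, D.card_pts,
    Finset.inter_comm, D.card_pts₂ hBC] at h
  rw [h, Finset.sum_const_nat (m := (D.axStab B C).card)]
  intro w hw
  obtain ⟨⟨g₀, z₀⟩, hp, rfl⟩ := Finset.mem_image.1 hw
  simp only [Finset.mem_product, Finset.mem_sdiff, D.mem_pts, D.mem_axSet] at hp
  obtain ⟨hg₀, hz₀C, hz₀B⟩ := hp
  symm
  refine Finset.card_bij (fun a _ => (g₀ * a, a⁻¹ • z₀)) (fun a ha => ?_)
    (fun a _ b _ h => mul_left_cancel (congrArg Prod.fst h)) (fun p hp => ?_)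
  · rw [D.mem_axStab] at ha
    simp only [Finset.mem_filter, Finset.mem_product, Finset.mem_sdiff, D.mem_pts, D.mem_axSet]
    refine ⟨⟨(D.axGroup B).mul_mem hg₀ ha.1, ?_, fun h => hz₀B ?_⟩, by
      rw [mul_smul, smul_inv_smul]⟩
    · rw [← D.mem_smul, ha.2]; exact hz₀C
    · exact (D.ax_mem_iff ((D.axGroup B).inv_mem ha.1) z₀).1 h
  · obtain ⟨g, z⟩ := p
    simp only [Finset.mem_filter, Finset.mem_product, Finset.mem_sdiff, D.mem_pts, D.mem_axSet] at hp
    obtain ⟨⟨hg, hzC, hzB⟩, hpq⟩ := hp
    have hm : g₀⁻¹ * g ∈ D.axGroup B := (D.axGroup B).mul_mem ((D.axGroup B).inv_mem hg₀) hg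
    have hz : (g₀⁻¹ * g) • z = z₀ := by rw [mul_smul, hpq, inv_smul_smul]
    refine ⟨g₀⁻¹ * g, D.mem_axStab.2 ⟨hm, (D.ax_fixed_iff hm hzB hzC).2 (hz ▸ hz₀C)⟩, ?_⟩
    rw [← hz, inv_smul_smul, mul_inv_cancel_left]

/-- In the free case the lines cover as well. -/
theorem card_of_free (hA : D.HasAxial) (hF : D.Free) {c : ℕ} (hc1 : c * D.lam + 1 ≤ D.k)
    (hc : ∀ B C : Y, B ≠ C → (D.line B C).card = c + 1) : c * D.lam + 1 = D.k := by
  obtain ⟨B, C, hBC⟩ := Fintype.exists_pair_of_one_lt_card
    (show 1 < Fintype.card Y by rw [D.card_y]; have := D.four_le; omega)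
  obtain ⟨hc2, he2, hs, hue, hline⟩ := D.free_data hA hF hc1 hc hBC
  set e := (D.axStab B C).card with he
  set s := (D.axSet B).card with hsdef
  obtain ⟨u, hu⟩ : ∃ u, D.k = c * D.lam + u := ⟨_, (Nat.add_sub_cancel' (by omega)).symm⟩
  rw [show D.k - c * D.lam = u by omega] at hue
  -- `c` divides `k - 1`
  obtain ⟨a, ha⟩ := D.exists_mem B
  have hdiv : c ∣ D.k - 1 := by
    have := D.dvd_card_of_lines hc ((D.blks a).erase B) (Finset.notMem_erase B _) (fun E hE E' hE' hne =>
      Finset.mem_erase.2 ⟨hne, D.mem_blks.2 (D.mem_line.1 hE' a ha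
        (D.mem_blks.1 (Finset.mem_of_mem_erase hE)))⟩)
    rwa [Finset.card_erase_of_mem (D.mem_blks.2 ha), D.card_blks] at this
  -- an element with axis `C` fixing `B`
  obtain ⟨h, hh, hh1⟩ : ∃ h ∈ D.axStab C B, h ≠ 1 := by
    apply Finset.exists_mem_ne
    have := D.card_axStab hBC hBC.symm
    omega
  rw [D.mem_axStab] at hh
  obtain ⟨hhC, hhB⟩ := hh
  have hconj : ∀ g ∈ D.axGroup B, h * g * h⁻¹ ∈ D.axGroup B := fun g hg => by
    have := D.ax_conj (h := h) hg
    rwa [hhB] at this
  -- twisted Burnside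
  have key : ∑ g ∈ D.axSet B, (Finset.univ.filter fun x : X => g • h • x = x).card =
      ∑ g ∈ D.axSet B, (Finset.univ.filter fun E : Y => g • h • E = E).card :=
    Finset.sum_congr rfl fun g _ => by
      have := D.fix_card (g * h)
      rw [Nat.card_eq_fintype_card, Nat.card_eq_fintype_card, Fintype.card_subtype,
        Fintype.card_subtype] at this
      simpa [mul_smul] using this
  replace key : ∑ x : X, ((D.axSet B).filter fun g => g • h • x = x).card =
      ∑ E : Y, ((D.axSet B).filter fun g => g • h • E = E).card :=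
    ((Finset.sum_card_bipartiteAbove_eq_sum_card_bipartiteBelow
        (fun (g : G) (x : X) => g • h • x = x) (s := D.axSet B) (t := Finset.univ)).symm.trans key).trans
      (Finset.sum_card_bipartiteAbove_eq_sum_card_bipartiteBelow
        (fun (g : G) (E : Y) => g • h • E = E) (s := D.axSet B) (t := Finset.univ))
  -- lower bound on the points
  set T := D.pts B ∩ D.pts C with hT
  set W := ((D.axSet B) ×ˢ (D.pts C \ D.pts B)).image fun p => p.1 • p.2 with hW
  have hWcard : W.card = c * (D.k - D.lam) := by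
    have h1 := D.card_translates hBC
    rw [← hW, ← he, ← hsdef, hs] at h1
    exact Nat.eq_of_mul_eq_mul_right (show 0 < e by omega) (h1.trans (by ring))
  have hdis : Disjoint T W := by
    rw [Finset.disjoint_left]
    intro w hw hw'
    obtain ⟨⟨g, z⟩, hp, rfl⟩ := Finset.mem_image.1 hw'
    simp only [Finset.mem_product, Finset.mem_sdiff, D.mem_pts, D.mem_axSet] at hp
    rw [hT, Finset.mem_inter, D.mem_pts] at hw
    exact hp.2.2 ((D.ax_mem_iff hp.1 z).1 hw.1)
  have hlow : D.lam * s + c * (D.k - D.lam) ≤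
      ∑ x : X, ((D.axSet B).filter fun g => g • h • x = x).card := by
    refine le_trans (le_of_eq ?_) (Finset.sum_le_sum_of_subset (Finset.subset_univ (T ∪ W)))
    rw [Finset.sum_union hdis, Finset.sum_const_nat (m := s), Finset.sum_const_nat (m := 1), mul_one,
      hWcard, hT, D.card_pts₂ hBC]
    · intro w hw
      obtain ⟨⟨g, z⟩, hp, rfl⟩ := Finset.mem_image.1 hw
      simp only [Finset.mem_product, Finset.mem_sdiff, D.mem_pts, D.mem_axSet] at hp
      obtain ⟨hg, hzC, hzB⟩ := hp
      have hgh : h • g • z = (h * g * h⁻¹) • z := by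
        rw [mul_smul, mul_smul]
        conv_rhs => rw [(D.axGroup C).inv_mem hhC z hzC]
      rw [Finset.card_eq_one]
      refine ⟨g * (h * g * h⁻¹)⁻¹, Finset.eq_singleton_iff_unique_mem.2 ⟨?_, fun a ha => ?_⟩⟩
      · simp only [Finset.mem_filter, D.mem_axSet]
        exact ⟨(D.axGroup B).mul_mem hg ((D.axGroup B).inv_mem (hconj g hg)),
          by rw [hgh, mul_smul, inv_smul_smul]⟩
      · simp only [Finset.mem_filter, D.mem_axSet] at ha
        by_contra hne
        set a₀ := g * (h * g * h⁻¹)⁻¹ with ha₀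
        have hwB : ¬ D.Mem (h • g • z) B := fun hm => by
          rw [hgh] at hm
          exact hzB ((D.ax_mem_iff (hconj g hg) z).1 hm)
        refine hF B (a₀⁻¹ * a) ((D.axGroup B).mul_mem ((D.axGroup B).inv_mem
          ((D.axGroup B).mul_mem hg ((D.axGroup B).inv_mem (hconj g hg)))) ha.1)
          (fun he' => hne (inv_mul_eq_one.1 he').symm) _ hwB ?_
        rw [mul_smul, ha.2, inv_smul_eq_iff, ha₀, hgh, mul_smul, inv_smul_smul]
    · intro w hw
      rw [hT, Finset.mem_inter, D.mem_pts, D.mem_pts] at hw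
      rw [hsdef, Finset.filter_true_of_mem fun g hg => ?_]
      rw [hhC w hw.2]
      exact D.mem_axSet.1 hg w hw.1
  -- upper bound on the blocks
  have hhfree : ∀ x, ¬ D.Mem x C → h • x ≠ x := hF C h hhC hh1
  set Fx := ((Finset.univ.filter fun E : Y => h • E = E).erase B).erase C with hFx
  set L := (D.line B C).erase B with hL
  have hup : ∑ E : Y, ((D.axSet B).filter fun g => g • h • E = E).card ≤ s + e * (c + (D.k - 2)) := by
    rw [← Finset.add_sum_erase _ _ (Finset.mem_univ B)]
    refine Nat.add_le_add (Finset.card_filter_le _ _) ?_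
    have hb : ∀ E ∈ (Finset.univ : Finset Y).erase B,
        ((D.axSet B).filter fun g => g • h • E = E).card ≤ if E ∈ L ∪ Fx then e else 0 := by
      intro E hE
      have hEB : B ≠ E := (Finset.ne_of_mem_erase hE).symm
      by_cases hne : ((D.axSet B).filter fun g => g • h • E = E) = ∅
      · rw [hne, Finset.card_empty]; exact Nat.zero_le _
      obtain ⟨g₀, hg₀⟩ := Finset.nonempty_iff_ne_empty.2 hne
      rw [Finset.mem_filter, D.mem_axSet] at hg₀
      have hhE : h • E ∈ D.line B E := by
        rw [show h • E = g₀⁻¹ • E from eq_inv_smul_iff.2 hg₀.2]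
        exact D.ax_line ((D.axGroup B).inv_mem hg₀.1) E
      have hmem : E ∈ L ∪ Fx := by
        rw [Finset.mem_union]
        by_cases hEC : E = C
        · exact Or.inl (Finset.mem_erase.2 ⟨hEB.symm, hEC ▸ D.right_mem_line B C⟩)
        by_cases hfixE : h • E = E
        · exact Or.inr (by simp [hFx, hEC, hEB.symm, hfixE])
        refine Or.inl (Finset.mem_erase.2 ⟨hEB.symm, ?_⟩)
        have h1 : h • E ∈ D.line C E := D.ax_line hhC E
        have h2 : D.line B E = D.line C E := by
          rw [← D.line_eq hEB hhE (D.right_mem_line B E) hfixE,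
            D.line_eq (Ne.symm hEC) h1 (D.right_mem_line C E) hfixE]
        have hC' : C ∈ D.line B E := h2 ▸ D.left_mem_line C E
        rw [D.line_eq hEB (D.left_mem_line B E) hC' hBC]
        exact D.right_mem_line B E
      have hne' : B ≠ h • E := fun e' => hEB (by
        rw [← hhB] at e'
        exact MulAction.injective h e')
      rw [if_pos hmem, he, D.card_axStab hBC hne', ← D.card_fibre g₀ hg₀.1 (C := h • E)]
      refine le_of_eq (congrArg Finset.card (Finset.filter_congr fun g _ => ?_))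
      rw [hg₀.2]
    refine (Finset.sum_le_sum hb).trans ?_
    rw [← Finset.sum_filter, Finset.sum_const, smul_eq_mul, mul_comm]
    refine Nat.mul_le_mul_left _ ((Finset.card_le_card (fun E hE => (Finset.mem_filter.1 hE).2)).trans
      ((Finset.card_union_le _ _).trans (Nat.add_le_add ?_ ?_)))
    · rw [hL, Finset.card_erase_of_mem (D.left_mem_line B C), hc B C hBC, Nat.add_sub_cancel]
    · have m1 : B ∈ Finset.univ.filter fun E : Y => h • E = E := by simp [hhB]
      have m2 : C ∈ (Finset.univ.filter fun E : Y => h • E = E).erase B := by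
        simp [hBC.symm, D.ax_fix_block hhC]
      rw [hFx, Finset.card_erase_of_mem m2, Finset.card_erase_of_mem m1,
        D.fixed_blocks_card hhC hhfree]
      omega
  rw [key] at hlow
  have h1 := hlow.trans hup
  rw [hs] at h1
  obtain ⟨kl, hkl⟩ : ∃ kl, D.k = kl + 2 := ⟨_, (Nat.sub_add_cancel D.two_le).symm⟩
  rw [show D.k - D.lam = u * e by omega, show D.k - 2 = kl by omega] at h1
  have h2 : D.lam * c + c * u ≤ c + (c + kl) := by
    refine Nat.le_of_mul_le_mul_right ?_ (show 0 < e by omega)
    calc (D.lam * c + c * u) * e = D.lam * (c * e) + c * (u * e) := by ring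
      _ ≤ c * e + e * (c + kl) := h1
      _ = (c + (c + kl)) * e := by ring
  have hu1 : 1 ≤ u := by omega
  have hu2 : u ≤ 2 := by
    by_contra hh
    obtain ⟨w, rfl⟩ : ∃ w, u = w + 3 := ⟨u - 3, by omega⟩
    nlinarith
  interval_cases u
  · omega
  · exfalso
    have h5 : c ∣ D.k - 1 - c * D.lam := Nat.dvd_sub hdiv (Dvd.intro _ rfl)
    rw [show D.k - 1 - c * D.lam = 1 by omega] at h5
    have := Nat.dvd_one.1 h5
    omega

/-- **Covering theorem.** -/
theorem card_line_of_axial (hA : D.HasAxial) {c : ℕ} (hc1 : c * D.lam + 1 ≤ D.k)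
    (hc : ∀ B C : Y, B ≠ C → (D.line B C).card = c + 1) : c * D.lam + 1 = D.k := by
  by_cases hF : D.Free
  · exact D.card_of_free hA hF hc1 hc
  · rw [Free] at hF
    push Not at hF
    obtain ⟨B, g, hg, h1, x, hx, hgx⟩ := hF
    exact D.card_of_point hg h1 hx hgx hc

end Design

end CfsgLib.MetacyclicP.ItoDesign
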