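import Cfsg.Agent.Lib.MetacyclicP.ItoDesign.Model

/-!
# The elations generate a normal projective special linear group
-/

set_option autoImplicit false
set_option linter.unusedSectionVars false
set_option maxHeartbeats 800000

open Matrix

namespace CfsgLib.MetacyclicP.ItoDesign

namespace Design

variable {G X Y : Type*} [Group G] [Fintype G] [MulAction G X] [MulAction G Y] [Fintype X] [Fintype Y]
variable (D : Design G X Y)

open scoped Classical

/-- All automorphisms of the design. -/
def autGroup : Subgroup (Equiv.Perm X × Equiv.Perm Y) where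
  carrier := {g | ∀ x y, D.Mem (g.1 x) (g.2 y) ↔ D.Mem x y}
  one_mem' _ _ := Iff.rfl
  mul_mem' {g h} hg hh x y := (hg (h.1 x) (h.2 y)).trans (hh x y)
  inv_mem' {g} hg x y := by
    have := (hg (g.1⁻¹ x) (g.2⁻¹ y)).symm
    simpa using this

instance autActX : MulAction D.autGroup X where
  smul g x := g.1.1 x
  one_smul _ := rfl
  mul_smul _ _ _ := rfl

instance autActY : MulAction D.autGroup Y where
  smul g y := g.1.2 y
  one_smul _ := rfl
  mul_smul _ _ _ := rfl

/-- The map to the automorphism group. -/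
def toAut : G →* D.autGroup where
  toFun g := ⟨(MulAction.toPermHom G X g, MulAction.toPermHom G Y g), fun x y => D.smul_mem g x y⟩
  map_one' := Subtype.ext (Prod.ext (map_one _) (map_one _))
  map_mul' g h := Subtype.ext (Prod.ext (map_mul _ g h) (map_mul _ g h))

theorem toAut_smul (g : G) (x : X) : D.toAut g • x = g • x := rfl

theorem toAut_smul_y (g : G) (y : Y) : D.toAut g • y = g • y := rfl

/-- The design with its full automorphism group. -/
def autDesign : Design D.autGroup X Y :=
  { Mem := D.Mem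
    smul_mem := fun g x y => g.2 x y
    k := D.k
    lam := D.lam
    two_le := D.two_le
    add_two_le := D.add_two_le
    card_eq := D.card_eq
    card_pts' := D.card_pts'
    card_blks' := D.card_blks'
    card_blks₂' := D.card_blks₂'
    card_pts₂' := D.card_pts₂'
    two_x := fun a b a' b' h h' => by
      obtain ⟨g, h1, h2⟩ := D.two_x a b a' b' h h'
      exact ⟨D.toAut g, h1, h2⟩
    two_y := fun a b a' b' h h' => by
      obtain ⟨g, h1, h2⟩ := D.two_y a b a' b' h h'
      exact ⟨D.toAut g, h1, h2⟩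
    faithful := fun g hg => by
      refine Subtype.ext (Prod.ext (Equiv.ext hg) (Equiv.ext fun y => D.pts_inj ?_))
      ext x
      rw [D.mem_pts, D.mem_pts]
      conv_lhs => rw [← show g.1.1 x = x from hg x]
      exact g.2 x y }

theorem toAut_axGroup {g : G} {B : Y} (h : g ∈ D.axGroup B) :
    D.toAut g ∈ D.autDesign.axGroup B := fun x hx => h x hx

theorem toAut_trans {g : G} {B : Y} (h : g ∈ D.trans B) : D.toAut g ∈ D.autDesign.trans B := by
  refine ⟨D.toAut_axGroup h.1, ?_⟩
  rcases h.2 with rfl | hf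
  · exact Or.inl (map_one _)
  · exact Or.inr fun x hx => hf x hx

end Design

namespace Lin

variable {G X Y : Type*} [Group G] [Fintype G] [MulAction G X] [MulAction G Y] [Fintype X] [Fintype Y]
variable {D : Design G X Y} {F : Frame D} {m : ℕ} {K : Type} [Field K] [Fintype K] (L : Lin F m K)

open scoped Classical

/-- The action of the linear group on points. -/
noncomputable def ρ : Matrix.ProjectiveSpecialLinearGroup (Fin (m + 1)) K →* Equiv.Perm X :=
  (Equiv.ofBijective L.Θ L.Θ_bij).permCongrHom.toMonoidHom.comp Projectivization.PSLAction.toPermHom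

theorem ρ_apply (A : Matrix.SpecialLinearGroup (Fin (m + 1)) K) (w : Fin (m + 1) → K) (hw : w ≠ 0) :
    L.ρ (QuotientGroup.mk A) (L.θ w) = L.θ (A • w) := by
  rw [← L.Θ_mk w hw]
  have h1 : (Equiv.ofBijective L.Θ L.Θ_bij).symm (L.Θ (Projectivization.mk K w hw)) =
      Projectivization.mk K w hw := Equiv.ofBijective_symm_apply_apply _ _ _
  show L.Θ ((QuotientGroup.mk A : Matrix.ProjectiveSpecialLinearGroup (Fin (m + 1)) K) •
    ((Equiv.ofBijective L.Θ L.Θ_bij).symm (L.Θ (Projectivization.mk K w hw)))) = _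
  rw [h1, Matrix.ProjectiveSpecialLinearGroup.smul_proj_mk, Projectivization.smul_mk, L.Θ_mk]

theorem ρ_injective : Function.Injective L.ρ :=
  (Equiv.ofBijective L.Θ L.Θ_bij).permCongrHom.injective.comp
    Matrix.ProjectiveSpecialLinearGroup.toPermHom_injective

/-- A linear map is an automorphism of the design. -/
theorem exists_aut (A : Matrix.SpecialLinearGroup (Fin (m + 1)) K) :
    ∃ a : D.autGroup, ∀ x : X, a • x = L.ρ (QuotientGroup.mk A) x := by
  set σ := L.ρ (QuotientGroup.mk A) with hσ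
  have hex : ∀ E, ∃ E', ∀ x, D.Mem (σ x) E' ↔ D.Mem x E := by
    intro E
    obtain ⟨φ, hφ, rfl⟩ := L.ψ_surj E
    set φ' := φ ᵥ* (A⁻¹ : Matrix.SpecialLinearGroup (Fin (m + 1)) K).1 with hφ'
    have key : ∀ w, φ' ⬝ᵥ (A • w) = φ ⬝ᵥ w := by
      intro w
      rw [hφ', ← Matrix.dotProduct_mulVec]
      congr 1
      exact inv_smul_smul A w
    have hφ'0 : φ' ≠ 0 := by
      intro h
      apply hφ
      funext i
      have := key (Pi.single i 1)
      rw [h, zero_dotProduct, dotProduct_single, mul_one] at this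
      exact this.symm
    refine ⟨L.ψ φ', fun x => ?_⟩
    obtain ⟨w, hw, rfl⟩ := L.θ_surj x
    rw [hσ, L.ρ_apply A w hw, L.mem_ψ hφ'0 ((smul_ne_zero_iff_ne A).2 hw), key, L.mem_ψ hφ hw]
  choose τ hτ using hex
  have hinj : Function.Injective τ := fun E E' h => D.pts_inj (by
    ext x
    rw [D.mem_pts, D.mem_pts, ← hτ E x, ← hτ E' x, h])
  refine ⟨⟨(σ, Equiv.ofBijective τ (Finite.injective_iff_bijective.1 hinj)), fun x y => hτ y x⟩,
    fun x => rfl⟩

/-- A transvection. -/
def tvec (φ v : Fin (m + 1) → K) (h : φ ⬝ᵥ v = 0) : Matrix.SpecialLinearGroup (Fin (m + 1)) K :=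
  ⟨1 + Matrix.replicateCol Unit v * Matrix.replicateRow Unit φ, by
    rw [Matrix.det_one_add_replicateCol_mul_replicateRow, h, add_zero]⟩

theorem tvec_smul (φ v : Fin (m + 1) → K) (h : φ ⬝ᵥ v = 0) (w : Fin (m + 1) → K) :
    tvec φ v h • w = w + (φ ⬝ᵥ w) • v := by
  rw [Matrix.SpecialLinearGroup.smul_def, tvec, Matrix.smul_eq_mulVec]
  show (1 + Matrix.replicateCol Unit v * Matrix.replicateRow Unit φ) *ᵥ w = _
  rw [Matrix.add_mulVec, Matrix.one_mulVec]
  congr 1
  funext i
  simp only [Matrix.mulVec, Matrix.mul_apply, Matrix.replicateCol_apply, Matrix.replicateRow_apply,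
    Finset.univ_unique, Finset.sum_singleton, dotProduct, Pi.smul_apply, smul_eq_mul]
  rw [Finset.sum_mul]
  exact Finset.sum_congr rfl fun j _ => by ring

/-- An elation agreeing at one point with a transvection of the same axis is that transvection. -/
theorem elation_eq {φ v : Fin (m + 1) → K} (h : φ ⬝ᵥ v = 0) (hφ : φ ≠ 0) {g : G}
    (hg : g ∈ D.trans (L.ψ φ)) {u : Fin (m + 1) → K} (hu : φ ⬝ᵥ u ≠ 0)
    (he : g • L.θ u = L.θ (tvec φ v h • u)) :
    MulAction.toPermHom G X g = L.ρ (QuotientGroup.mk (tvec φ v h)) := by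
  obtain ⟨a, ha⟩ := L.exists_aut (tvec φ v h)
  have hu0 : u ≠ 0 := fun e => hu (by rw [e, dotProduct_zero])
  have hapt : ∀ w, w ≠ 0 → a • L.θ w = L.θ (tvec φ v h • w) := fun w hw => by
    rw [ha, L.ρ_apply _ w hw]
  have hax : a ∈ D.autDesign.axGroup (L.ψ φ) := by
    intro x hx
    obtain ⟨w, hw, rfl⟩ := L.θ_surj x
    have : φ ⬝ᵥ w = 0 := (L.mem_ψ hφ hw).1 hx
    rw [hapt w hw, tvec_smul, this, zero_smul, add_zero]
  have hfree : a = 1 ∨ ∀ x, ¬ D.autDesign.Mem x (L.ψ φ) → a • x ≠ x := by
    by_cases hv : v = 0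
    · refine Or.inl (D.autDesign.faithful a fun x => ?_)
      obtain ⟨w, hw, rfl⟩ := L.θ_surj x
      rw [hapt w hw, tvec_smul, hv, smul_zero, add_zero]
    · refine Or.inr fun x hx hfix => ?_
      obtain ⟨w, hw, rfl⟩ := L.θ_surj x
      have hφw : φ ⬝ᵥ w ≠ 0 := fun e => hx ((L.mem_ψ hφ hw).2 e)
      rw [hapt w hw] at hfix
      obtain ⟨c, hc⟩ := L.θ_inj ((smul_ne_zero_iff_ne _).2 hw) hw hfix
      rw [tvec_smul] at hc
      have h1 := congrArg (φ ⬝ᵥ ·) hc
      simp only [dotProduct_smul, dotProduct_add, h, smul_zero, add_zero, smul_eq_mul, mul_zero] at h1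
      have hc1 : c = 1 := (mul_eq_right₀ hφw).1 h1
      rw [hc1, one_smul, left_eq_add, smul_eq_zero, or_iff_right hφw] at hc
      exact hv hc
  have hu' : ¬ D.autDesign.Mem (L.θ u) (L.ψ φ) := fun e => hu ((L.mem_ψ hφ hu0).1 e)
  have hA' : D.autDesign.HasAxial := by
    obtain ⟨g₁, B, hg₁, h1⟩ := F.hA
    refine ⟨D.toAut g₁, B, D.toAut_axGroup hg₁, fun e => h1 (D.faithful g₁ fun x => ?_)⟩
    rw [← D.toAut_smul, e, one_smul]
  have hga : D.toAut g = a :=
    D.autDesign.trans_unique hA' (D.toAut_trans hg) ⟨hax, hfree⟩ hu' (by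
      rw [D.toAut_smul, he, hapt u hu0])
  refine Equiv.ext fun x => ?_
  rw [← ha x, ← hga]
  rfl

include L in
/-- The main structural result. -/
theorem exists_psl : Fintype.card X = (Fintype.card K ^ (m + 1) - 1) / (Fintype.card K - 1) ∧
    ∃ N : Subgroup G, N.Normal ∧
      Nonempty (N ≃* Matrix.ProjectiveSpecialLinearGroup (Fin (m + 1)) K) ∧
      Subgroup.centralizer (N : Set G) = ⊥ := by
  refine ⟨?_, ?_⟩
  · rw [← Nat.card_eq_fintype_card, ← Nat.card_eq_of_bijective _ L.Θ_bij, Projectivization.card'',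
      Nat.card_eq_fintype_card, Fintype.card_fun, Fintype.card_fin, Nat.card_eq_fintype_card]
  set S : Set G := {g | ∃ B, g ∈ D.trans B} with hS
  set N := Subgroup.closure S with hN
  have hnorm : N.Normal := by
    refine ⟨fun n hn g => ?_⟩
    have : N ≤ N.comap (MulAut.conj g).toMonoidHom := by
      rw [hN, Subgroup.closure_le]
      rintro s ⟨B, hs⟩
      exact Subgroup.subset_closure ⟨g • B, D.trans_conj hs⟩
    exact this hn
  have hι : Function.Injective (MulAction.toPermHom G X) := by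
    rw [injective_iff_map_eq_one]
    exact fun g hg => D.faithful g fun x => Equiv.ext_iff.1 hg x
  have himg : N.map (MulAction.toPermHom G X) = L.ρ.range := by
    apply le_antisymm
    · rw [Subgroup.map_le_iff_le_comap, hN, Subgroup.closure_le]
      rintro g ⟨B, hg⟩
      obtain ⟨φ, hφ, rfl⟩ := L.ψ_surj B
      obtain ⟨i, hi⟩ := Function.ne_iff.1 hφ
      simp only [Pi.zero_apply] at hi
      set u : Fin (m + 1) → K := Pi.single i 1
      have hu : φ ⬝ᵥ u ≠ 0 := by rw [dotProduct_single, mul_one]; exact hi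
      have hu0 : u ≠ 0 := fun e => hu (by rw [e, dotProduct_zero])
      obtain ⟨z, hz, hgz⟩ := L.θ_surj (g • L.θ u)
      have hφz : φ ⬝ᵥ z ≠ 0 := fun e => hu ((L.mem_ψ hφ hu0).1 ((D.ax_mem_iff hg.1 _).1
        (hgz ▸ (L.mem_ψ hφ hz).2 e)))
      set v := (φ ⬝ᵥ u)⁻¹ • ((φ ⬝ᵥ u / φ ⬝ᵥ z) • z - u) with hv
      have h : φ ⬝ᵥ v = 0 := by
        rw [hv, dotProduct_smul, dotProduct_sub, dotProduct_smul, smul_eq_mul, smul_eq_mul,
          div_mul_cancel₀ _ hφz, sub_self, mul_zero]
      refine ⟨QuotientGroup.mk (tvec φ v h), (L.elation_eq h hφ hg hu ?_).symm⟩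
      rw [tvec_smul, hv, smul_smul, mul_inv_cancel₀ hu, one_smul, add_sub_cancel,
        L.θ_smul z hz (div_ne_zero hu hφz), hgz]
    · rintro _ ⟨A, rfl⟩
      induction A using QuotientGroup.induction_on with
      | H A =>
        induction A using CfsgLib.ClassicalLinear.transvection_induction with
        | one =>
          rw [QuotientGroup.mk_one, map_one]
          exact Subgroup.one_mem _
        | mul A A' hA hA' =>
          rw [QuotientGroup.mk_mul, map_mul]
          exact Subgroup.mul_mem _ hA hA'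
        | transvec i j hij c =>
          have h : (Pi.single j 1 : Fin (m + 1) → K) ⬝ᵥ (Pi.single i c) = 0 := by
            rw [single_dotProduct, Pi.single_eq_of_ne hij.symm, mul_zero]
          have hA : Matrix.SpecialLinearGroup.transvection hij c =
              tvec (Pi.single j 1) (Pi.single i c) h := by
            apply Subtype.ext
            show (Matrix.SpecialLinearGroup.transvection hij c).1 =
              1 + Matrix.replicateCol Unit (Pi.single i c : Fin (m + 1) → K) *
                Matrix.replicateRow Unit (Pi.single j 1 : Fin (m + 1) → K)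
            rw [Matrix.SpecialLinearGroup.transvection_coe]
            congr 1
            ext a b
            rw [Matrix.single_apply, Matrix.mul_apply, Finset.univ_unique, Finset.sum_singleton,
              Matrix.replicateCol_apply, Matrix.replicateRow_apply]
            by_cases ha : i = a
            · subst ha
              by_cases hb : j = b
              · subst hb; simp
              · rw [if_neg (fun e => hb e.2), Pi.single_eq_of_ne (Ne.symm hb), mul_zero]
            · rw [if_neg (fun e => ha e.1), Pi.single_eq_of_ne (Ne.symm ha), zero_mul]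
          rw [hA]
          have hφ : (Pi.single j 1 : Fin (m + 1) → K) ≠ 0 := Pi.single_ne_zero_iff.2 one_ne_zero
          have hu : (Pi.single j 1 : Fin (m + 1) → K) ⬝ᵥ (Pi.single j 1) ≠ 0 := by
            rw [single_dotProduct, Pi.single_eq_same, mul_one]; exact one_ne_zero
          set A' := tvec (Pi.single j 1) (Pi.single i c) h
          have h1 : ¬ D.Mem (L.θ (Pi.single j 1)) (L.ψ (Pi.single j 1)) := fun e =>
            hu ((L.mem_ψ hφ hφ).1 e)
          have h2 : ¬ D.Mem (L.θ (A' • (Pi.single j 1 : Fin (m + 1) → K))) (L.ψ (Pi.single j 1)) :=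
            fun e => hu (by
              have := (L.mem_ψ hφ ((smul_ne_zero_iff_ne A').2 hφ)).1 e
              rwa [tvec_smul, dotProduct_add, dotProduct_smul, h, smul_zero, add_zero] at this)
          obtain ⟨g, hg, hgu⟩ := D.exists_trans F.hA h1 h2
          exact ⟨g, Subgroup.subset_closure ⟨_, hg⟩, L.elation_eq h hφ hg hu hgu⟩
  refine ⟨N, hnorm, ⟨(N.equivMapOfInjective _ hι).trans ((MulEquiv.subgroupCongr himg).trans
    (MonoidHom.ofInjective L.ρ_injective).symm)⟩, ?_⟩
  rw [eq_bot_iff]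
  intro z hz
  rw [Subgroup.mem_bot]
  refine D.faithful_y fun B => ?_
  by_contra hne
  obtain ⟨P, hP, hPB⟩ : ∃ P, D.Mem P (z • B) ∧ ¬ D.Mem P B := by
    by_contra hh
    push Not at hh
    exact hne (D.pts_inj (Finset.eq_of_subset_of_card_le
      (fun x hx => D.mem_pts.2 (hh x (D.mem_pts.1 hx))) (by rw [D.card_pts, D.card_pts])))
  obtain ⟨Q, hQ, hQP⟩ : ∃ Q, ¬ D.Mem Q B ∧ Q ≠ P := by
    obtain ⟨Q, h1, -, h3⟩ := D.exists_off_line F.hA B P P
    exact ⟨Q, h1, h3⟩
  obtain ⟨g, hg, hgQ⟩ := D.exists_trans F.hA hQ hPB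
  have hg1 : g ≠ 1 := fun e => hQP (by rw [← hgQ, e, one_smul])
  have hc : z * g * z⁻¹ = g := by
    rw [← Subgroup.mem_centralizer_iff.1 hz g (Subgroup.subset_closure ⟨B, hg⟩)]
    group
  have h1 := D.trans_conj (h := z) hg
  rw [hc] at h1
  exact hg1 (D.trans_free hg hPB (h1.1 P hP))

end Lin

/-- A design with an axial automorphism comes from a projective space. -/
theorem Design.exists_psl {G X Y : Type*} [Group G] [Fintype G] [MulAction G X] [MulAction G Y]
    [Fintype X] [Fintype Y] (D : Design G X Y) (hA : D.HasAxial) :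
    ∃ (m : ℕ) (K : Type) (_ : Field K) (_ : Fintype K), 2 ≤ m ∧
      Fintype.card X = (Fintype.card K ^ (m + 1) - 1) / (Fintype.card K - 1) ∧
      ∃ N : Subgroup G, N.Normal ∧
        Nonempty (N ≃* Matrix.ProjectiveSpecialLinearGroup (Fin (m + 1)) K) ∧
        Subgroup.centralizer (N : Set G) = ⊥ := by
  obtain ⟨B⟩ : Nonempty Y := Fintype.card_pos_iff.1 (by rw [D.card_y]; have := D.four_le; omega)
  obtain ⟨O, hO⟩ := D.exists_not_mem B
  let F : Frame D := ⟨B, O, hO, hA⟩
  obtain ⟨m, P, H, h2, hP, hHO, hPH, hH, htop⟩ := F.exists_basis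
  let Bs : Basis F m := ⟨P, H, h2, hP, hHO, hPH, hH, htop⟩
  obtain ⟨K, fK, fiK, ⟨L⟩⟩ := Bs.exists_lin
  obtain ⟨h1, h3⟩ := L.exists_psl
  exact ⟨m, K, fK, fiK, h2, h1, h3⟩

end CfsgLib.MetacyclicP.ItoDesign
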