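import Cfsg.Agent.Lib.MetacyclicP.ItoDesign.Basic

/-!
# Lines of blocks and axial automorphisms
-/

set_option autoImplicit false
set_option linter.unusedSectionVars false

namespace CfsgLib.MetacyclicP.ItoDesign

namespace Design

variable {G X Y : Type*} [Group G] [MulAction G X] [MulAction G Y] [Fintype X] [Fintype Y]
variable (D : Design G X Y)

open Finset
open scoped Classical

/-- The blocks containing the intersection of two given blocks. -/
noncomputable def line (B C : Y) : Finset Y :=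
  Finset.univ.filter fun E => ∀ x, D.Mem x B → D.Mem x C → D.Mem x E

theorem mem_line {B C E : Y} : E ∈ D.line B C ↔ ∀ x, D.Mem x B → D.Mem x C → D.Mem x E := by
  simp [line]

theorem left_mem_line (B C : Y) : B ∈ D.line B C := D.mem_line.2 fun _ h _ => h

theorem right_mem_line (B C : Y) : C ∈ D.line B C := D.mem_line.2 fun _ _ h => h

theorem line_comm (B C : Y) : D.line B C = D.line C B := by
  ext E; simp only [mem_line]; exact forall_congr' fun x => ⟨fun h a b => h b a, fun h a b => h b a⟩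

theorem inter_of_mem_line {B C D1 D2 : Y} (h : B ≠ C) (h1 : D1 ∈ D.line B C) (h2 : D2 ∈ D.line B C)
    (h12 : D1 ≠ D2) : D.pts D1 ∩ D.pts D2 = D.pts B ∩ D.pts C := by
  refine (Finset.eq_of_subset_of_card_le (fun x hx => ?_) ?_).symm
  · rw [Finset.mem_inter, D.mem_pts, D.mem_pts] at hx ⊢
    exact ⟨D.mem_line.1 h1 x hx.1 hx.2, D.mem_line.1 h2 x hx.1 hx.2⟩
  · rw [D.card_pts₂ h, D.card_pts₂ h12]

theorem line_eq {B C D1 D2 : Y} (h : B ≠ C) (h1 : D1 ∈ D.line B C) (h2 : D2 ∈ D.line B C)
    (h12 : D1 ≠ D2) : D.line D1 D2 = D.line B C := by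
  have he := D.inter_of_mem_line h h1 h2 h12
  ext E
  simp only [mem_line]
  constructor <;> intro hE x hx hx'
  · have : x ∈ D.pts D1 ∩ D.pts D2 := by rw [he]; simp [D.mem_pts, hx, hx']
    rw [Finset.mem_inter, D.mem_pts, D.mem_pts] at this
    exact hE x this.1 this.2
  · have : x ∈ D.pts B ∩ D.pts C := by rw [← he]; simp [D.mem_pts, hx, hx']
    rw [Finset.mem_inter, D.mem_pts, D.mem_pts] at this
    exact hE x this.1 this.2

/-- A point on two blocks of a line is on all of them. -/
theorem mem_both {B C D1 D2 : Y} (h : B ≠ C) (h1 : D1 ∈ D.line B C) (h2 : D2 ∈ D.line B C)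
    (h12 : D1 ≠ D2) {x : X} (hx1 : D.Mem x D1) (hx2 : D.Mem x D2) : D.Mem x B ∧ D.Mem x C := by
  have : x ∈ D.pts B ∩ D.pts C := by
    rw [← D.inter_of_mem_line h h1 h2 h12]; simp [D.mem_pts, hx1, hx2]
  simpa [D.mem_pts] using this

theorem smul_mem_line {g : G} {B C E : Y} (h : E ∈ D.line B C) :
    g • E ∈ D.line (g • B) (g • C) := by
  rw [mem_line] at h ⊢
  intro x hB hC
  rw [D.mem_smul] at hB hC ⊢
  exact h _ hB hC

theorem card_line_eq {B C B' C' : Y} (h : B ≠ C) (h' : B' ≠ C') :
    (D.line B C).card = (D.line B' C').card := by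
  obtain ⟨g, rfl, rfl⟩ := D.two_y B C B' C' h h'
  refine Finset.card_equiv (MulAction.toPerm g) fun E => ⟨D.smul_mem_line, fun hE => ?_⟩
  simpa using D.smul_mem_line (g := g⁻¹) hE

/-- Every line of blocks covers all points. -/
def Cover : Prop :=
  ∀ (B C : Y) (x : X), B ≠ C → ∃ E ∈ D.line B C, D.Mem x E

/-- The blocks of a line, minus the common points, are disjoint. -/
theorem card_cover {B C : Y} (h : B ≠ C) :
    ((D.line B C).biUnion fun E => D.pts E \ (D.pts B ∩ D.pts C)).card + D.lam =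
      (D.line B C).card * (D.k - D.lam) + D.lam := by
  rw [Finset.card_biUnion]
  · rw [Finset.sum_const_nat (m := D.k - D.lam)]
    intro E hE
    rw [Finset.card_sdiff_of_subset, D.card_pts, D.card_pts₂ h]
    intro x hx
    rw [Finset.mem_inter, D.mem_pts, D.mem_pts] at hx
    exact D.mem_pts.2 (D.mem_line.1 hE x hx.1 hx.2)
  · intro E hE E' hE' hne
    simp only [Function.onFun, Finset.disjoint_left, Finset.mem_sdiff, Finset.mem_inter, D.mem_pts]
    rintro x ⟨hx, hn⟩ ⟨hx', -⟩
    exact hn (D.mem_both h hE hE' hne hx hx')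

theorem line_mul_le {B C : Y} (h : B ≠ C) :
    ((D.line B C).card - 1) * D.lam + 1 ≤ D.k ∧
      (((D.line B C).card - 1) * D.lam + 1 = D.k → ∀ x, ∃ E ∈ D.line B C, D.Mem x E) := by
  set U := (D.line B C).biUnion fun E => D.pts E \ (D.pts B ∩ D.pts C) with hU
  have hc := D.card_cover h
  rw [← hU] at hc
  have hd : Disjoint U (D.pts B ∩ D.pts C) := by
    rw [hU, Finset.disjoint_biUnion_left]
    exact fun E _ => Finset.sdiff_disjoint
  have hu : U.card + D.lam = (U ∪ (D.pts B ∩ D.pts C)).card := by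
    rw [Finset.card_union_of_disjoint hd, D.card_pts₂ h]
  have hle : U.card + D.lam ≤ Fintype.card X := by rw [hu]; exact Finset.card_le_univ _
  obtain ⟨c, hcl⟩ : ∃ c, (D.line B C).card = c + 1 :=
    ⟨_, (Nat.sub_add_cancel (Finset.card_pos.2 ⟨B, D.left_mem_line B C⟩)).symm⟩
  rw [hcl] at hc ⊢
  rw [Nat.add_sub_cancel]
  obtain ⟨w, hw⟩ : ∃ w, Fintype.card X = w + 1 :=
    ⟨_, (Nat.sub_add_cancel (by have := D.four_le; omega)).symm⟩
  obtain ⟨d, hd'⟩ : ∃ d, D.k = D.lam + d := ⟨_, (Nat.add_sub_cancel' D.lam_lt.le).symm⟩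
  have hcount := D.count
  rw [hw, Nat.add_sub_cancel] at hcount
  rw [hw] at hle
  have hd0 : 0 < d := by have := D.lam_lt; omega
  rw [show D.k - D.lam = d by omega] at hc
  have key : d * (c * D.lam + 1) ≤ d * D.k := by
    have h1 : D.lam * ((c + 1) * d + D.lam) ≤ D.lam * (w + 1) := Nat.mul_le_mul_left _ (by omega)
    rw [hd'] at hcount ⊢
    nlinarith
  refine ⟨Nat.le_of_mul_le_mul_left key hd0, fun heq x => ?_⟩
  have hfull : (U ∪ (D.pts B ∩ D.pts C)) = Finset.univ := by
    apply Finset.eq_univ_of_card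
    rw [← hu, hw, hc]
    have h1 : D.lam * w = D.lam * ((c + 1) * d + D.lam - 1) := by
      have : (c + 1) * d + D.lam - 1 = (c + 1) * d + (D.lam - 1) := by
        have := D.lam_pos; omega
      rw [this]
      obtain ⟨l, hl⟩ : ∃ l, D.lam = l + 1 := ⟨_, (Nat.sub_add_cancel D.lam_pos).symm⟩
      rw [hl, Nat.add_sub_cancel]
      rw [hl] at heq hcount hd'
      rw [hd'] at hcount heq
      nlinarith
    have := Nat.eq_of_mul_eq_mul_left (by have := D.lam_pos; omega) h1
    have := D.lam_pos
    omega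
  have hx := Finset.mem_univ x
  rw [← hfull, Finset.mem_union] at hx
  rcases hx with hx | hx
  · rw [hU, Finset.mem_biUnion] at hx
    obtain ⟨E, hE, hxE⟩ := hx
    exact ⟨E, hE, D.mem_pts.1 (Finset.mem_sdiff.1 hxE).1⟩
  · exact ⟨B, D.left_mem_line B C, D.mem_pts.1 (Finset.mem_inter.1 hx).1⟩

theorem cover_of_card (h : ∀ B C : Y, B ≠ C → ((D.line B C).card - 1) * D.lam + 1 = D.k) :
    D.Cover := fun B C x hBC => (D.line_mul_le hBC).2 (h B C hBC) x

/-- The automorphisms fixing a block pointwise. -/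
def axGroup (B : Y) : Subgroup G where
  carrier := {g | ∀ x, D.Mem x B → g • x = x}
  one_mem' x _ := one_smul G x
  mul_mem' {g h} hg hh x hx := by rw [mul_smul, hh x hx, hg x hx]
  inv_mem' {g} hg x hx := by
    conv_lhs => rw [← hg x hx]
    rw [inv_smul_smul]

theorem mem_axGroup {g : G} {B : Y} : g ∈ D.axGroup B ↔ ∀ x, D.Mem x B → g • x = x := Iff.rfl

theorem ax_fix_block {g : G} {B : Y} (hg : g ∈ D.axGroup B) : g • B = B := by
  apply D.pts_inj
  ext x
  rw [D.mem_pts, D.mem_pts, D.mem_smul]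
  constructor <;> intro h
  · have := hg _ h
    rw [smul_inv_smul] at this
    exact this ▸ h
  · rw [(D.axGroup B).inv_mem hg x h]; exact h

theorem ax_mem_iff {g : G} {B : Y} (hg : g ∈ D.axGroup B) (x : X) :
    D.Mem (g • x) B ↔ D.Mem x B := by
  conv_lhs => rw [← D.ax_fix_block hg]
  exact D.smul_mem g x B

theorem ax_conj {g h : G} {B : Y} (hg : g ∈ D.axGroup B) :
    h * g * h⁻¹ ∈ D.axGroup (h • B) := fun x hx => by
  rw [D.mem_smul] at hx
  rw [mul_smul, mul_smul, hg _ hx, smul_inv_smul]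

theorem ax_line {g : G} {B : Y} (hg : g ∈ D.axGroup B) (C : Y) : g • C ∈ D.line B C := by
  rw [mem_line]
  intro x hB hC
  rw [D.mem_smul, (D.axGroup B).inv_mem hg x hB]
  exact hC

/-- For a point off the axis, a block through it is fixed iff it contains the image. -/
theorem ax_fixed_iff {g : G} {B C : Y} (hg : g ∈ D.axGroup B) {z : X} (hz : ¬ D.Mem z B)
    (hzC : D.Mem z C) : g • C = C ↔ D.Mem (g • z) C := by
  constructor
  · intro h; rw [← h]; exact (D.smul_mem g z C).2 hzC
  · intro h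
    by_contra hne
    have hBC : B ≠ C := fun e => hz (e ▸ hzC)
    exact hz ((D.ax_mem_iff hg z).1
      (D.mem_both hBC (D.ax_line hg C) (D.right_mem_line B C) hne ((D.smul_mem g z C).2 hzC) h).1)

theorem ax_fixed_card {g : G} {B : Y} (hg : g ∈ D.axGroup B) {z : X} (hz : ¬ D.Mem z B)
    (hgz : g • z ≠ z) : ((D.blks z).filter fun C => g • C = C).card = D.lam := by
  rw [← D.card_blks₂ (Ne.symm hgz)]
  congr 1
  ext C
  simp only [Finset.mem_filter, Finset.mem_inter, D.mem_blks]
  exact and_congr_right fun h => D.ax_fixed_iff hg hz h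

/-- An axial automorphism fixing two points off the axis is trivial. -/
theorem ax_two_fixed {g : G} {B : Y} (hg : g ∈ D.axGroup B) {x y : X} (hxy : x ≠ y)
    (hx : ¬ D.Mem x B) (hy : ¬ D.Mem y B) (hgx : g • x = x) (hgy : g • y = y) : g = 1 := by
  refine D.faithful g fun z => ?_
  by_contra hgz
  have hzB : ¬ D.Mem z B := fun h => hgz (hg z h)
  have hfix : ∀ w, ¬ D.Mem w B → g • w = w →
      D.blks w ∩ D.blks z = D.blks z ∩ D.blks (g • z) := by
    intro w hwB hgw
    have hwz : w ≠ z := fun e => hgz (e ▸ hgw)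
    refine Finset.eq_of_subset_of_card_le (fun C hC => ?_) ?_
    · rw [Finset.mem_inter, D.mem_blks, D.mem_blks] at hC ⊢
      refine ⟨hC.2, (D.ax_fixed_iff hg hzB hC.2).1 ?_⟩
      exact (D.ax_fixed_iff hg hwB hC.1).2 (by rw [hgw]; exact hC.1)
    · rw [D.card_blks₂ (Ne.symm hgz), D.card_blks₂ hwz]
  have hsub : ∀ w, ¬ D.Mem w B → ∀ C, D.Mem x C → D.Mem y C → D.Mem w C := by
    have hkey : ∀ w, ¬ D.Mem w B → g • w ≠ w → ∀ C, D.Mem x C → D.Mem y C → D.Mem w C := by
      intro w hwB hgw C hxC hyC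
      have hxw : x ≠ w := fun e => hgw (e ▸ hgx)
      have hyw : y ≠ w := fun e => hgw (e ▸ hgy)
      have hf : ∀ u, ¬ D.Mem u B → g • u = u →
          D.blks u ∩ D.blks w = D.blks w ∩ D.blks (g • w) := by
        intro u huB hgu
        have huw : u ≠ w := fun e => hgw (e ▸ hgu)
        refine Finset.eq_of_subset_of_card_le (fun C hC => ?_) ?_
        · rw [Finset.mem_inter, D.mem_blks, D.mem_blks] at hC ⊢
          refine ⟨hC.2, (D.ax_fixed_iff hg hwB hC.2).1 ?_⟩
          exact (D.ax_fixed_iff hg huB hC.1).2 (by rw [hgu]; exact hC.1)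
        · rw [D.card_blks₂ (Ne.symm hgw), D.card_blks₂ huw]
      have h1 : D.blks x ∩ D.blks w = D.blks x ∩ D.blks y := by
        refine Finset.eq_of_subset_of_card_le (fun C hC => ?_) ?_
        · have hC' : C ∈ D.blks y ∩ D.blks w := by rw [hf y hy hgy, ← hf x hx hgx]; exact hC
          rw [Finset.mem_inter] at hC hC' ⊢
          exact ⟨hC.1, hC'.1⟩
        · rw [D.card_blks₂ hxy, D.card_blks₂ hxw]
      have : C ∈ D.blks x ∩ D.blks w := by rw [h1]; simp [D.mem_blks, hxC, hyC]
      exact D.mem_blks.1 (Finset.mem_inter.1 this).2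
    intro w hwB
    by_cases hgw : g • w = w
    · intro C hxC hyC
      have hzC := hkey z hzB hgz C hxC hyC
      have : C ∈ D.blks w ∩ D.blks z := by
        rw [hfix w hwB hgw, ← hfix x hx hgx]; simp [D.mem_blks, hxC, hzC]
      exact D.mem_blks.1 (Finset.mem_inter.1 this).1
    · exact hkey w hwB hgw
  obtain ⟨C, hC⟩ : (D.blks x ∩ D.blks y).Nonempty :=
    Finset.card_pos.1 (by rw [D.card_blks₂ hxy]; exact D.lam_pos)
  rw [Finset.mem_inter, D.mem_blks, D.mem_blks] at hC
  have hBC : B ≠ C := fun e => hx (e ▸ hC.1)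
  have huniv : D.pts B ∪ D.pts C = Finset.univ := Finset.eq_univ_iff_forall.2 fun w => by
    rw [Finset.mem_union, D.mem_pts, D.mem_pts]
    by_cases h : D.Mem w B
    · exact Or.inl h
    · exact Or.inr (hsub w h C hC.1 hC.2)
  have h1 := Finset.card_union_add_card_inter (D.pts B) (D.pts C)
  rw [huniv, Finset.card_univ, D.card_pts₂ hBC, D.card_pts, D.card_pts] at h1
  have hcount := D.count
  have := D.lam_add_two_le
  obtain ⟨d, hd⟩ : ∃ d, D.k = D.lam + 2 + d := ⟨_, (Nat.add_sub_cancel' D.lam_add_two_le).symm⟩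
  rw [show Fintype.card X - 1 = D.lam + 3 + 2 * d by omega, hd] at hcount
  nlinarith

theorem fixed_pts_le {g : G} {B : Y} (hg : g ∈ D.axGroup B) (h1 : g ≠ 1) :
    ((Finset.univ.filter fun x => ¬ D.Mem x B ∧ g • x = x)).card ≤ 1 := by
  rw [Finset.card_le_one]
  intro a ha b hb
  simp only [Finset.mem_filter, Finset.mem_univ, true_and] at ha hb
  by_contra hab
  exact h1 (D.ax_two_fixed hg hab ha.1 hb.1 ha.2 hb.2)

/-- The fixed blocks of an axial automorphism with one further fixed point. -/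
theorem fixed_blocks_of_point {g : G} {B : Y} (hg : g ∈ D.axGroup B) (h1 : g ≠ 1) {x : X}
    (hx : ¬ D.Mem x B) (hgx : g • x = x) (C : Y) : g • C = C ↔ C = B ∨ D.Mem x C := by
  constructor
  swap
  · rintro (rfl | hxC)
    · exact D.ax_fix_block hg
    · exact (D.ax_fixed_iff hg hx hxC).2 (by rw [hgx]; exact hxC)
  intro hC
  by_contra hcon
  push Not at hcon
  have hP : (Finset.univ.filter fun z => g • z = z) = insert x (D.pts B) := by
    ext z
    simp only [Finset.mem_filter, Finset.mem_univ, true_and, Finset.mem_insert, D.mem_pts]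
    constructor
    · intro hz
      by_cases hzB : D.Mem z B
      · exact Or.inr hzB
      · refine Or.inl ?_
        by_contra hzx
        exact h1 (D.ax_two_fixed hg hzx hzB hx hz hgx)
    · rintro (rfl | hzB)
      · exact hgx
      · exact hg z hzB
  have hfix := D.fix_card g
  rw [Nat.card_eq_fintype_card, Nat.card_eq_fintype_card, Fintype.card_subtype, Fintype.card_subtype,
    hP, Finset.card_insert_of_notMem (by simpa [D.mem_pts] using hx), D.card_pts] at hfix
  have hsub : insert C (insert B (D.blks x)) ⊆ Finset.univ.filter fun E => g • E = E := by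
    intro E hE
    simp only [Finset.mem_insert, D.mem_blks] at hE
    simp only [Finset.mem_filter, Finset.mem_univ, true_and]
    rcases hE with rfl | rfl | h
    · exact hC
    · exact D.ax_fix_block hg
    · exact (D.ax_fixed_iff hg hx h).2 (by rw [hgx]; exact h)
  have := Finset.card_le_card hsub
  rw [Finset.card_insert_of_notMem (by simp [D.mem_blks, hcon.1, hcon.2]),
    Finset.card_insert_of_notMem (by simpa [D.mem_blks] using hx), D.card_blks] at this
  omega

/-- Without a further fixed point there are exactly `k` fixed blocks. -/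
theorem fixed_blocks_card {g : G} {B : Y} (hg : g ∈ D.axGroup B)
    (h : ∀ x, ¬ D.Mem x B → g • x ≠ x) :
    (Finset.univ.filter fun E : Y => g • E = E).card = D.k := by
  have hfix := D.fix_card g
  rw [Nat.card_eq_fintype_card, Nat.card_eq_fintype_card, Fintype.card_subtype, Fintype.card_subtype]
    at hfix
  rw [← hfix, ← D.card_pts B]
  congr 1
  ext z
  simp only [Finset.mem_filter, Finset.mem_univ, true_and, D.mem_pts]
  exact ⟨fun hz => by_contra fun hzB => h z hzB hz, fun hz => hg z hz⟩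

end Design

end CfsgLib.MetacyclicP.ItoDesign
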