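import Cfsg.Agent.Lib.MetacyclicP.ItoDesign.Coords
import Cfsg.Agent.Lib.ClassicalLinear.Generation

/-!
# The design is the point-hyperplane design of a projective space
-/

set_option autoImplicit false
set_option linter.unusedSectionVars false
set_option maxHeartbeats 800000

open Matrix

namespace CfsgLib.MetacyclicP.ItoDesign

/-- Linear coordinates for the translations. -/
structure Lin {G X Y : Type*} [Group G] [MulAction G X] [MulAction G Y] [Fintype G] [Fintype X]
    [Fintype Y] {D : Design G X Y} (F : Frame D) (m : ℕ) (K : Type) [Field K] [Fintype K] where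
  two : 2 ≤ m
  cardK : Fintype.card K = D.q
  /-- coordinates -/
  ε : F.V ≃+ (Fin m → K)
  sl : ∀ A : Matrix.SpecialLinearGroup (Fin m) K, ∃ g : F.stabO, ∀ v, ε (F.act g v) = A • ε v
  /-- a component -/
  a₀ : X
  /-- a hyperplane -/
  H₀ : Y
  i₀ : Fin m
  ha₀ : D.Mem a₀ F.ω
  hH₀ : D.Mem F.O H₀
  comp₀ : ∀ v ∈ F.comp a₀, ∀ j, j ≠ i₀ → ε v j = 0
  sub₀ : ∀ v, v ∈ F.sub H₀ ↔ ε v i₀ = 0

namespace Basis

variable {G X Y : Type*} [Group G] [Fintype G] [MulAction G X] [MulAction G Y] [Fintype X] [Fintype Y]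
variable {D : Design G X Y} {F : Frame D} {m : ℕ} (B : Basis F m)

open scoped Classical

theorem proj_sum (f : ∀ i, B.C i) (j : Fin m) : B.proj j (∑ i, (f i : F.V)) = f j := by
  rw [map_sum, Finset.sum_eq_single j (fun i _ hi => B.proj_other hi.symm (f i))
    (fun h => absurd (Finset.mem_univ j) h), B.proj_self]

include B in
theorem exists_lin : ∃ (K : Type) (_ : Field K) (_ : Fintype K), Nonempty (Lin F m K) := by
  obtain ⟨K, fK, fiK, e, hcard, he⟩ := B.exists_coords
  let ε : F.V ≃+ (Fin m → K) :=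
    { toFun := fun v i => e i (B.proj i v)
      invFun := fun w => ∑ i, ((e i).symm (w i) : F.V)
      left_inv := fun v => by simp [B.sum_proj]
      right_inv := fun w => by
        funext j
        simp only
        rw [B.proj_sum (fun i => (e i).symm (w i)) j, AddEquiv.apply_symm_apply]
      map_add' := fun u v => by funext i; simp }
  have hε : ∀ v i, ε v i = e i (B.proj i v) := fun v i => rfl
  refine ⟨K, fK, fiK, ⟨{
    two := B.two, cardK := hcard, ε := ε, sl := ?_
    a₀ := B.P ⟨0, by have := B.two; omega⟩, H₀ := B.H ⟨0, by have := B.two; omega⟩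
    i₀ := ⟨0, by have := B.two; omega⟩
    ha₀ := B.hP _, hH₀ := B.hO _
    comp₀ := fun v hv j hj => by
      rw [hε, show B.proj j v = 0 from B.proj_other hj ⟨v, hv⟩, map_zero]
    sub₀ := fun v => by rw [hε, ← B.proj_eq_zero_iff, map_eq_zero_iff _ (e _).injective] }⟩⟩
  intro A
  induction A using CfsgLib.ClassicalLinear.transvection_induction with
  | one => exact ⟨1, fun v => by rw [F.act_one, one_smul]⟩
  | transvec i j hij c =>
    obtain ⟨g, hg⟩ := he j i hij.symm c
    refine ⟨g, fun v => funext fun l => ?_⟩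
    rw [hε, hg v, map_add, map_add, Matrix.SpecialLinearGroup.smul_def,
      Matrix.SpecialLinearGroup.transvection_coe]
    simp only [Matrix.smul_eq_mulVec, Matrix.add_mulVec, Matrix.one_mulVec, Matrix.single_mulVec_eq,
      Pi.add_apply, hε]
    congr 1
    by_cases hl : l = i
    · subst hl
      rw [B.proj_self, scal_apply, AddEquiv.apply_symm_apply]
      simp
    · rw [show B.proj l ((B.scal (e j) (e i) c (B.proj j v) : B.C i) : F.V) = 0 from
        B.proj_other hl _, map_zero]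
      simp [hl]
  | mul A A' hA hA' =>
    obtain ⟨g, hg⟩ := hA
    obtain ⟨g', hg'⟩ := hA'
    exact ⟨g * g', fun v => by rw [F.act_mul, hg, hg', mul_smul]⟩

end Basis

namespace Lin

variable {G X Y : Type*} [Group G] [Fintype G] [MulAction G X] [MulAction G Y] [Fintype X] [Fintype Y]
variable {D : Design G X Y} {F : Frame D} {m : ℕ} {K : Type} [Field K] [Fintype K] (L : Lin F m K)

open scoped Classical

include L in
theorem q_two : 2 ≤ D.q := (D.order_facts F.hA).2.1

theorem exists_move (w : Fin m → K) (hw : w ≠ 0) :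
    ∃ (A : Matrix.SpecialLinearGroup (Fin m) K) (c : K), c ≠ 0 ∧ A • (Pi.single L.i₀ 1) = c • w := by
  have hs : (Pi.single L.i₀ 1 : Fin m → K) ≠ 0 := Pi.single_ne_zero_iff.2 one_ne_zero
  obtain ⟨A, hA⟩ := MulAction.exists_smul_eq (Matrix.SpecialLinearGroup (Fin m) K)
    (Projectivization.mk K (Pi.single L.i₀ 1) hs) (Projectivization.mk K w hw)
  rw [Projectivization.smul_mk, Projectivization.mk_eq_mk_iff'] at hA
  obtain ⟨c, hc⟩ := hA
  refine ⟨A, c, fun h => ?_, hc.symm⟩
  rw [h, zero_smul] at hc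
  exact ((smul_ne_zero_iff_ne A).2 hs) hc.symm

/-- Components are the one-dimensional subspaces. -/
theorem comp_iff {a : X} (ha : D.Mem a F.ω) {v : F.V} (hv : v ∈ F.comp a) (hv0 : v ≠ 0) (u : F.V) :
    u ∈ F.comp a ↔ ∃ c : K, L.ε u = c • L.ε v := by
  have key : ∀ a, D.Mem a F.ω → ∀ v ∈ F.comp a, v ≠ 0 →
      ∀ c : K, L.ε.symm (c • L.ε v) ∈ F.comp a := by
    intro a ha v hv hv0 c
    have hεv : L.ε v ≠ 0 := fun h => hv0 (L.ε.map_eq_zero_iff.1 h)
    obtain ⟨A, d, hd, hA⟩ := L.exists_move _ hεv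
    obtain ⟨g, hg⟩ := L.sl A
    -- the whole axis component
    have h0 : ∀ s : K, L.ε.symm (Pi.single L.i₀ s) ∈ F.comp L.a₀ := by
      intro s
      have hinj : Set.range (fun u : F.comp L.a₀ => L.ε (u : F.V) L.i₀) = Set.univ := by
        apply Set.eq_univ_of_forall
        have hbij : Function.Bijective (fun u : F.comp L.a₀ => L.ε (u : F.V) L.i₀) := by
          have hi : Function.Injective (fun u : F.comp L.a₀ => L.ε (u : F.V) L.i₀) := fun u u' h => by
            refine Subtype.ext (L.ε.injective (funext fun j => ?_))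
            by_cases hj : j = L.i₀
            · subst hj; exact h
            · rw [L.comp₀ _ u.2 j hj, L.comp₀ _ u'.2 j hj]
          exact hi.bijective_of_nat_card_le
            (by rw [F.card_comp L.ha₀, Nat.card_eq_fintype_card, L.cardK])
        exact fun s => hbij.2 s
      obtain ⟨u, hu⟩ : s ∈ Set.range (fun u : F.comp L.a₀ => L.ε (u : F.V) L.i₀) := hinj ▸ trivial
      have : L.ε (u : F.V) = Pi.single L.i₀ s := funext fun j => by
        by_cases hj : j = L.i₀
        · subst hj; simpa using hu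
        · rw [L.comp₀ _ u.2 j hj, Pi.single_eq_of_ne hj]
      rw [← this, AddEquiv.symm_apply_apply]; exact u.2
    have himg : ∀ s : K, L.ε.symm ((s * d) • L.ε v) ∈ F.comp ((g : G) • L.a₀) := by
      intro s
      have h := F.act_comp g (h0 s)
      have he : F.act g (L.ε.symm (Pi.single L.i₀ s)) = L.ε.symm ((s * d) • L.ε v) := by
        apply L.ε.injective
        rw [hg, AddEquiv.apply_symm_apply, AddEquiv.apply_symm_apply, ← smul_smul, ← hA, ← smul_comm,
          ← Pi.single_smul, smul_eq_mul, mul_one]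
      rwa [he] at h
    have hga : (g : G) • L.a₀ = a := by
      refine F.comp_unique (F.stabO_mem_inf g L.ha₀) ha ?_ hv hv0
      have := himg d⁻¹
      rwa [inv_mul_cancel₀ hd, one_smul, AddEquiv.symm_apply_apply] at this
    have := himg (c * d⁻¹)
    rwa [hga, mul_assoc, inv_mul_cancel₀ hd, mul_one] at this
  constructor
  · intro hu
    have hεv : L.ε v ≠ 0 := fun h => hv0 (L.ε.map_eq_zero_iff.1 h)
    let f : K → F.comp a := fun c => ⟨L.ε.symm (c • L.ε v), key a ha v hv hv0 c⟩
    have hi : Function.Injective f := fun c c' h =>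
      smul_left_injective K hεv (L.ε.symm.injective (congrArg Subtype.val h))
    obtain ⟨c, hc⟩ := (hi.bijective_of_nat_card_le
      (by rw [F.card_comp ha, Nat.card_eq_fintype_card, L.cardK])).2 ⟨u, hu⟩
    refine ⟨c, ?_⟩
    have hv' : L.ε.symm (c • L.ε v) = u := congrArg Subtype.val hc
    rw [← hv', AddEquiv.apply_symm_apply]
  · rintro ⟨c, hc⟩
    have := key a ha v hv hv0 c
    rwa [← hc, AddEquiv.symm_apply_apply] at this

/-- Every linear functional gives a hyperplane through the origin. -/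
theorem exists_hyperplane (a : Fin m → K) (ha : a ≠ 0) :
    ∃ H, D.Mem F.O H ∧ ∀ v, v ∈ F.sub H ↔ a ⬝ᵥ L.ε v = 0 := by
  obtain ⟨A, c, hc, hA⟩ := L.exists_move a ha
  let A' : Matrix.SpecialLinearGroup (Fin m) K := ⟨(A : Matrix _ _ K)ᵀ, by
    rw [Matrix.det_transpose]; exact A.2⟩
  obtain ⟨g, hg⟩ := L.sl A'
  refine ⟨(g : G)⁻¹ • L.H₀, ?_, fun v => ?_⟩
  · rw [D.mem_smul, inv_inv, (F.mem_stabO.1 g.2).2]; exact L.hH₀
  rw [F.mem_sub_iff (by rw [D.mem_smul, inv_inv, (F.mem_stabO.1 g.2).2]; exact L.hH₀), D.mem_smul,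
    inv_inv, ← F.pt_act, ← F.mem_sub_iff L.hH₀, L.sub₀, hg, Matrix.SpecialLinearGroup.smul_def]
  have hrow : ((A' : Matrix (Fin m) (Fin m) K) • L.ε v) L.i₀ = c * (a ⬝ᵥ L.ε v) := by
    simp only [Matrix.smul_eq_mulVec, A', Matrix.mulVec]
    rw [show (fun j => (A : Matrix (Fin m) (Fin m) K)ᵀ L.i₀ j) = c • a from ?_, smul_dotProduct,
      smul_eq_mul]
    rw [← hA, Matrix.SpecialLinearGroup.smul_def, Matrix.smul_eq_mulVec, Matrix.mulVec_single_one]
    rfl
  rw [hrow, mul_eq_zero, or_iff_right hc]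

/-- The direction of a vector. -/
noncomputable def dir (_L : Lin F m K) (v : F.V) : X := (F.exists_comp v).choose

theorem dir_mem (v : F.V) : D.Mem (L.dir v) F.ω := (F.exists_comp v).choose_spec.1

theorem mem_dir (v : F.V) : v ∈ F.comp (L.dir v) := (F.exists_comp v).choose_spec.2

theorem dir_eq {a : X} (ha : D.Mem a F.ω) {v : F.V} (hv : v ∈ F.comp a) (hv0 : v ≠ 0) : L.dir v = a :=
  F.comp_unique (L.dir_mem v) ha (L.mem_dir v) hv hv0

/-- The point of a homogeneous vector. -/
noncomputable def θ (w : Fin (m + 1) → K) : X :=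
  if w (Fin.last m) = 0 then L.dir (L.ε.symm (Fin.init w))
  else F.pt (L.ε.symm ((w (Fin.last m))⁻¹ • Fin.init w))

theorem init_ne {w : Fin (m + 1) → K} (hw : w ≠ 0) (hl : w (Fin.last m) = 0) : Fin.init w ≠ 0 := by
  intro h
  apply hw
  funext i
  refine Fin.lastCases ?_ (fun j => ?_) i
  · exact hl
  · exact congrFun h j

theorem θ_smul (w : Fin (m + 1) → K) (hw : w ≠ 0) {c : K} (hc : c ≠ 0) : L.θ (c • w) = L.θ w := by
  have hinit : Fin.init (c • w) = c • Fin.init w := rfl
  by_cases hl : w (Fin.last m) = 0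
  · rw [θ, θ, if_pos (by simp [hl]), if_pos hl, hinit]
    have h0 : L.ε.symm (Fin.init w) ≠ 0 := fun h => init_ne hw hl (L.ε.symm.map_eq_zero_iff.1 h)
    refine L.dir_eq (L.dir_mem _) ((L.comp_iff (L.dir_mem _) (L.mem_dir _) h0 _).2 ⟨c, ?_⟩) ?_
    · rw [AddEquiv.apply_symm_apply, AddEquiv.apply_symm_apply]
    · intro h
      exact smul_ne_zero hc (init_ne hw hl) (L.ε.symm.map_eq_zero_iff.1 h)
  · rw [θ, θ, if_neg (by simp [hl, hc]), if_neg hl, hinit, Pi.smul_apply, smul_eq_mul, smul_smul,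
      _root_.mul_inv_rev, mul_assoc, inv_mul_cancel₀ hc, mul_one]

theorem θ_inj {w w' : Fin (m + 1) → K} (hw : w ≠ 0) (hw' : w' ≠ 0) (h : L.θ w = L.θ w') :
    ∃ c : K, c • w' = w := by
  unfold θ at h
  split_ifs at h with hl hl' hl'
  · have h0 : L.ε.symm (Fin.init w') ≠ 0 := fun h => init_ne hw' hl' (L.ε.symm.map_eq_zero_iff.1 h)
    obtain ⟨c, hc⟩ := (L.comp_iff (L.dir_mem _) (L.mem_dir (L.ε.symm (Fin.init w'))) h0
      (L.ε.symm (Fin.init w))).1 (h ▸ L.mem_dir _)
    rw [AddEquiv.apply_symm_apply, AddEquiv.apply_symm_apply] at hc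
    refine ⟨c, funext fun i => Fin.lastCases ?_ (fun j => ?_) i⟩
    · simp [hl, hl']
    · exact (congrFun hc j).symm
  · exact absurd (h ▸ L.dir_mem _) (F.pt_off _)
  · exact absurd (h.symm ▸ L.dir_mem _) (F.pt_off _)
  · have he := L.ε.symm.injective (F.pt_inj h)
    refine ⟨w (Fin.last m) * (w' (Fin.last m))⁻¹, funext fun i => Fin.lastCases ?_ (fun j => ?_) i⟩
    · simp [inv_mul_cancel₀ hl', mul_assoc]
    · have := congrFun he j
      simp only [Pi.smul_apply, smul_eq_mul, Fin.init] at this ⊢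
      rw [mul_assoc, ← this, ← mul_assoc, mul_inv_cancel₀ hl, one_mul]

theorem θ_surj (x : X) : ∃ w : Fin (m + 1) → K, w ≠ 0 ∧ L.θ w = x := by
  by_cases hx : D.Mem x F.ω
  · have h2 : 1 < Nat.card (F.comp x) := by rw [F.card_comp hx]; have := L.q_two; omega
    haveI : Nontrivial (F.comp x) := Finite.one_lt_card_iff_nontrivial.1 h2
    obtain ⟨v, hv⟩ := exists_ne (0 : F.comp x)
    have hv0 : (v : F.V) ≠ 0 := fun e => hv (Subtype.ext e)
    refine ⟨Fin.snoc (L.ε v) 0, fun h => hv0 (L.ε.map_eq_zero_iff.1 ?_), ?_⟩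
    · funext j; simpa using congrFun h j.castSucc
    · rw [θ, if_pos (Fin.snoc_last _ _), Fin.init_snoc, AddEquiv.symm_apply_apply]
      exact L.dir_eq hx v.2 hv0
  · obtain ⟨v, rfl⟩ := F.exists_pt hx
    refine ⟨Fin.snoc (L.ε v) 1, fun h => ?_, ?_⟩
    · have := congrFun h (Fin.last m); simp at this
    · rw [θ, if_neg (by simp), Fin.snoc_last, Fin.init_snoc, inv_one, one_smul,
        AddEquiv.symm_apply_apply]

theorem dot_split (φ w : Fin (m + 1) → K) :
    φ ⬝ᵥ w = Fin.init φ ⬝ᵥ Fin.init w + φ (Fin.last m) * w (Fin.last m) := by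
  simp only [dotProduct, Fin.sum_univ_castSucc, Fin.init]

/-- Every non-zero functional gives a block. -/
theorem exists_block (φ : Fin (m + 1) → K) (hφ : φ ≠ 0) :
    ∃ E, ∀ w : Fin (m + 1) → K, w ≠ 0 → (D.Mem (L.θ w) E ↔ φ ⬝ᵥ w = 0) := by
  by_cases ha : Fin.init φ = 0
  · have hb : φ (Fin.last m) ≠ 0 := fun h => init_ne hφ h ha
    refine ⟨F.ω, fun w hw => ?_⟩
    rw [dot_split, ha, zero_dotProduct, zero_add, mul_eq_zero, or_iff_right hb, θ]
    split_ifs with hl
    · exact iff_of_true (L.dir_mem _) hl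
    · exact iff_of_false (F.pt_off _) hl
  · obtain ⟨H, hOH, hH⟩ := L.exists_hyperplane _ ha
    obtain ⟨i, hi⟩ := Function.ne_iff.1 ha
    simp only [Pi.zero_apply] at hi
    set r := L.ε.symm (Pi.single i (-φ (Fin.last m) / Fin.init φ i)) with hr
    have har : Fin.init φ ⬝ᵥ L.ε r = -φ (Fin.last m) := by
      rw [hr, AddEquiv.apply_symm_apply, dotProduct_single, mul_div_cancel₀ _ hi]
    refine ⟨F.tr r • H, fun w hw => ?_⟩
    rw [dot_split, D.mem_smul, θ]
    split_ifs with hl
    · rw [hl, mul_zero, add_zero, (D.axGroup F.ω).inv_mem (F.tr_mem r).1 _ (L.dir_mem _),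
        ← F.comp_le_sub hOH (L.dir_mem _)]
      set v := L.ε.symm (Fin.init w) with hv
      have hv0 : v ≠ 0 := fun h => init_ne hw hl (L.ε.symm.map_eq_zero_iff.1 h)
      have hεv : L.ε v = Fin.init w := L.ε.apply_symm_apply _
      rw [← hεv, ← hH]
      refine ⟨fun h => h (L.mem_dir v), fun h u hu => ?_⟩
      obtain ⟨c, hc⟩ := (L.comp_iff (L.dir_mem v) (L.mem_dir v) hv0 u).1 hu
      rw [hH, hc, dotProduct_smul, (hH v).1 h, smul_zero]
    · rw [← F.tr_neg, F.tr_pt, ← F.mem_sub_iff hOH, hH, map_add, map_neg, dotProduct_add, dotProduct_neg, har,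
        AddEquiv.apply_symm_apply, neg_neg, dotProduct_smul, smul_eq_mul]
      constructor <;> intro h
      · field_simp at h; linear_combination h
      · field_simp; linear_combination h

/-- The bijection with the projective space. -/
noncomputable def Θ : Projectivization K (Fin (m + 1) → K) → X :=
  Projectivization.lift (fun w => L.θ w.1) (fun a b c h => by
    have hc : c ≠ 0 := fun hc => a.2 (by rw [h, hc, zero_smul])
    rw [h]; exact L.θ_smul _ b.2 hc)

theorem Θ_mk (w : Fin (m + 1) → K) (hw : w ≠ 0) : L.Θ (Projectivization.mk K w hw) = L.θ w :=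
  Projectivization.lift_mk ..

theorem Θ_bij : Function.Bijective L.Θ := by
  constructor
  · intro a b h
    induction a using Projectivization.ind with
    | h w hw =>
      induction b using Projectivization.ind with
      | h w' hw' =>
        rw [L.Θ_mk, L.Θ_mk] at h
        rw [Projectivization.mk_eq_mk_iff']
        exact L.θ_inj hw hw' h
  · intro x
    obtain ⟨w, hw, rfl⟩ := L.θ_surj x
    exact ⟨Projectivization.mk K w hw, L.Θ_mk w hw⟩

/-- The block of a functional. -/
noncomputable def ψ (φ : Fin (m + 1) → K) : Y :=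
  if h : φ = 0 then F.ω else (L.exists_block φ h).choose

theorem mem_ψ {φ : Fin (m + 1) → K} (hφ : φ ≠ 0) {w : Fin (m + 1) → K} (hw : w ≠ 0) :
    D.Mem (L.θ w) (L.ψ φ) ↔ φ ⬝ᵥ w = 0 := by
  rw [ψ, dif_neg hφ]; exact (L.exists_block φ hφ).choose_spec w hw

/-- Every block comes from a functional. -/
theorem ψ_surj (E : Y) : ∃ φ : Fin (m + 1) → K, φ ≠ 0 ∧ L.ψ φ = E := by
  let Ψ : Projectivization K (Fin (m + 1) → K) → Y := fun p => L.ψ p.rep
  have hinj : Function.Injective Ψ := by
    intro p p' h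
    rw [← Projectivization.mk_rep p, ← Projectivization.mk_rep p', Projectivization.mk_eq_mk_iff']
    set a := p.rep with ha
    set b := p'.rep with hb
    have hk : ∀ w : Fin (m + 1) → K, b ⬝ᵥ w = 0 → a ⬝ᵥ w = 0 := by
      intro w hw
      by_cases hw0 : w = 0
      · simp [hw0]
      · rw [← L.mem_ψ p.rep_nonzero hw0, show L.ψ a = L.ψ b from h,
          L.mem_ψ p'.rep_nonzero hw0]
        exact hw
    obtain ⟨i, hi⟩ := Function.ne_iff.1 p'.rep_nonzero
    simp only [Pi.zero_apply, ← hb] at hi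
    refine ⟨a i / b i, funext fun j => ?_⟩
    have := hk (Pi.single j (b i) - Pi.single i (b j)) (by
      rw [dotProduct_sub, dotProduct_single, dotProduct_single]; ring)
    rw [dotProduct_sub, dotProduct_single, dotProduct_single] at this
    rw [Pi.smul_apply, smul_eq_mul, div_mul_eq_mul_div, eq_comm, eq_div_iff hi]
    linear_combination this
  obtain ⟨p, hp⟩ := (hinj.bijective_of_nat_card_le (le_of_eq (by
    rw [D.card_eq, Nat.card_eq_of_bijective _ L.Θ_bij]))).2 E
  exact ⟨p.rep, p.rep_nonzero, hp⟩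

end Lin

end CfsgLib.MetacyclicP.ItoDesign
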