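import Cfsg.Agent.Lib.MetacyclicP.ItoDesign.Affine
import Cfsg.Agent.Lib.FFModules.SL2Pair.SpreadField

/-!
# Shears and the coordinate field
-/

set_option autoImplicit false
set_option linter.unusedSectionVars false
set_option maxHeartbeats 800000

namespace CfsgLib.MetacyclicP.ItoDesign

namespace Frame

variable {G X Y : Type*} [Group G] [Fintype G] [MulAction G X] [MulAction G Y] [Fintype X] [Fintype Y]
variable {D : Design G X Y} (F : Frame D)

open scoped Classical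

/-- The stabiliser of the origin and of the hyperplane at infinity. -/
def stabO : Subgroup G := MulAction.stabilizer G F.ω ⊓ MulAction.stabilizer G F.O

theorem mem_stabO {g : G} : g ∈ F.stabO ↔ g • F.ω = F.ω ∧ g • F.O = F.O := Iff.rfl

theorem conj_mem (g : F.stabO) (v : F.V) : (g : G) * F.tr v * (g : G)⁻¹ ∈ D.trans F.ω := by
  have h := D.trans_conj (h := (g : G)) (F.tr_mem v)
  rwa [(F.mem_stabO.1 g.2).1] at h

/-- The action on vectors. -/
def act (g : F.stabO) : F.V →+ F.V :=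
  AddMonoidHom.mk' (fun v => Additive.ofMul ⟨(g : G) * F.tr v * (g : G)⁻¹, F.conj_mem g v⟩) fun u v =>
    F.tr_inj (show (g : G) * F.tr (u + v) * (g : G)⁻¹ =
      ((g : G) * F.tr u * (g : G)⁻¹) * ((g : G) * F.tr v * (g : G)⁻¹) by rw [tr_add]; group)

theorem tr_act (g : F.stabO) (v : F.V) : F.tr (F.act g v) = (g : G) * F.tr v * (g : G)⁻¹ := rfl

theorem pt_act (g : F.stabO) (v : F.V) : F.pt (F.act g v) = (g : G) • F.pt v := by
  have h : (g : G)⁻¹ • F.O = F.O := by rw [inv_smul_eq_iff, (F.mem_stabO.1 g.2).2]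
  rw [pt, tr_act, mul_smul, mul_smul, h, pt]

theorem act_mul (g h : F.stabO) (v : F.V) : F.act (g * h) v = F.act g (F.act h v) :=
  F.pt_inj (by rw [F.pt_act, F.pt_act, F.pt_act, Subgroup.coe_mul, mul_smul])

theorem act_one (v : F.V) : F.act 1 v = v :=
  F.pt_inj (by rw [F.pt_act, Subgroup.coe_one, one_smul])

theorem act_injective (g : F.stabO) : Function.Injective (F.act g) := fun u v h => by
  have := congrArg F.pt h
  rw [F.pt_act, F.pt_act] at this
  exact F.pt_inj (MulAction.injective _ this)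

theorem stabO_mem_inf (g : F.stabO) {a : X} (ha : D.Mem a F.ω) : D.Mem ((g : G) • a) F.ω := by
  rw [← (F.mem_stabO.1 g.2).1]; exact (D.smul_mem _ _ _).2 ha

theorem act_comp (g : F.stabO) {a : X} {v : F.V} (hv : v ∈ F.comp a) :
    F.act g v ∈ F.comp ((g : G) • a) := by
  intro E hE
  rw [tr_act, mul_smul, mul_smul, hv _ ?_, smul_inv_smul]
  rw [D.mem_smul, inv_inv]; exact hE

/-- The stabiliser fixes the direction of a fixed vector. -/
theorem fix_dir (g : F.stabO) {a : X} (ha : D.Mem a F.ω) {v : F.V} (hv : v ∈ F.comp a) (h0 : v ≠ 0)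
    (h : F.act g v = v) : (g : G) • a = a :=
  F.comp_unique (F.stabO_mem_inf g ha) ha (h ▸ F.act_comp g hv) hv h0

end Frame

/-- A basis of components with dual hyperplanes. -/
structure Basis {G X Y : Type*} [Group G] [MulAction G X] [MulAction G Y] [Fintype G] [Fintype X]
    [Fintype Y] {D : Design G X Y} (F : Frame D) (m : ℕ) where
  /-- the directions -/
  P : Fin m → X
  /-- the coordinate hyperplanes -/
  H : Fin m → Y
  two : 2 ≤ m
  hP : ∀ i, D.Mem (P i) F.ω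
  hO : ∀ i, D.Mem F.O (H i)
  hPH : ∀ i, ¬ D.Mem (P i) (H i)
  hH : ∀ i j, i ≠ j → D.Mem (P j) (H i)
  top : (⨆ i, F.comp (P i)) = ⊤

namespace Basis

variable {G X Y : Type*} [Group G] [Fintype G] [MulAction G X] [MulAction G Y] [Fintype X] [Fintype Y]
variable {D : Design G X Y} {F : Frame D} {m : ℕ} (B : Basis F m)

open scoped Classical

/-- A component of the basis. -/
abbrev C (i : Fin m) : AddSubgroup F.V := F.comp (B.P i)

theorem unique {i : Fin m} {v p p' : F.V} (hp : p ∈ B.C i) (hp' : p' ∈ B.C i)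
    (h : v - p ∈ F.sub (B.H i)) (h' : v - p' ∈ F.sub (B.H i)) : p = p' := by
  refine sub_eq_zero.1 (F.comp_inter (B.hO i) (B.hP i) (B.hPH i) ((B.C i).sub_mem hp hp') ?_)
  rw [show p - p' = (v - p') - (v - p) by abel]
  exact (F.sub _).sub_mem h' h

/-- The component of a vector. -/
noncomputable def projFun (i : Fin m) (v : F.V) : F.V :=
  (F.decomp (B.hO i) (B.hP i) (B.hPH i) v).choose

theorem projFun_mem (i : Fin m) (v : F.V) : B.projFun i v ∈ B.C i :=
  (F.decomp (B.hO i) (B.hP i) (B.hPH i) v).choose_spec.1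

theorem projFun_sub (i : Fin m) (v : F.V) : v - B.projFun i v ∈ F.sub (B.H i) :=
  (F.decomp (B.hO i) (B.hP i) (B.hPH i) v).choose_spec.2

/-- The coordinate maps. -/
noncomputable def proj (i : Fin m) : F.V →+ B.C i :=
  AddMonoidHom.mk' (fun v => ⟨B.projFun i v, B.projFun_mem i v⟩) fun u v => Subtype.ext <|
    B.unique (v := u + v) (B.projFun_mem i _) ((B.C i).add_mem (B.projFun_mem i u) (B.projFun_mem i v))
      (B.projFun_sub i _) (by
        show u + v - (B.projFun i u + B.projFun i v) ∈ _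
        rw [show u + v - (B.projFun i u + B.projFun i v) =
          (u - B.projFun i u) + (v - B.projFun i v) by abel]
        exact (F.sub _).add_mem (B.projFun_sub i u) (B.projFun_sub i v))

theorem proj_sub (i : Fin m) (v : F.V) : v - (B.proj i v : F.V) ∈ F.sub (B.H i) := B.projFun_sub i v

theorem proj_self (i : Fin m) (p : B.C i) : B.proj i (p : F.V) = p :=
  Subtype.ext <| B.unique (v := (p : F.V)) (B.projFun_mem i _) p.2 (B.projFun_sub i _)
    (by rw [sub_self]; exact (F.sub _).zero_mem)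

theorem proj_eq_zero_iff (i : Fin m) (v : F.V) : B.proj i v = 0 ↔ v ∈ F.sub (B.H i) := by
  refine ⟨fun h => ?_, fun h => Subtype.ext <| B.unique (v := v) (B.projFun_mem i _)
    (B.C i).zero_mem (B.projFun_sub i _) (show v - 0 ∈ _ by rw [sub_zero]; exact h)⟩
  have := B.proj_sub i v
  rwa [h, ZeroMemClass.coe_zero, sub_zero] at this

theorem proj_other {i j : Fin m} (h : i ≠ j) (p : B.C j) : B.proj i (p : F.V) = 0 :=
  (B.proj_eq_zero_iff i _).2 ((F.comp_le_sub (B.hO i) (B.hP j)).2 (B.hH i j h) p.2)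

theorem sum_proj (v : F.V) : ∑ i, (B.proj i v : F.V) = v := by
  have hv : v ∈ ⨆ i, F.comp (B.P i) := by rw [B.top]; trivial
  refine AddSubgroup.iSup_induction (fun i => F.comp (B.P i))
    (C := fun v => ∑ i, (B.proj i v : F.V) = v) hv (fun i p hp => ?_) ?_ (fun x y hx hy => ?_)
  · rw [Finset.sum_eq_single i (fun j _ hj => by rw [B.proj_other hj ⟨p, hp⟩]; rfl)
      (fun h => absurd (Finset.mem_univ i) h), B.proj_self i ⟨p, hp⟩]
  · simp
  · simp only [map_add, AddSubgroup.coe_add, Finset.sum_add_distrib, hx, hy]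

/-- A shear: `v ↦ v + f (proj i v)`. -/
def IsShear (i j : Fin m) (g : F.stabO) (f : B.C i →+ B.C j) : Prop :=
  ∀ v, F.act g v = v + (f (B.proj i v) : F.V)

theorem isShear_mul {i j : Fin m} (hij : i ≠ j) {g h : F.stabO} {f f' : B.C i →+ B.C j}
    (hg : B.IsShear i j g f) (hh : B.IsShear i j h f') : B.IsShear i j (g * h) (f + f') := fun v => by
  rw [F.act_mul, hh, hg, map_add, B.proj_other hij, add_zero, AddMonoidHom.add_apply,
    AddSubgroup.coe_add]
  abel

theorem isShear_inv {i j : Fin m} (hij : i ≠ j) {g : F.stabO} {f : B.C i →+ B.C j}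
    (hg : B.IsShear i j g f) : B.IsShear i j g⁻¹ (-f) := fun v => by
  apply F.act_injective g
  rw [← F.act_mul, mul_inv_cancel, F.act_one, hg, map_add, B.proj_other hij, add_zero,
    AddMonoidHom.neg_apply, AddSubgroup.coe_neg]
  abel

/-- The group of shear maps from one component to another. -/
def Φ {i j : Fin m} (hij : i ≠ j) : AddSubgroup (B.C i →+ B.C j) where
  carrier := {f | ∃ g, B.IsShear i j g f}
  zero_mem' := ⟨1, fun v => by simp [F.act_one]⟩
  add_mem' := fun ⟨g, hg⟩ ⟨h, hh⟩ => ⟨g * h, B.isShear_mul hij hg hh⟩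
  neg_mem' := fun ⟨g, hg⟩ => ⟨g⁻¹, B.isShear_inv hij hg⟩

theorem mem_Φ {i j : Fin m} (hij : i ≠ j) {f : B.C i →+ B.C j} :
    f ∈ B.Φ hij ↔ ∃ g, B.IsShear i j g f := Iff.rfl

theorem Φ_eq_zero {i j : Fin m} (hij : i ≠ j) {f : B.C i →+ B.C j} (hf : f ∈ B.Φ hij) {y : B.C i}
    (hy : y ≠ 0) (hfy : f y = 0) : f = 0 := by
  obtain ⟨g, hg⟩ := hf
  have hy1 : (y : F.V) ≠ 0 := fun e => hy (Subtype.ext e)
  have hfixy : F.act g (y : F.V) = (y : F.V) := by
    rw [hg, B.proj_self, hfy, ZeroMemClass.coe_zero, add_zero]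
  have hfixW : ∀ w ∈ F.sub (B.H i), F.act g w = w := fun w hw => by
    rw [hg, (B.proj_eq_zero_iff i w).2 hw, map_zero, ZeroMemClass.coe_zero, add_zero]
  have hax : (g : G) ∈ D.axGroup (B.H i) := by
    intro x hx
    by_cases hxω : D.Mem x F.ω
    · have h2 : 1 < Nat.card (F.comp x) := by
        rw [F.card_comp hxω]; have := (D.order_facts F.hA).2.1; omega
      haveI : Nontrivial (F.comp x) := Finite.one_lt_card_iff_nontrivial.1 h2
      obtain ⟨w, hw⟩ := exists_ne (0 : F.comp x)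
      exact F.fix_dir g hxω w.2 (fun e => hw (Subtype.ext e))
        (hfixW _ ((F.comp_le_sub (B.hO i) hxω).2 hx w.2))
    · obtain ⟨w, rfl⟩ := F.exists_pt hxω
      rw [← F.pt_act, hfixW w ((F.mem_sub_iff (B.hO i)).2 hx)]
  have hptH : ¬ D.Mem (F.pt (y : F.V)) (B.H i) := fun h =>
    hy1 (F.comp_inter (B.hO i) (B.hP i) (B.hPH i) y.2 ((F.mem_sub_iff (B.hO i)).2 h))
  have hg1 : (g : G) = 1 := D.ax_two_fixed hax (F.ne_pt (B.hP i) _) (B.hPH i) hptH
    (F.fix_dir g (B.hP i) y.2 hy1 hfixy) (by rw [← F.pt_act, hfixy])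
  have hg1' : g = 1 := Subtype.ext hg1
  ext p
  have h := hg (p : F.V)
  rw [hg1', F.act_one, B.proj_self] at h
  simpa using h

theorem Φ_surj {i j : Fin m} (hij : i ≠ j) {y : B.C i} (hy : y ≠ 0) (p : B.C j) :
    ∃ f ∈ B.Φ hij, f y = p := by
  by_cases hp : p = 0
  · exact ⟨0, (B.Φ hij).zero_mem, by simp [hp]⟩
  have hy1 : (y : F.V) ≠ 0 := fun e => hy (Subtype.ext e)
  have hpW : (p : F.V) ∈ F.sub (B.H i) := (F.comp_le_sub (B.hO i) (B.hP j)).2 (B.hH i j hij) p.2
  have h1 : ¬ D.Mem (F.pt (y : F.V)) (B.H i) := fun h =>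
    hy1 (F.comp_inter (B.hO i) (B.hP i) (B.hPH i) y.2 ((F.mem_sub_iff (B.hO i)).2 h))
  have h2 : ¬ D.Mem (F.pt ((y : F.V) + p)) (B.H i) := fun h => h1 ((F.mem_sub_iff (B.hO i)).1 (by
    have := (F.sub (B.H i)).sub_mem ((F.mem_sub_iff (B.hO i)).2 h) hpW
    rwa [add_sub_cancel_right] at this))
  obtain ⟨g, hg, hgy⟩ := D.exists_trans F.hA h1 h2
  have hne : F.pt ((y : F.V) + p) ≠ F.pt (y : F.V) := fun h => hp (Subtype.ext (by
    simpa using F.pt_inj h))
  have hg1 : g ≠ 1 := fun e => hne (by rw [← hgy, e, one_smul])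
  obtain ⟨b, hbH, hb⟩ := D.centre_mem hg.1 hg1 (hg.2.resolve_left hg1)
  have hbl := D.centre_line hb (F.pt (y : F.V))
  rw [hgy] at hbl
  have hbp : b = B.P j := by
    have hne1 : b ≠ F.pt (y : F.V) := fun e => h1 (e ▸ hbH)
    have hne2 : B.P j ≠ F.pt (y : F.V) := F.ne_pt (B.hP j) _
    have e1 := D.pl_eq hne1 hbl (D.right_mem_pl b _) hne
    have e2 := D.pl_eq hne2 ((F.mem_pl_iff (B.hP j) _ _).2 (by rw [add_sub_cancel_left]; exact p.2))
      (D.right_mem_pl (B.P j) _) hne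
    by_contra h
    exact h1 (D.pl_mem_of_two hne2 (show b ∈ D.pl (B.P j) (F.pt (y : F.V)) from
      e2 ▸ e1.symm ▸ D.left_mem_pl b _) (D.left_mem_pl _ _) h hbH (B.hH i j hij)).2
  rw [hbp] at hb
  have hgS : g ∈ F.stabO := F.mem_stabO.2 ⟨hb _ (B.hP j), hg.1 _ (B.hO i)⟩
  let g' : F.stabO := ⟨g, hgS⟩
  have hW : ∀ w ∈ F.sub (B.H i), F.act g' w = w := fun w hw => F.pt_inj (by
    rw [F.pt_act]; exact hg.1 _ ((F.mem_sub_iff (B.hO i)).1 hw))
  have hdiff : ∀ v, F.act g' v - v ∈ B.C j := fun v => by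
    rw [← F.mem_pl_iff (B.hP j), F.pt_act]
    exact D.centre_line hb _
  let f : B.C i →+ B.C j := AddMonoidHom.mk' (fun q => ⟨F.act g' (q : F.V) - q, hdiff _⟩)
    fun a b => Subtype.ext (by simp only [AddSubgroup.coe_add, map_add]; abel)
  refine ⟨f, ⟨g', fun v => ?_⟩, Subtype.ext ?_⟩
  · show F.act g' v = v + (F.act g' (B.proj i v : F.V) - (B.proj i v : F.V))
    have h := hW _ (B.proj_sub i v)
    rw [map_sub, sub_eq_iff_eq_add] at h
    rw [h]; abel
  · show F.act g' (y : F.V) - y = p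
    rw [F.pt_inj (show F.pt (F.act g' (y : F.V)) = F.pt ((y : F.V) + p) by rw [F.pt_act]; exact hgy),
      add_sub_cancel_left]

theorem exists_ne (i : Fin m) : ∃ y : B.C i, y ≠ 0 := by
  haveI : Nontrivial (B.C i) := Finite.one_lt_card_iff_nontrivial.1 (by
    rw [F.card_comp (B.hP i)]; have := (D.order_facts F.hA).2.1; omega)
  exact _root_.exists_ne 0

theorem card_Φ {i j : Fin m} (hij : i ≠ j) : Nat.card (B.Φ hij) = D.q := by
  obtain ⟨y, hy⟩ := B.exists_ne i
  rw [← F.card_comp (B.hP j)]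
  refine Nat.card_congr (Equiv.ofBijective (fun f : B.Φ hij => f.1 y) ⟨fun f f' h => ?_, fun p => ?_⟩)
  · apply Subtype.ext
    refine sub_eq_zero.1 (B.Φ_eq_zero hij ((B.Φ hij).sub_mem f.2 f'.2) hy ?_)
    rw [AddMonoidHom.sub_apply, sub_eq_zero]; exact h
  · obtain ⟨f, hf, he⟩ := B.Φ_surj hij hy p
    exact ⟨⟨f, hf⟩, he⟩

theorem Φ_bijective {i j : Fin m} (hij : i ≠ j) {f : B.C i →+ B.C j} (hf : f ∈ B.Φ hij) (h0 : f ≠ 0) :
    Function.Bijective f := by
  have hinj : Function.Injective f := (injective_iff_map_eq_zero f).2 fun y hy => by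
    by_contra h
    exact h0 (B.Φ_eq_zero hij hf h hy)
  exact ⟨hinj, (hinj.bijective_of_nat_card_le (by rw [F.card_comp (B.hP j), F.card_comp (B.hP i)])).2⟩

theorem Φ_comp {i j l : Fin m} (hij : i ≠ j) (hjl : j ≠ l) (hil : i ≠ l) {f : B.C j →+ B.C l}
    {g : B.C i →+ B.C j} (hf : f ∈ B.Φ hjl) (hg : g ∈ B.Φ hij) : f.comp g ∈ B.Φ hil := by
  obtain ⟨a, ha⟩ := hf
  obtain ⟨b, hb⟩ := hg
  refine ⟨a * b * a⁻¹ * b⁻¹, fun v => ?_⟩
  rw [F.act_mul, F.act_mul, F.act_mul, B.isShear_inv hij hb, B.isShear_inv hjl ha, hb, ha]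
  simp only [map_add, map_neg, AddMonoidHom.neg_apply, AddSubgroup.coe_neg, B.proj_other hij,
    B.proj_other hjl, B.proj_other hil, B.proj_other hil.symm, B.proj_self, AddMonoidHom.comp_apply,
    map_zero, ZeroMemClass.coe_zero, neg_zero, add_zero, AddSubgroup.coe_add]
  abel

theorem Φ_inverse {i j : Fin m} (hij : i ≠ j) {g : B.C i →+ B.C j} (hg : g ∈ B.Φ hij) (h0 : g ≠ 0) :
    ∃ f ∈ B.Φ hij.symm, f.comp g = AddMonoidHom.id (B.C i) := by
  obtain ⟨x, hx⟩ := B.exists_ne i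
  have hgx : g x ≠ 0 := fun h => hx ((B.Φ_bijective hij hg h0).1 (h.trans (map_zero g).symm))
  obtain ⟨f, hf, hfx⟩ := B.Φ_surj hij.symm hgx x
  obtain ⟨a, ha⟩ := hg
  obtain ⟨b, hb⟩ := hf
  refine ⟨f, ⟨b, hb⟩, ?_⟩
  have hgen : ∀ z : B.C i, (z : F.V) + g z ∈ F.comp ((a : G) • B.P i) := fun z => by
    have h := F.act_comp a z.2
    rwa [ha, B.proj_self] at h
  have hgen' : ∀ y : B.C j, (y : F.V) + f y ∈ F.comp ((b : G) • B.P j) := fun y => by
    have h := F.act_comp b y.2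
    rwa [hb, B.proj_self] at h
  have hne : (x : F.V) + g x ≠ 0 := fun h => hx (by
    have := congrArg (B.proj i) h
    rwa [map_add, B.proj_self, B.proj_other hij, add_zero, map_zero] at this)
  have hpeq : (a : G) • B.P i = (b : G) • B.P j :=
    F.comp_unique (F.stabO_mem_inf a (B.hP i)) (F.stabO_mem_inf b (B.hP j)) (hgen x)
      (by have h := hgen' (g x); rwa [hfx, add_comm] at h) hne
  ext z
  -- both descriptions give the same vector
  have hz := hgen z
  rw [hpeq] at hz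
  obtain ⟨y, hy, hye⟩ : ∃ y : F.V, y ∈ B.C j ∧ F.act b y = (z : F.V) + g z := by
    refine ⟨F.act b⁻¹ ((z : F.V) + g z), ?_, by rw [← F.act_mul, mul_inv_cancel, F.act_one]⟩
    have h := F.act_comp b⁻¹ hz
    rwa [Subgroup.coe_inv, inv_smul_smul] at h
  rw [hb, show B.proj j y = ⟨y, hy⟩ from B.proj_self j ⟨y, hy⟩] at hye
  have e1 := congrArg (B.proj j) hye
  simp only [map_add, B.proj_other hij.symm, B.proj_self, add_zero, zero_add] at e1
  rw [show B.proj j y = ⟨y, hy⟩ from B.proj_self j ⟨y, hy⟩] at e1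
  have e2 := congrArg (B.proj i) hye
  rw [e1, map_add, map_add, B.proj_self, B.proj_self, B.proj_other hij,
    show B.proj i y = 0 from B.proj_other hij ⟨y, hy⟩, zero_add, add_zero] at e2
  rw [AddMonoidHom.comp_apply, AddMonoidHom.id_apply, e2]

theorem exists_prime (i j : Fin m) (hij : i ≠ j) :
    ∃ p : ℕ, p.Prime ∧ ∀ v : B.C i, p • v = 0 := by
  have htr : ∀ x x' : B.C i, x ≠ 0 → x' ≠ 0 → addOrderOf x = addOrderOf x' := by
    intro x x' hx hx'
    obtain ⟨z, hz⟩ := B.exists_ne j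
    obtain ⟨g, hg, hgx⟩ := B.Φ_surj hij hx z
    obtain ⟨f, hf, hfz⟩ := B.Φ_surj hij.symm hz x'
    have hg0 : g ≠ 0 := fun h => hz (by rw [← hgx, h]; rfl)
    have hf0 : f ≠ 0 := fun h => hx' (by rw [← hfz, h]; rfl)
    rw [← addOrderOf_injective (f.comp g) ((B.Φ_bijective hij.symm hf hf0).1.comp
      (B.Φ_bijective hij hg hg0).1) x]
    rw [AddMonoidHom.comp_apply, hgx, hfz]
  obtain ⟨x, hx⟩ := B.exists_ne i
  obtain ⟨p, hp, hpd⟩ := Nat.exists_prime_and_dvd (n := addOrderOf x)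
    (fun h => hx (AddMonoid.addOrderOf_eq_one_iff.1 h))
  refine ⟨p, hp, fun v => ?_⟩
  by_cases hv : v = 0
  · rw [hv, nsmul_zero]
  have hy0 : (addOrderOf x / p) • x ≠ 0 := fun h => by
    have h1 := Nat.le_of_dvd (Nat.div_pos (Nat.le_of_dvd (addOrderOf_pos x) hpd) hp.pos)
      (addOrderOf_dvd_of_nsmul_eq_zero h)
    exact absurd h1 (not_le.2 (Nat.div_lt_self (addOrderOf_pos x) hp.one_lt))
  have hy : addOrderOf ((addOrderOf x / p) • x) = p := by
    haveI : Fact p.Prime := ⟨hp⟩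
    refine addOrderOf_eq_prime ?_ hy0
    rw [← mul_nsmul, Nat.div_mul_cancel hpd, addOrderOf_nsmul_eq_zero]
  rw [← (htr _ _ hy0 hv).symm.trans hy]
  exact addOrderOf_nsmul_eq_zero v

end Basis

end CfsgLib.MetacyclicP.ItoDesign
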