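import Cfsg.Agent.Lib.MetacyclicP.ItoDesign.Centre

/-!
# The translations of a hyperplane
-/

set_option autoImplicit false
set_option linter.unusedSectionVars false
set_option maxHeartbeats 800000

namespace CfsgLib.MetacyclicP.ItoDesign

namespace Design

variable {G X Y : Type*} [Group G] [Fintype G] [MulAction G X] [MulAction G Y] [Fintype X] [Fintype Y]
variable (D : Design G X Y) (hA : D.HasAxial)

open Finset
open scoped Classical

/-- The line through two points. -/
noncomputable def pl (x y : X) : Finset X := D.dual.line x y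

theorem mem_pl {x y z : X} : z ∈ D.pl x y ↔ ∀ E, D.Mem x E → D.Mem y E → D.Mem z E :=
  D.dual.mem_line

theorem left_mem_pl (x y : X) : x ∈ D.pl x y := D.dual.left_mem_line x y

theorem right_mem_pl (x y : X) : y ∈ D.pl x y := D.dual.right_mem_line x y

theorem pl_comm (x y : X) : D.pl x y = D.pl y x := D.dual.line_comm x y

theorem pl_eq {x y z w : X} (h : x ≠ y) (hz : z ∈ D.pl x y) (hw : w ∈ D.pl x y) (hzw : z ≠ w) :
    D.pl z w = D.pl x y := D.dual.line_eq h hz hw hzw

theorem pl_mem_of_two {x y z w : X} (h : x ≠ y) (hz : z ∈ D.pl x y) (hw : w ∈ D.pl x y) (hzw : z ≠ w)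
    {E : Y} (hzE : D.Mem z E) (hwE : D.Mem w E) : D.Mem x E ∧ D.Mem y E :=
  D.dual.mem_both h hz hw hzw hzE hwE

theorem smul_mem_pl {g : G} {x y z : X} (h : z ∈ D.pl x y) : g • z ∈ D.pl (g • x) (g • y) :=
  D.dual.smul_mem_line h

include hA in
theorem card_pl {x y : X} (h : x ≠ y) : (D.pl x y).card = D.q + 1 :=
  (D.dual.order_facts (D.hasAxial_dual hA)).2.2.2.1 x y h

include hA in
theorem exists_pl_mem {x y : X} (h : x ≠ y) (E : Y) : ∃ z ∈ D.pl x y, D.Mem z E :=
  (D.dual.order_facts (D.hasAxial_dual hA)).2.2.2.2 x y E h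

/-- Centres move points along lines. -/
theorem centre_line {g : G} {a : X} (ha : ∀ E, D.Mem a E → g • E = E) (x : X) :
    g • x ∈ D.pl a x := by
  rw [mem_pl]
  intro E h1 h2
  rw [← ha E h1]
  exact (D.smul_mem g x E).2 h2

/-- The centre of an elation lies on its axis. -/
theorem centre_mem {g : G} {B : Y} (hg : g ∈ D.axGroup B) (h1 : g ≠ 1)
    (hfree : ∀ x, ¬ D.Mem x B → g • x ≠ x) : ∃ a, D.Mem a B ∧ ∀ E, D.Mem a E → g • E = E :=
  D.exists_centre_of_free hg h1 hfree

include hA in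
theorem exists_off_line (B : Y) (a O : X) :
    ∃ x, ¬ D.Mem x B ∧ x ∉ D.pl a O ∧ x ≠ O := by
  by_contra hcon
  push Not at hcon
  obtain ⟨hkq, hq2, hv, -, -⟩ := D.order_facts hA
  have hsub : (Finset.univ : Finset X) ⊆ D.pts B ∪ (if a = O then {O} ∪ D.pl a O else D.pl a O) := by
    intro x _
    rw [Finset.mem_union, D.mem_pts]
    by_cases hx : D.Mem x B
    · exact Or.inl hx
    right
    by_cases hxl : x ∈ D.pl a O
    · split_ifs
      · exact Finset.mem_union_right _ hxl
      · exact hxl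
    · have := hcon x hx hxl
      subst this
      exact absurd (D.right_mem_pl a x) hxl
  by_cases hao : a = O
  · subst hao
    obtain ⟨b, hb⟩ := Fintype.exists_ne_of_one_lt_card
      (show 1 < Fintype.card X by have := D.four_le; omega) a
    -- compare with a genuine line
    have hmem : ∀ x, x ∈ D.pl a a → x = a := by
      intro x hx
      by_contra hne
      have h0 : D.blks a ∩ D.blks x = D.blks a := by
        rw [Finset.inter_eq_left]
        intro E hE
        exact D.mem_blks.2 (D.mem_pl.1 hx E (D.mem_blks.1 hE) (D.mem_blks.1 hE))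
      have := D.card_blks₂ (Ne.symm hne)
      rw [h0, D.card_blks] at this
      exact D.lam_lt.ne' this
    have hsub' : (Finset.univ : Finset X) ⊆ insert a (D.pts B) := by
      intro x _
      by_cases hx : D.Mem x B
      · exact Finset.mem_insert_of_mem (D.mem_pts.2 hx)
      · by_cases hxl : x ∈ D.pl a a
        · rw [hmem x hxl]; exact Finset.mem_insert_self _ _
        · rw [hcon x hx hxl]; exact Finset.mem_insert_self _ _
    have := (Finset.card_le_card hsub').trans (Finset.card_insert_le _ _)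
    rw [Finset.card_univ, D.card_pts] at this
    have := D.k_lt
    omega
  · rw [if_neg hao] at hsub
    have := (Finset.card_le_card hsub).trans (Finset.card_union_le _ _)
    rw [Finset.card_univ, D.card_pts, D.card_pl hA hao, hv] at this
    have : D.q * D.lam ≥ D.q := Nat.le_mul_of_pos_right _ D.lam_pos
    nlinarith

include hA in
/-- An elation is determined by the image of one point off the axis. -/
theorem elation_unique {g g' : G} {B : Y} (hg : g ∈ D.axGroup B) (hg' : g' ∈ D.axGroup B)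
    (hf : g = 1 ∨ ∀ x, ¬ D.Mem x B → g • x ≠ x) (hf' : g' = 1 ∨ ∀ x, ¬ D.Mem x B → g' • x ≠ x)
    {O : X} (hO : ¬ D.Mem O B) (he : g • O = g' • O) : g = g' := by
  rcases hf with rfl | hf
  · rcases hf' with rfl | hf'
    · rfl
    · rw [one_smul] at he; exact absurd he.symm (hf' O hO)
  rcases hf' with rfl | hf'
  · rw [one_smul] at he; exact absurd he (hf O hO)
  have hne : g ≠ 1 := fun h => hf O hO (by rw [h, one_smul])
  have hne' : g' ≠ 1 := fun h => hf' O hO (by rw [h, one_smul])
  obtain ⟨a, haB, ha⟩ := D.centre_mem hg hne hf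
  obtain ⟨a', haB', ha'⟩ := D.centre_mem hg' hne' hf'
  have haO : a ≠ O := fun e => hO (e ▸ haB)
  have haO' : a' ≠ O := fun e => hO (e ▸ haB')
  have h1 := D.centre_line ha O
  have h2 := D.centre_line ha' O
  rw [← he] at h2
  have hl : D.pl a O = D.pl a' O := by
    rw [← D.pl_eq haO h1 (D.right_mem_pl a O) (hf O hO),
      ← D.pl_eq haO' h2 (D.right_mem_pl a' O) (hf O hO)]
  have haa : a' = a := by
    by_contra h
    exact hO (D.pl_mem_of_two haO (hl ▸ D.left_mem_pl a' O) (D.left_mem_pl a O) h haB' haB).2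
  subst haa
  obtain ⟨x, hxB, hxl, hxO⟩ := D.exists_off_line hA B a' O
  have hh : g'⁻¹ * g ∈ D.axGroup B := (D.axGroup B).mul_mem ((D.axGroup B).inv_mem hg') hg
  have hhO : (g'⁻¹ * g) • O = O := by rw [mul_smul, he, inv_smul_smul]
  have hhE : ∀ E, D.Mem a' E → (g'⁻¹ * g) • E = E := fun E hE => by
    rw [mul_smul, ha E hE, inv_smul_eq_iff, ha' E hE]
  by_contra hgg
  have hh1 : g'⁻¹ * g ≠ 1 := fun h => hgg (inv_mul_eq_one.1 h).symm
  refine hh1 (D.ax_two_fixed hh hxO hxB hO ?_ hhO)
  by_contra hne2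
  have h3 := D.centre_line hhE x
  obtain ⟨Q, hQ, hQB⟩ := D.exists_pl_mem hA (Ne.symm hxO) B
  have hOQ : O ≠ Q := fun e => hO (e ▸ hQB)
  have hlOQ : D.pl O Q = D.pl O x := D.pl_eq (Ne.symm hxO) (D.left_mem_pl O x) hQ hOQ
  have h4 : (g'⁻¹ * g) • x ∈ D.pl O x := by
    have := D.smul_mem_pl (g := g'⁻¹ * g) (show x ∈ D.pl O Q from hlOQ ▸ D.right_mem_pl O x)
    rwa [hhO, hh Q hQB, hlOQ] at this
  have hax : a' ≠ x := fun e => hxB (e ▸ haB')
  have h5 := D.pl_eq hax h3 (D.right_mem_pl a' x) hne2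
  have h6 := D.pl_eq (Ne.symm hxO) h4 (D.right_mem_pl O x) hne2
  have h7 : a' ∈ D.pl O x := by rw [← h6, h5]; exact D.left_mem_pl a' x
  exact hxl ((D.pl_eq (Ne.symm hxO) h7 (D.left_mem_pl O x) haO').symm ▸ D.right_mem_pl O x)

/-- The elations with a given axis. -/
noncomputable def elSet (B : Y) : Finset G :=
  (D.axSet B).filter fun g => g = 1 ∨ ∀ x, ¬ D.Mem x B → g • x ≠ x

theorem mem_elSet {B : Y} {g : G} :
    g ∈ D.elSet B ↔ g ∈ D.axGroup B ∧ (g = 1 ∨ ∀ x, ¬ D.Mem x B → g • x ≠ x) := by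
  simp [elSet, mem_axSet]

include hA in
theorem exists_elation {B : Y} {O P : X} (hO : ¬ D.Mem O B) (hP : ¬ D.Mem P B) :
    ∃ g ∈ D.elSet B, g • O = P := by
  set N := (Finset.univ.filter fun w : X => ¬ D.Mem w B) with hN
  have hmap : ∀ g ∈ D.elSet B, g • O ∈ N := fun g hg => by
    simp only [hN, Finset.mem_filter, Finset.mem_univ, true_and]
    exact fun h => hO ((D.ax_mem_iff (D.mem_elSet.1 hg).1 O).1 h)
  have hinj : Set.InjOn (fun g : G => g • O) (↑(D.elSet B) : Set G) := fun g hg g' hg' h =>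
    D.elation_unique hA (D.mem_elSet.1 hg).1 (D.mem_elSet.1 hg').1 (D.mem_elSet.1 hg).2
      (D.mem_elSet.1 hg').2 hO h
  have hsum : ∑ z ∈ N, ((D.axSet B).filter fun g => g • z = z).card = (D.axSet B).card := by
    have himg : (D.axSet B).image (· • O) = N := by
      ext z
      simp only [Finset.mem_image, hN, Finset.mem_filter, Finset.mem_univ, true_and, D.mem_axSet]
      exact ⟨fun ⟨g, hg, he⟩ h => hO ((D.ax_mem_iff hg O).1 (by rw [he]; exact h)),
        fun hz => D.exists_ax_smul hA hO hz⟩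
    rw [← himg, Finset.card_eq_sum_card_image (· • O) (D.axSet B)]
    refine Finset.sum_congr rfl fun z hz => ?_
    obtain ⟨g₀, hg₀, rfl⟩ := Finset.mem_image.1 hz
    rw [D.mem_axSet] at hg₀
    refine Finset.card_equiv (Equiv.mulRight g₀) fun a => ?_
    simp only [Equiv.coe_mulRight, Finset.mem_filter, D.mem_axSet, mul_smul]
    exact and_congr_left fun _ => ⟨fun h => (D.axGroup B).mul_mem h hg₀,
      fun h => by simpa using (D.axGroup B).mul_mem h ((D.axGroup B).inv_mem hg₀)⟩
  have hsum' : ∑ g ∈ D.axSet B, (N.filter fun z => g • z = z).card = (D.axSet B).card :=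
    (Finset.sum_card_bipartiteAbove_eq_sum_card_bipartiteBelow (fun (g : G) (z : X) => g • z = z)
      (s := D.axSet B) (t := N)).trans hsum
  have hcard : N.card ≤ (D.elSet B).card := by
    have h1 : 1 ∈ D.axSet B := D.mem_axSet.2 (D.axGroup B).one_mem
    rw [← Finset.add_sum_erase _ _ h1, Finset.filter_true_of_mem (fun z _ => one_smul G z)] at hsum'
    have h2 : (D.axSet B).card ≤ (D.elSet B).card +
        ∑ g ∈ (D.axSet B).erase 1, (N.filter fun z => g • z = z).card := by
      rw [show (D.axSet B).card = (D.elSet B).card + ((D.axSet B) \ D.elSet B).card from by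
        rw [add_comm, Finset.card_sdiff_add_card_eq_card (fun g hg => D.mem_axSet.2 (D.mem_elSet.1 hg).1)]]
      refine Nat.add_le_add_left ?_ _
      rw [Finset.card_eq_sum_ones]
      refine le_trans (Finset.sum_le_sum (g := fun g => (N.filter fun z => g • z = z).card)
        fun g hg => ?_) (Finset.sum_le_sum_of_subset fun g hg => ?_)
      · rw [Finset.mem_sdiff, D.mem_elSet, D.mem_axSet] at hg
        have := hg.2
        push Not at this
        obtain ⟨-, x, hx, hgx⟩ := this hg.1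
        exact Finset.card_pos.2 ⟨x, Finset.mem_filter.2 ⟨by simp [hN, hx], hgx⟩⟩
      · rw [Finset.mem_sdiff] at hg
        refine Finset.mem_erase.2 ⟨fun h => hg.2 ?_, hg.1⟩
        subst h
        exact D.mem_elSet.2 ⟨(D.axGroup B).one_mem, Or.inl rfl⟩
    omega
  have himg' : (D.elSet B).image (· • O) = N := by
    refine Finset.eq_of_subset_of_card_le (fun z hz => ?_) ?_
    · obtain ⟨g, hg, rfl⟩ := Finset.mem_image.1 hz
      exact hmap g hg
    · rw [Finset.card_image_of_injOn hinj]; exact hcard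
  have : P ∈ (D.elSet B).image (· • O) := by rw [himg']; simp [hN, hP]
  simpa using this

/-- The group of elations with axis `B`. -/
def trans (B : Y) : Subgroup G where
  carrier := {g | g ∈ D.axGroup B ∧ (g = 1 ∨ ∀ x, ¬ D.Mem x B → g • x ≠ x)}
  one_mem' := ⟨(D.axGroup B).one_mem, Or.inl rfl⟩
  mul_mem' {g h} hg hh := by
    refine ⟨(D.axGroup B).mul_mem hg.1 hh.1, ?_⟩
    by_cases hgh : g * h = 1
    · exact Or.inl hgh
    · refine Or.inr fun x hx he => hgh ?_
      rw [mul_smul, ← eq_inv_smul_iff] at he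
      have hA' : D.HasAxial := by
        by_cases h1 : g = 1
        · exact D.hasAxial_of_mem hh.1 (fun h2 => hgh (by rw [h1, h2, mul_one]))
        · exact D.hasAxial_of_mem hg.1 h1
      rw [D.elation_unique hA' hh.1 ((D.axGroup B).inv_mem hg.1) hh.2 ?_ hx he, mul_inv_cancel]
      rcases hg.2 with h | h
      · exact Or.inl (by rw [h, inv_one])
      · exact Or.inr fun y hy e => h y hy (by rw [inv_smul_eq_iff] at e; exact e.symm)
  inv_mem' {g} hg := ⟨(D.axGroup B).inv_mem hg.1, by
    rcases hg.2 with h | h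
    · exact Or.inl (by rw [h, inv_one])
    · exact Or.inr fun y hy e => h y hy (by rw [inv_smul_eq_iff] at e; exact e.symm)⟩

theorem mem_trans {g : G} {B : Y} :
    g ∈ D.trans B ↔ g ∈ D.axGroup B ∧ (g = 1 ∨ ∀ x, ¬ D.Mem x B → g • x ≠ x) := Iff.rfl

theorem trans_conj {g h : G} {B : Y} (hg : g ∈ D.trans B) :
    h * g * h⁻¹ ∈ D.trans (h • B) := by
  refine ⟨D.ax_conj hg.1, ?_⟩
  rcases hg.2 with rfl | hf
  · exact Or.inl (by group)
  · refine Or.inr fun x hx he => hf (h⁻¹ • x) (fun hm => hx (D.mem_smul.2 hm)) ?_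
    rw [mul_smul, mul_smul] at he
    exact eq_inv_smul_iff.2 he

theorem trans_free {g : G} {B : Y} (hg : g ∈ D.trans B) {x : X} (hx : ¬ D.Mem x B)
    (h : g • x = x) : g = 1 := hg.2.resolve_right fun hf => hf x hx h

include hA in
theorem exists_trans {B : Y} {O P : X} (hO : ¬ D.Mem O B) (hP : ¬ D.Mem P B) :
    ∃ g ∈ D.trans B, g • O = P := by
  obtain ⟨g, hg, he⟩ := D.exists_elation hA hO hP
  exact ⟨g, D.mem_elSet.1 hg, he⟩

include hA in
theorem trans_unique {g g' : G} {B : Y} (hg : g ∈ D.trans B) (hg' : g' ∈ D.trans B) {O : X}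
    (hO : ¬ D.Mem O B) (he : g • O = g' • O) : g = g' :=
  D.elation_unique hA hg.1 hg'.1 hg.2 hg'.2 hO he

include hA in
theorem commute_of_line {g h : G} {B : Y} {a O : X} (hg : g ∈ D.trans B) (hh : h ∈ D.trans B)
    (haB : D.Mem a B) (ha : ∀ E, D.Mem a E → g • E = E) (hO : ¬ D.Mem O B)
    (hhO : h • O ∉ D.pl a O) : g * h = h * g := by
  have hh1 : h ≠ 1 := fun e => hhO (by rw [e, one_smul]; exact D.right_mem_pl a O)
  obtain ⟨b, hbB, hb⟩ := D.centre_mem hh.1 hh1 (hh.2.resolve_left hh1)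
  have hab : a ≠ b := fun e => hhO (e ▸ D.centre_line hb O)
  refine D.trans_unique hA ((D.trans B).mul_mem hg hh) ((D.trans B).mul_mem hh hg) hO ?_
  rw [mul_smul, mul_smul]
  by_contra hne
  have hgO : ¬ D.Mem (g • O) B := fun h' => hO ((D.ax_mem_iff hg.1 O).1 h')
  have hhO' : ¬ D.Mem (h • O) B := fun h' => hO ((D.ax_mem_iff hh.1 O).1 h')
  have hahO : a ≠ h • O := fun e => hhO' (e ▸ haB)
  have hbgO : b ≠ g • O := fun e => hgO (e ▸ hbB)
  have p1 : g • h • O ∈ D.pl a (h • O) := D.centre_line ha (h • O)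
  have p2 : h • g • O ∈ D.pl b (g • O) := D.centre_line hb (g • O)
  have p3 : g • h • O ∈ D.pl b (g • O) := by
    have := D.smul_mem_pl (g := g) (D.centre_line hb O)
    rwa [hg.1 b hbB] at this
  have p4 : h • g • O ∈ D.pl a (h • O) := by
    have := D.smul_mem_pl (g := h) (D.centre_line ha O)
    rwa [hh.1 a haB] at this
  have e1 := D.pl_eq hahO p1 p4 hne
  have e2 := D.pl_eq hbgO p3 p2 hne
  exact hhO' (D.pl_mem_of_two hahO (D.left_mem_pl a _)
    (show b ∈ D.pl a (h • O) from by rw [← e1, e2]; exact D.left_mem_pl b _) hab haB hbB).2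

include hA in
/-- Elations with a common axis commute. -/
theorem trans_comm {g h : G} {B : Y} (hg : g ∈ D.trans B) (hh : h ∈ D.trans B) :
    g * h = h * g := by
  by_cases hg1 : g = 1
  · rw [hg1, one_mul, mul_one]
  obtain ⟨a, haB, ha⟩ := D.centre_mem hg.1 hg1 (hg.2.resolve_left hg1)
  obtain ⟨O, hO⟩ := D.exists_not_mem B
  by_cases hh1 : h • O ∈ D.pl a O
  swap
  · exact D.commute_of_line hA hg hh haB ha hO hh1
  obtain ⟨x, hxB, hxl, -⟩ := D.exists_off_line hA B a O
  obtain ⟨t, ht, htx⟩ := D.exists_trans hA hO hxB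
  have e1 := D.commute_of_line hA hg ht haB ha hO (htx ▸ hxl)
  have haO : a ≠ O := fun e => hO (e ▸ haB)
  have e2 := D.commute_of_line hA hg ((D.trans B).mul_mem hh ht) haB ha hO (by
    intro hmem
    apply hxl
    rw [← htx]
    have h3 := D.smul_mem_pl (g := h⁻¹) hmem
    rw [mul_smul, inv_smul_smul, (D.axGroup B).inv_mem hh.1 a haB] at h3
    have h4 : h⁻¹ • O ∈ D.pl a O := by
      by_cases hhO : h • O = O
      · rw [← hhO, inv_smul_smul, hhO]; exact D.right_mem_pl a O
      · have he : D.pl a (h • O) = D.pl a O := D.pl_eq haO (D.left_mem_pl a O) hh1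
          (fun e => hO ((D.ax_mem_iff hh.1 O).1 (e ▸ haB)))
        have h5 := D.smul_mem_pl (g := h⁻¹) (show O ∈ D.pl a (h • O) from he ▸ D.right_mem_pl a O)
        rwa [inv_smul_smul, (D.axGroup B).inv_mem hh.1 a haB] at h5
    have hne : a ≠ h⁻¹ • O := fun e => hO
      ((D.ax_mem_iff ((D.axGroup B).inv_mem hh.1) O).1 (e ▸ haB))
    rwa [D.pl_eq haO (D.left_mem_pl a O) h4 hne] at h3)
  have e3 : g * h * t = h * g * t := by
    rw [mul_assoc, e2, mul_assoc, ← e1, ← mul_assoc]
  exact mul_right_cancel e3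

end Design

end CfsgLib.MetacyclicP.ItoDesign
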